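import Mathlib

/-!
Piece ALG1 of helper1's S4607 (Brandt) project (helper94): a symmetric finite-dimensional algebra
over an algebraically closed field with two-dimensional centre and a non-zero central nilpotent
element `z` maps onto a matrix algebra with nilpotent kernel killed by `z`.
-/

set_option autoImplicit false

namespace Cfsg.Agent.Lib.Helper94.BrandtAlg1

/-- Duality for a nondegenerate form: every functional is `lam (c * ·)`. -/
theorem dual_repr {F A : Type*} [Field F] [Ring A] [Algebra F A] [FiniteDimensional F A]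
    (lam : A →ₗ[F] F) (hnd : ∀ x, (∀ y, lam (x * y) = 0) → x = 0) (f : A →ₗ[F] F) :
    ∃ c : A, ∀ x, f x = lam (c * x) := by
  let Bm : A →ₗ[F] (A →ₗ[F] F) := (LinearMap.mul F A).compr₂ lam
  have hBm : ∀ c x : A, Bm c x = lam (c * x) := fun c x => rfl
  have hinj : Function.Injective Bm := by
    rw [← LinearMap.ker_eq_bot, LinearMap.ker_eq_bot']
    intro c hc
    exact hnd c (fun y => by rw [← hBm, hc]; rfl)
  have hfin : Module.finrank F A = Module.finrank F (A →ₗ[F] F) :=
    (Subspace.dual_finrank_eq).symm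
  obtain ⟨c, hc⟩ := (LinearMap.injective_iff_surjective_of_finrank_eq_finrank hfin).mp hinj f
  exact ⟨c, fun x => by rw [← hc]; rfl⟩

/-- An element representing a trace-like functional is central. -/
theorem central_of_trace {F A : Type*} [Field F] [Ring A] [Algebra F A]
    (lam : A →ₗ[F] F) (hsymm : ∀ x y, lam (x * y) = lam (y * x))
    (hnd : ∀ x, (∀ y, lam (x * y) = 0) → x = 0) (c : A)
    (hc : ∀ x y, lam (c * (x * y)) = lam (c * (y * x))) : c ∈ Subalgebra.center F A := by
  rw [Subalgebra.mem_center_iff]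
  intro x
  have h : x * c - c * x = 0 := by
    apply hnd
    intro y
    rw [sub_mul, map_sub, mul_assoc x c y, hsymm x (c * y), mul_assoc c y x, ← hc, mul_assoc,
      sub_self]
  exact sub_eq_zero.mp h

theorem brandt_alg1 {F A : Type*} [Field F] [IsAlgClosed F] [Ring A] [Algebra F A]
    [FiniteDimensional F A]
    (lam : A →ₗ[F] F) (hsymm : ∀ x y, lam (x * y) = lam (y * x))
    (hnd : ∀ x, (∀ y, lam (x * y) = 0) → x = 0)
    (hZ : Module.finrank F (Subalgebra.center F A) = 2)
    (z : A) (hzc : z ∈ Subalgebra.center F A) (hz0 : z ≠ 0) (hznil : IsNilpotent z) :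
    ∃ (n : ℕ) (_ : NeZero n) (π : A →ₐ[F] Matrix (Fin n) (Fin n) F),
      Function.Surjective π ∧
      (∃ N : ℕ, ∀ l : List A, l.length = N → (∀ x ∈ l, π x = 0) → l.prod = 0) ∧
      (∀ j, π j = 0 → z * j = 0) ∧ π z = 0 := by
  classical
  haveI : Nontrivial A := ⟨⟨z, 0, hz0⟩⟩
  haveI : IsArtinianRing A := IsArtinianRing.of_finite F A
  have hJnil : IsNilpotent (Ring.jacobson A) := IsSemiprimaryRing.isNilpotent
  obtain ⟨m, d, hd, ⟨e⟩⟩ :=
    IsSemisimpleRing.exists_algEquiv_pi_matrix_of_isAlgClosed F (A ⧸ Ring.jacobson A)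
  obtain ⟨q, hq⟩ : ∃ q : A →ₐ[F] A ⧸ Ring.jacobson A,
      q = Ideal.Quotient.mkₐ F (Ring.jacobson A) := ⟨_, rfl⟩
  have hqsurj : Function.Surjective q := by
    rw [hq]; exact Ideal.Quotient.mkₐ_surjective F _
  have hqJ : ∀ x, q x = 0 ↔ x ∈ Ring.jacobson A := by
    intro x
    rw [hq]
    exact Ideal.Quotient.eq_zero_iff_mem
  obtain ⟨ρ, hρ⟩ : ∃ ρ : A →ₐ[F] (Π i, Matrix (Fin (d i)) (Fin (d i)) F),
      ρ = e.toAlgHom.comp q := ⟨_, rfl⟩
  have hρsurj : Function.Surjective ρ := by
    rw [hρ]; exact e.surjective.comp hqsurj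
  have hρJ : ∀ x, ρ x = 0 ↔ x ∈ Ring.jacobson A := by
    intro x
    rw [← hqJ, hρ]
    show e (q x) = 0 ↔ q x = 0
    exact EmbeddingLike.map_eq_zero_iff
  obtain ⟨N, hN⟩ := hJnil
  have hprod : ∀ l : List A, (∀ x ∈ l, x ∈ Ring.jacobson A) →
      l.prod ∈ Ring.jacobson A ^ l.length := by
    intro l
    induction l with
    | nil =>
      intro _
      rw [List.prod_nil, List.length_nil, Submodule.pow_zero, Ideal.one_eq_top]
      exact Submodule.mem_top
    | cons a l ih =>
      intro h
      rw [List.prod_cons, List.length_cons, Ideal.IsTwoSided.pow_succ]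
      exact Ideal.mul_mem_mul (h a List.mem_cons_self)
        (ih (fun x hx => h x (List.mem_cons_of_mem _ hx)))
  have hJ1 : (1 : A) ∉ Ring.jacobson A := by
    intro h1
    have h2 := hprod (List.replicate N 1) (fun x hx => by
      rw [List.eq_of_mem_replicate hx]; exact h1)
    rw [List.length_replicate, hN, List.prod_replicate, one_pow, Ideal.zero_eq_bot,
      Ideal.mem_bot] at h2
    exact one_ne_zero h2
  -- (1) `z` lies in the radical
  have hzJ : z ∈ Ring.jacobson A := by
    rw [← hρJ]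
    obtain ⟨k, hk⟩ := hznil
    funext i
    haveI := hd i
    have hcomm : ∀ r s : Fin (d i), Commute (Matrix.single r s (1 : F)) (ρ z i) := by
      intro r s
      obtain ⟨a, ha⟩ := hρsurj (Pi.single i (Matrix.single r s (1 : F)))
      have h1 : ρ a * ρ z = ρ z * ρ a := by
        rw [← map_mul, ← map_mul, (Subalgebra.mem_center_iff.mp hzc) a]
      have h2 := congrFun h1 i
      rw [Pi.mul_apply, Pi.mul_apply, ha, Pi.single_eq_same] at h2
      exact h2
    obtain ⟨c, hc⟩ := Matrix.mem_range_scalar_iff_commute_single'.mpr hcomm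
    have h3 : (ρ z i) ^ k = 0 := by
      have h4 : ρ z ^ k = 0 := by rw [← map_pow, hk, map_zero]
      have h5 := congrFun h4 i
      rw [Pi.pow_apply] at h5
      exact h5
    rw [← hc, ← map_pow] at h3
    have h5 : c ^ k = 0 := by
      have h6 := congrFun (congrFun h3 0) 0
      rw [Matrix.scalar_apply, Matrix.diagonal_apply_eq] at h6
      exact h6
    have h7 : c = 0 := IsNilpotent.eq_zero ⟨k, h5⟩
    rw [← hc, h7, map_zero]
    rfl
  -- the centre is spanned by `1` and `z`
  have hcenter : ∀ c ∈ Subalgebra.center F A, ∃ a b : F, c = a • (1 : A) + b • z := by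
    let g : F × F →ₗ[F] Subalgebra.center F A :=
      (LinearMap.toSpanSingleton F (Subalgebra.center F A) 1).coprod
        (LinearMap.toSpanSingleton F (Subalgebra.center F A) ⟨z, hzc⟩)
    have hg : ∀ p : F × F, ((g p : Subalgebra.center F A) : A) = p.1 • (1 : A) + p.2 • z :=
      fun p => rfl
    have hinj : Function.Injective g := by
      rw [← LinearMap.ker_eq_bot, LinearMap.ker_eq_bot']
      rintro ⟨a, b⟩ h
      have h1 : a • (1 : A) + b • z = 0 := by
        have := hg (a, b)
        rw [h] at this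
        exact this.symm
      have hb : b = 0 := by
        by_contra hb
        have h2 : z = (-(b⁻¹ * a)) • (1 : A) := by
          have h3 : b • z = -(a • (1 : A)) := eq_neg_of_add_eq_zero_right h1
          calc z = b⁻¹ • (b • z) := by rw [smul_smul, inv_mul_cancel₀ hb, one_smul]
            _ = (-(b⁻¹ * a)) • (1 : A) := by rw [h3, smul_neg, smul_smul, neg_smul]
        obtain ⟨k, hk⟩ := hznil
        rw [h2, smul_pow, one_pow] at hk
        rcases smul_eq_zero.mp hk with h3 | h3
        · have h4 : -(b⁻¹ * a) = 0 := IsNilpotent.eq_zero ⟨k, h3⟩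
          rw [h4, zero_smul] at h2
          exact hz0 h2
        · exact one_ne_zero h3
      rw [hb, zero_smul, add_zero] at h1
      have ha : a = 0 := by
        rcases smul_eq_zero.mp h1 with h3 | h3
        · exact h3
        · exact absurd h3 one_ne_zero
      rw [ha, hb]
      rfl
    have hfin : Module.finrank F (F × F) = Module.finrank F (Subalgebra.center F A) := by
      rw [hZ, Module.finrank_prod, Module.finrank_self]
    have hsurj := (LinearMap.injective_iff_surjective_of_finrank_eq_finrank hfin).mp hinj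
    intro c hc
    obtain ⟨⟨a, b⟩, hab⟩ := hsurj ⟨c, hc⟩
    refine ⟨a, b, ?_⟩
    have h1 := hg (a, b)
    rw [hab] at h1
    exact h1
  -- (2) the trace functionals
  have hτ : ∀ i : Fin m, ∃ c : A, c ∈ Subalgebra.center F A ∧
      (∀ x, lam (c * x) = Matrix.trace (ρ x i)) ∧ ∀ j ∈ Ring.jacobson A, c * j = 0 := by
    intro i
    let τ : A →ₗ[F] F := (Matrix.traceLinearMap (Fin (d i)) F F).comp
      ((LinearMap.proj i).comp ρ.toLinearMap)
    have hτ : ∀ x, τ x = Matrix.trace (ρ x i) := fun x => rfl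
    obtain ⟨c, hc⟩ := dual_repr lam hnd τ
    have hc' : ∀ x, lam (c * x) = Matrix.trace (ρ x i) := fun x => by rw [← hc, hτ]
    refine ⟨c, ?_, hc', ?_⟩
    · apply central_of_trace lam hsymm hnd
      intro x y
      rw [hc', hc', map_mul, map_mul, Pi.mul_apply, Pi.mul_apply, Matrix.trace_mul_comm]
    · intro j hj
      apply hnd
      intro y
      rw [mul_assoc, hc']
      have h1 : ρ (j * y) = 0 := (hρJ _).mpr (Ideal.mul_mem_right _ _ hj)
      rw [h1, Pi.zero_apply, Matrix.trace_zero]
  -- (3) a central element killing the radical is a multiple of `z`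
  have hcz : ∀ c ∈ Subalgebra.center F A, (∀ j ∈ Ring.jacobson A, c * j = 0) →
      ∃ b : F, c = b • z := by
    intro c hc hcJ
    obtain ⟨a, b, rfl⟩ := hcenter c hc
    refine ⟨b, ?_⟩
    have ha : a = 0 := by
      by_contra ha
      have hu : IsUnit ((1 : A) + (b / a) • z) := IsNilpotent.isUnit_one_add (hznil.smul _)
      have h1 := hcJ z hzJ
      have h2 : a • (1 : A) + b • z = a • ((1 : A) + (b / a) • z) := by
        rw [smul_add, smul_smul, mul_div_cancel₀ _ ha]
      rw [h2, smul_mul_assoc] at h1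
      rcases smul_eq_zero.mp h1 with h3 | h3
      · exact ha h3
      · exact hz0 (hu.mul_right_eq_zero.mp h3)
    rw [ha, zero_smul, zero_add]
  -- exactly one matrix block
  have hm : m = 1 := by
    have hm1 : m ≤ 1 := by
      by_contra hcon
      push Not at hcon
      obtain ⟨i0, i1, hne⟩ : ∃ i0 i1 : Fin m, i0 ≠ i1 :=
        ⟨⟨0, by omega⟩, ⟨1, hcon⟩, fun h => by simpa using congrArg Fin.val h⟩
      obtain ⟨c0, hc0, hc0', hc0J⟩ := hτ i0
      obtain ⟨c1, hc1, hc1', hc1J⟩ := hτ i1
      obtain ⟨b0, rfl⟩ := hcz c0 hc0 hc0J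
      obtain ⟨b1, rfl⟩ := hcz c1 hc1 hc1J
      haveI := hd i0
      haveI := hd i1
      obtain ⟨u, hu⟩ := hρsurj (Pi.single i0 (Matrix.single (0 : Fin (d i0)) 0 (1 : F)))
      have h0 := hc0' u
      have h1 := hc1' u
      rw [hu, Pi.single_eq_same, Matrix.trace_single_eq_same, smul_mul_assoc, map_smul,
        smul_eq_mul] at h0
      rw [hu, Pi.single_eq_of_ne hne.symm, Matrix.trace_zero, smul_mul_assoc, map_smul,
        smul_eq_mul] at h1
      have hzu : lam (z * u) ≠ 0 := by
        intro h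
        rw [h, mul_zero] at h0
        exact zero_ne_one h0
      have hb1 : b1 = 0 := by
        rcases mul_eq_zero.mp h1 with h | h
        · exact h
        · exact absurd h hzu
      obtain ⟨u', hu'⟩ := hρsurj (Pi.single i1 (Matrix.single (0 : Fin (d i1)) 0 (1 : F)))
      have h2 := hc1' u'
      rw [hu', Pi.single_eq_same, Matrix.trace_single_eq_same, hb1, zero_smul, zero_mul,
        map_zero] at h2
      exact zero_ne_one h2
    have hm0 : m ≠ 0 := by
      rintro rfl
      apply hJ1
      rw [← hρJ]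
      funext i
      exact i.elim0
    omega
  subst hm
  haveI := hd 0
  obtain ⟨c, hc, hc', hcJ⟩ := hτ 0
  obtain ⟨b, rfl⟩ := hcz c hc hcJ
  have hb : b ≠ 0 := by
    rintro rfl
    obtain ⟨u, hu⟩ := hρsurj (Pi.single 0 (Matrix.single (0 : Fin (d 0)) 0 (1 : F)))
    have h0 := hc' u
    rw [hu, Pi.single_eq_same, Matrix.trace_single_eq_same, zero_smul, zero_mul, map_zero] at h0
    exact zero_ne_one h0
  have hzJ0 : ∀ j ∈ Ring.jacobson A, z * j = 0 := by
    intro j hj
    have h1 := hcJ j hj
    rw [smul_mul_assoc] at h1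
    rcases smul_eq_zero.mp h1 with h | h
    · exact absurd h hb
    · exact h
  obtain ⟨π, hπ⟩ : ∃ π : A →ₐ[F] Matrix (Fin (d 0)) (Fin (d 0)) F, ∀ x, π x = ρ x 0 :=
    ⟨(Pi.evalAlgHom F (fun i : Fin 1 => Matrix (Fin (d i)) (Fin (d i)) F) 0).comp ρ,
      fun x => rfl⟩
  have hπJ : ∀ x, π x = 0 ↔ x ∈ Ring.jacobson A := by
    intro x
    rw [hπ, ← hρJ]
    constructor
    · intro h
      funext i
      have hi : i = 0 := Subsingleton.elim i 0
      subst hi
      exact h
    · intro h
      rw [h]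
      rfl
  refine ⟨d 0, hd 0, π, ?_, ⟨N, ?_⟩, ?_, ?_⟩
  · intro M
    obtain ⟨a, ha⟩ := hρsurj (Pi.single 0 M)
    exact ⟨a, by rw [hπ, ha, Pi.single_eq_same]⟩
  · intro l hl hl0
    have h1 := hprod l (fun x hx => (hπJ x).mp (hl0 x hx))
    rw [hl, hN, Ideal.zero_eq_bot, Ideal.mem_bot] at h1
    exact h1
  · intro j hj
    exact hzJ0 j ((hπJ j).mp hj)
  · exact (hπJ z).mpr hzJ

end Cfsg.Agent.Lib.Helper94.BrandtAlg1
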