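import Mathlib
import Cfsg.Agent.Lib.Helper13.FumDefs

set_option autoImplicit false
set_option linter.unusedVariables false

/-!
# S4330 piece DECA: maximal subgroups of `B` with nonzero fixed points
-/

namespace Cfsg.Agent.Lib.Helper94.Fum

open Cfsg.Agent.Lib.Helper13.Fum
open scoped Pointwise

theorem fixA_conj {V : Type*} [AddCommGroup V] (k : AAut V) (H : Subgroup (AAut V)) {v : V}
    (hv : v ∈ fixA H) : k • v ∈ fixA (H.map (MulAut.conj k).toMonoidHom) := by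
  rintro _ ⟨h, hh, rfl⟩
  have : (MulAut.conj k).toMonoidHom h = k * h * k⁻¹ := rfl
  rw [this, mul_smul, mul_smul, inv_smul_smul, hv h hh]

theorem fixA_sup {V : Type*} [AddCommGroup V] (H H' : Subgroup (AAut V)) :
    fixA H ⊓ fixA H' ≤ fixA (H ⊔ H') := by
  rintro v ⟨hv, hv'⟩ g hg
  have h1 : H ⊔ H' ≤ MulAction.stabilizer (AAut V) v :=
    sup_le (fun h hh => MulAction.mem_stabilizer_iff.2 (hv h hh))
      (fun h hh => MulAction.mem_stabilizer_iff.2 (hv' h hh))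
  exact MulAction.mem_stabilizer_iff.1 (h1 hg)

theorem exists_maxfix {V : Type*} [AddCommGroup V] [Finite V] [Nontrivial V]
    (K : Subgroup (AAut V)) (hirr : Irr K) (B : Subgroup (AAut V)) (hBK : B ≤ K)
    (hBn : ∀ k ∈ K, ∀ b ∈ B, k * b * k⁻¹ ∈ B)
    (H₀ : Subgroup (AAut V)) (hHB : H₀ ≤ B) (hH : H₀ ≠ ⊥) (hfix : fixA H₀ ≠ ⊥) :
    ∃ L : Finset (Subgroup (AAut V)), L.Nonempty ∧
      (∀ H ∈ L, H ≤ B ∧ H ≠ ⊥ ∧ fixA H ≠ ⊥) ∧
      (∀ H ∈ L, ∀ H' ∈ L, H ≠ H' → fixA H ⊓ fixA H' = ⊥) ∧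
      (∀ k ∈ K, ∀ H ∈ L, H.map (MulAut.conj k).toMonoidHom ∈ L) ∧
      (⨆ H ∈ L, fixA H) = ⊤ := by
  classical
  have hfinS : {H : Subgroup (AAut V) | H ≤ B ∧ fixA H ≠ ⊥}.Finite := Set.toFinite _
  have hfin : {H : Subgroup (AAut V) |
      Maximal (· ∈ {H : Subgroup (AAut V) | H ≤ B ∧ fixA H ≠ ⊥}) H}.Finite := Set.toFinite _
  have conjP : ∀ k ∈ K, ∀ H : Subgroup (AAut V), (H ≤ B ∧ fixA H ≠ ⊥) →
      (H.map (MulAut.conj k).toMonoidHom ≤ B ∧
        fixA (H.map (MulAut.conj k).toMonoidHom) ≠ ⊥) := by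
    rintro k hk H ⟨hHB', hHfix⟩
    refine ⟨?_, ?_⟩
    · rintro _ ⟨h, hh, rfl⟩
      exact hBn k hk h (hHB' hh)
    · intro hbot
      apply hHfix
      rw [eq_bot_iff]
      intro v hv
      have h1 := fixA_conj k H hv
      rw [hbot, AddSubgroup.mem_bot] at h1
      rw [AddSubgroup.mem_bot]
      exact (smul_eq_zero_iff_eq k).1 h1
  have conj_back : ∀ (k : AAut V) (H Y : Subgroup (AAut V)),
      H.map (MulAut.conj k).toMonoidHom ≤ Y → H ≤ Y.map (MulAut.conj k⁻¹).toMonoidHom := by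
    intro k H Y hle x hx
    refine ⟨k * x * k⁻¹, hle ⟨x, hx, rfl⟩, ?_⟩
    show k⁻¹ * (k * x * k⁻¹) * k⁻¹⁻¹ = x
    group
  have conj_back' : ∀ (k : AAut V) (H Y : Subgroup (AAut V)),
      Y.map (MulAut.conj k⁻¹).toMonoidHom ≤ H → Y ≤ H.map (MulAut.conj k).toMonoidHom := by
    intro k H Y hle y hy
    refine ⟨k⁻¹ * y * k⁻¹⁻¹, hle ⟨y, hy, rfl⟩, ?_⟩
    show k * (k⁻¹ * y * k⁻¹⁻¹) * k⁻¹ = y
    group
  have hne : hfin.toFinset.Nonempty := by
    obtain ⟨H, -, hHmax⟩ := hfinS.exists_le_maximal (a := H₀) ⟨hHB, hfix⟩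
    exact ⟨H, (Set.Finite.mem_toFinset hfin).2 hHmax⟩
  have hL1 : ∀ H ∈ hfin.toFinset, H ≤ B ∧ H ≠ ⊥ ∧ fixA H ≠ ⊥ := by
    intro H hHL
    have hmax : Maximal (· ∈ {H : Subgroup (AAut V) | H ≤ B ∧ fixA H ≠ ⊥}) H :=
      (Set.Finite.mem_toFinset hfin).1 hHL
    refine ⟨hmax.1.1, ?_, hmax.1.2⟩
    rintro rfl
    exact hH (le_bot_iff.1 (hmax.2 (show H₀ ∈ {H : Subgroup (AAut V) | H ≤ B ∧ fixA H ≠ ⊥}
      from ⟨hHB, hfix⟩) bot_le))
  refine ⟨hfin.toFinset, hne, hL1, ?_, ?_, ?_⟩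
  · intro H hHL H' hH'L hHH'
    have hmax : Maximal (· ∈ {H : Subgroup (AAut V) | H ≤ B ∧ fixA H ≠ ⊥}) H :=
      (Set.Finite.mem_toFinset hfin).1 hHL
    have hmax' : Maximal (· ∈ {H : Subgroup (AAut V) | H ≤ B ∧ fixA H ≠ ⊥}) H' :=
      (Set.Finite.mem_toFinset hfin).1 hH'L
    by_contra hcon
    apply hHH'
    have hsup : H ⊔ H' ∈ {H : Subgroup (AAut V) | H ≤ B ∧ fixA H ≠ ⊥} := by
      refine ⟨sup_le hmax.1.1 hmax'.1.1, ?_⟩
      intro hbot
      apply hcon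
      rw [eq_bot_iff, ← hbot]
      exact fixA_sup H H'
    have h1 : H ⊔ H' ≤ H := hmax.2 hsup le_sup_left
    have h2 : H ⊔ H' ≤ H' := hmax'.2 hsup le_sup_right
    exact le_antisymm (le_sup_left.trans h2) (le_sup_right.trans h1)
  · intro k hk H hHL
    have hmax : Maximal (· ∈ {H : Subgroup (AAut V) | H ≤ B ∧ fixA H ≠ ⊥}) H :=
      (Set.Finite.mem_toFinset hfin).1 hHL
    rw [Set.Finite.mem_toFinset]
    refine ⟨conjP k hk H hmax.1, ?_⟩
    intro Y hY hle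
    have h1 := conj_back k H Y hle
    have h2 := conjP k⁻¹ (K.inv_mem hk) Y hY
    have h3 := hmax.2 h2 h1
    exact conj_back' k H Y h3
  · -- the span of the fixed spaces is everything
    have hinv : ∀ k ∈ K, ∀ w ∈ (⨆ H ∈ hfin.toFinset, fixA H), k • w ∈
        (⨆ H ∈ hfin.toFinset, fixA H) := by
      intro k hk w hw
      have hle : (⨆ H ∈ hfin.toFinset, fixA H) ≤
          AddSubgroup.comap (DistribSMul.toAddMonoidHom V k)
            (⨆ H ∈ hfin.toFinset, fixA H) := by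
        apply iSup₂_le
        intro H hHL v hv
        rw [AddSubgroup.mem_comap]
        have hmax : Maximal (· ∈ {H : Subgroup (AAut V) | H ≤ B ∧ fixA H ≠ ⊥}) H :=
          (Set.Finite.mem_toFinset hfin).1 hHL
        have hkL : H.map (MulAut.conj k).toMonoidHom ∈ hfin.toFinset := by
          rw [Set.Finite.mem_toFinset]
          refine ⟨conjP k hk H hmax.1, ?_⟩
          intro Y hY hle
          exact conj_back' k H Y (hmax.2 (conjP k⁻¹ (K.inv_mem hk) Y hY) (conj_back k H Y hle))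
        have h1 : fixA (H.map (MulAut.conj k).toMonoidHom) ≤ ⨆ H ∈ hfin.toFinset, fixA H :=
          le_iSup₂ (f := fun (H : Subgroup (AAut V)) (_ : H ∈ hfin.toFinset) => fixA H)
            (H.map (MulAut.conj k).toMonoidHom) hkL
        exact h1 (fixA_conj k H hv)
      exact hle hw
    rcases hirr _ hinv with hbot | htop
    · exfalso
      obtain ⟨H, hHL⟩ := hne
      have h1 : fixA H ≤ ⨆ H ∈ hfin.toFinset, fixA H :=
        le_iSup₂ (f := fun (H : Subgroup (AAut V)) (_ : H ∈ hfin.toFinset) => fixA H) H hHL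
      rw [hbot] at h1
      exact (hL1 H hHL).2.2 (le_bot_iff.1 h1)
    · exact htop

end Cfsg.Agent.Lib.Helper94.Fum
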