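import Mathlib
import Cfsg.Agent.Lib.Helper18.LSDefs
import Cfsg.Agent.Lib.Helper18.WRDefs

set_option autoImplicit false

namespace Cfsg.Agent.Lib.Helper18.WR

open Matrix

universe u

variable {F : Type u} [Field F] {n : ℕ}

-- piece TWO
theorem two_ne_zero_of_odd [Fintype F] (h : Odd (Fintype.card F)) : (2 : F) ≠ 0 := by
  intro h2
  have hc : ringChar F = 2 := by
    have hd : ringChar F ∣ 2 := by
      apply (ringChar.spec F 2).1
      exact_mod_cast h2
    rcases (Nat.dvd_prime Nat.prime_two).1 hd with h1 | h1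
    · exact absurd h1 (CharP.ringChar_ne_one)
    · exact h1
  have hev : Fintype.card F % 2 = 0 := (FiniteField.even_card_iff_char_two (F := F)).1 hc
  exact (Nat.not_even_iff_odd.2 h) (Nat.even_iff.2 hev)

end Cfsg.Agent.Lib.Helper18.WR
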