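import Mathlib

/-!
# Project QB (helper48, S2359): piece NTB (`nt_b`), helper94

For `q ≡ 3 mod 8`, `3 ∣ q` and a prime `r ∣ (q + 1) / 4`: `r` is odd, `r ≠ 3`, `r ∣ q + 1`,
`r ∤ q ^ 3 * (q - 1)`, and the `r`-parts of `q (q - 1) (q + 1)` and `q ^ 3 (q - 1) (q ^ 3 + 1)`
agree.
-/

set_option autoImplicit false

namespace Cfsg.Agent.Lib.Helper48.QB

theorem nt_b (q r : ℕ) (hq8 : q % 8 = 3) (h3 : 3 ∣ q) (hr : r.Prime) (hdvd : r ∣ (q + 1) / 4) :
    (q * (q - 1) * (q + 1)).factorization r = (q ^ 3 * (q - 1) * (q ^ 3 + 1)).factorization r ∧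
      r ≠ 2 ∧ r ≠ 3 ∧ ¬ r ∣ q ^ 3 * (q - 1) ∧ r ∣ q + 1 := by
  obtain ⟨m, rfl⟩ : ∃ m, q = 8 * m + 3 := ⟨q / 8, by omega⟩
  have e1 : (8 * m + 3 + 1) / 4 = 2 * m + 1 := by omega
  rw [e1] at hdvd
  have e2 : 8 * m + 3 - 1 = 8 * m + 2 := by omega
  rw [e2]
  have hq1 : r ∣ 8 * m + 3 + 1 := by
    have e : 8 * m + 3 + 1 = (2 * m + 1) * 4 := by ring
    rw [e]
    exact Dvd.dvd.mul_right hdvd 4
  have hr2 : r ≠ 2 := by
    rintro rfl
    omega
  have hr3 : r ≠ 3 := by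
    rintro rfl
    omega
  have hnq : ¬ r ∣ 8 * m + 3 := by
    intro h
    have h1 : r ∣ 1 := (Nat.dvd_add_right h).mp hq1
    exact hr.one_lt.ne' (Nat.dvd_one.mp h1)
  have hnq1 : ¬ r ∣ 8 * m + 2 := by
    intro h
    have h2 : r ∣ 2 := by
      have e : 8 * m + 3 + 1 = (8 * m + 2) + 2 := by ring
      rw [e] at hq1
      exact (Nat.dvd_add_right h).mp hq1
    exact hr2 ((Nat.prime_dvd_prime_iff_eq hr Nat.prime_two).mp h2)
  have hnc : ¬ r ∣ (8 * m + 3) * (8 * m + 2) + 1 := by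
    intro h
    have h3' : r ∣ 3 := by
      have e : (8 * m + 3) * (8 * m + 2) + 1 = (8 * m + 3 + 1) * (8 * m + 1) + 3 := by ring
      rw [e] at h
      exact (Nat.dvd_add_right (Dvd.dvd.mul_right hq1 _)).mp h
    exact hr3 ((Nat.prime_dvd_prime_iff_eq hr Nat.prime_three).mp h3')
  have hcube : (8 * m + 3) ^ 3 + 1 = (8 * m + 3 + 1) * ((8 * m + 3) * (8 * m + 2) + 1) := by
    ring
  refine ⟨?_, hr2, hr3, ?_, hq1⟩
  · rw [hcube]
    have f0 : (8 * m + 3).factorization r = 0 := Nat.factorization_eq_zero_of_not_dvd hnq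
    have f1 : (8 * m + 2).factorization r = 0 := Nat.factorization_eq_zero_of_not_dvd hnq1
    have f2 : ((8 * m + 3) * (8 * m + 2) + 1).factorization r = 0 :=
      Nat.factorization_eq_zero_of_not_dvd hnc
    have A : 8 * m + 3 ≠ 0 := by omega
    have B : 8 * m + 2 ≠ 0 := by omega
    have C : 8 * m + 3 + 1 ≠ 0 := by omega
    have D : (8 * m + 3) * (8 * m + 2) + 1 ≠ 0 := Nat.succ_ne_zero _
    rw [Nat.factorization_mul (mul_ne_zero A B) C, Nat.factorization_mul A B,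
      Nat.factorization_mul (mul_ne_zero (pow_ne_zero 3 A) B) (mul_ne_zero C D),
      Nat.factorization_mul (pow_ne_zero 3 A) B, Nat.factorization_mul C D,
      Nat.factorization_pow]
    simp [f0, f1, f2]
  · intro h
    rcases (Nat.Prime.dvd_mul hr).mp h with h | h
    · exact hnq (hr.dvd_of_dvd_pow h)
    · exact hnq1 h

end Cfsg.Agent.Lib.Helper48.QB
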