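import Mathlib
import Cfsg.Agent.Lib.Helper59.XS0

/-!
# S3054 / S3055 piece GB : the representation of `N_G(P)` on `P / Z`
-/

set_option autoImplicit false

namespace Cfsg.Agent.Lib.Helper94.XSGB

open Cfsg.Agent.Lib.Helper59.XS

variable {G : Type*} [Group G]

theorem conj_mem_Z {p : ℕ} {P Z : Subgroup G} (h : Setup p P Z) {n : G}
    (hn : n ∈ Subgroup.normalizer (P : Set G)) {z : G} (hz : z ∈ Z) : n * z * n⁻¹ ∈ Z := by
  have hzP : n * z * n⁻¹ ∈ P := (hn z).mp (h.hZP hz)
  apply h.hZmem _ hzP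
  intro a ha
  have ha' : n⁻¹ * a * n ∈ P := by
    apply (hn (n⁻¹ * a * n)).mpr
    have e : n * (n⁻¹ * a * n) * n⁻¹ = a := by group
    rw [e]
    exact ha
  have hc := h.hZc z hz _ ha'
  calc a * (n * z * n⁻¹) = n * ((n⁻¹ * a * n) * z) * n⁻¹ := by group
    _ = n * (z * (n⁻¹ * a * n)) * n⁻¹ := by rw [hc]
    _ = n * z * n⁻¹ * a := by group

theorem exists_mat {p : ℕ} [Fact p.Prime] {P Z : Subgroup G}
    (κ : ↥P →* Multiplicative (Fin 2 → ZMod p)) (hκs : Function.Surjective κ)
    (hκk : ∀ u : ↥P, κ u = 1 ↔ (u : G) ∈ Z) (φ : MulAut P)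
    (hφ : ∀ u : P, (u : G) ∈ Z → ((φ u : P) : G) ∈ Z) :
    ∃ M : Matrix (Fin 2) (Fin 2) (ZMod p), ∀ u : P,
      Multiplicative.toAdd (κ (φ u)) = M.mulVec (Multiplicative.toAdd (κ u)) := by
  classical
  have key : ∀ u u' : P, κ u = κ u' → κ (φ u) = κ (φ u') := by
    intro u u' huu
    have h1 : κ (u'⁻¹ * u) = 1 := by rw [map_mul, map_inv, huu, inv_mul_cancel]
    have h2 := hφ _ ((hκk _).mp h1)
    have h3 := (hκk _).mpr h2
    rw [map_mul, map_mul, map_inv, map_inv, inv_mul_eq_one] at h3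
    exact h3.symm
  let s : (Fin 2 → ZMod p) → P := fun v => Function.surjInv hκs (Multiplicative.ofAdd v)
  have hs : ∀ v, κ (s v) = Multiplicative.ofAdd v := fun v => Function.surjInv_eq hκs _
  let L : (Fin 2 → ZMod p) →+ (Fin 2 → ZMod p) :=
    { toFun := fun v => Multiplicative.toAdd (κ (φ (s v)))
      map_zero' := by
        have : κ (s 0) = κ 1 := by rw [hs, map_one]; rfl
        rw [key _ _ this, map_one, map_one]; rfl
      map_add' := by
        intro v w
        have : κ (s (v + w)) = κ (s v * s w) := by rw [hs, map_mul, hs, hs]; rfl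
        rw [key _ _ this, map_mul, map_mul]; rfl }
  refine ⟨LinearMap.toMatrix' (L.toZModLinearMap p), ?_⟩
  intro u
  rw [← Matrix.toLin'_apply, Matrix.toLin'_toMatrix']
  show _ = Multiplicative.toAdd (κ (φ (s (Multiplicative.toAdd (κ u)))))
  congr 1
  apply key
  rw [hs]; rfl

theorem mat_unique {p : ℕ} (M M' : Matrix (Fin 2) (Fin 2) (ZMod p))
    (hM : ∀ v, M.mulVec v = M'.mulVec v) : M = M' := by
  apply Matrix.toLin'.injective
  apply LinearMap.ext
  intro v
  rw [Matrix.toLin'_apply, Matrix.toLin'_apply]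
  exact hM v

end Cfsg.Agent.Lib.Helper94.XSGB

namespace Cfsg.Agent.Lib.Helper59.XS

open Cfsg.Agent.Lib.Helper94.XSGB

variable {G : Type*} [Group G]

/-! ### Piece GB : the representation of `N_G(P)` on `P / Z` -/
theorem exists_rep {p : ℕ} [Fact p.Prime] [Finite G] (P : Sylow p G) {Z : Subgroup G}
    (h : Setup p (P : Subgroup G) Z)
    (κ : ↥(P : Subgroup G) →* Multiplicative (Fin 2 → ZMod p)) (hκs : Function.Surjective κ)
    (hκk : ∀ u : ↥(P : Subgroup G), κ u = 1 ↔ (u : G) ∈ Z) :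
    ∃ ρ : ↥(Subgroup.normalizer ((P : Subgroup G) : Set G)) →*
        Matrix.GeneralLinearGroup (Fin 2) (ZMod p),
      (∀ (n : ↥(Subgroup.normalizer ((P : Subgroup G) : Set G))) (u : ↥(P : Subgroup G)),
        Multiplicative.toAdd (κ (Subgroup.normalizerMonoidHom (P : Subgroup G) n u)) =
          Matrix.mulVec (ρ n : Matrix (Fin 2) (Fin 2) (ZMod p)) (Multiplicative.toAdd (κ u))) ∧
      ¬ p ∣ Nat.card ρ.range := by
  classical
  have hex : ∀ n : ↥(Subgroup.normalizer ((P : Subgroup G) : Set G)),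
      ∃ M : Matrix (Fin 2) (Fin 2) (ZMod p), ∀ u : ↥(P : Subgroup G),
      Multiplicative.toAdd (κ (Subgroup.normalizerMonoidHom (P : Subgroup G) n u)) =
        M.mulVec (Multiplicative.toAdd (κ u)) := by
    intro n
    apply exists_mat κ hκs hκk
    intro u hu
    exact conj_mem_Z h n.2 hu
  choose M hM using hex
  have huniq : ∀ (n : ↥(Subgroup.normalizer ((P : Subgroup G) : Set G)))
      (M' : Matrix (Fin 2) (Fin 2) (ZMod p)), (∀ u : ↥(P : Subgroup G),
      Multiplicative.toAdd (κ (Subgroup.normalizerMonoidHom (P : Subgroup G) n u)) =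
        M'.mulVec (Multiplicative.toAdd (κ u))) → M n = M' := by
    intro n M' hM'
    apply mat_unique
    intro v
    obtain ⟨u, hu⟩ := hκs (Multiplicative.ofAdd v)
    have h1 := hM n u
    have h2 := hM' u
    rw [hu] at h1 h2
    exact h1.symm.trans h2
  have hone : M 1 = 1 := by
    apply huniq
    intro u
    rw [map_one, Matrix.one_mulVec]
    rfl
  have hmul : ∀ a b, M (a * b) = M a * M b := by
    intro a b
    apply huniq
    intro u
    rw [map_mul, MulAut.mul_apply, hM a, hM b, Matrix.mulVec_mulVec]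
  let ρ₀ : ↥(Subgroup.normalizer ((P : Subgroup G) : Set G)) →*
      Matrix (Fin 2) (Fin 2) (ZMod p) :=
    { toFun := M, map_one' := hone, map_mul' := hmul }
  refine ⟨ρ₀.toHomUnits, ?_, ?_⟩
  · intro n u
    exact hM n u
  · have hker : (P : Subgroup G).subgroupOf (Subgroup.normalizer ((P : Subgroup G) : Set G)) ≤
        ρ₀.toHomUnits.ker := by
      intro n hn
      rw [MonoidHom.mem_ker]
      apply Units.ext
      show M n = 1
      apply huniq
      intro u
      rw [Matrix.one_mulVec]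
      congr 1
      have hn' : (n : G) ∈ (P : Subgroup G) := hn
      have e : Subgroup.normalizerMonoidHom (P : Subgroup G) n u =
          (⟨(n : G), hn'⟩ : ↥(P : Subgroup G)) * u * (⟨(n : G), hn'⟩ : ↥(P : Subgroup G))⁻¹ := by
        apply Subtype.ext
        rfl
      rw [e, map_mul, map_mul, map_inv, mul_comm, inv_mul_cancel_left]
    rw [← Subgroup.index_ker]
    intro hdvd
    have h1 := Subgroup.index_dvd_of_le hker
    have h2 : ((P : Subgroup G).subgroupOf
        (Subgroup.normalizer ((P : Subgroup G) : Set G))).index ∣ (P : Subgroup G).index :=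
      Subgroup.relIndex_dvd_index_of_le Subgroup.le_normalizer
    exact P.not_dvd_index (hdvd.trans (h1.trans h2))

end Cfsg.Agent.Lib.Helper59.XS
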