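import Cfsg.Agent.Lib.Helper6.OddGr1

set_option autoImplicit false
set_option linter.unusedSectionVars false
set_option linter.unusedVariables false

/-!
# Involution pairs: block B3 (a cycle orbit of period 2 and two bad path orbits)
-/

namespace Cfsg.Agent.Lib.Helper94.OddGr

open Equiv Cfsg.Agent.Lib.Helper6.OddGr

variable {Ω : Type*} [Fintype Ω] [DecidableEq Ω] {x y : Perm Ω}

/-- walk 1 of block B3 -/
def qB3a (x y : Perm Ω) (a e g : Ω) (h : ℕ) (i : ℕ) : Ω :=
  if i = 0 then e else if i = 1 then x a else if i = 2 then y a else if i = 3 then (x * y) a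
  else if i = 4 then a else if i ≤ 4 + h then ((x * y) ^ (i - 4)) e
  else if i = 5 + h then g else ((x * y) ^ (i - 5)) e

/-- walk 2 of block B3 -/
def qB3b (x y : Perm Ω) (g : Ω) (l : ℕ) (i : ℕ) : Ω :=
  if i < l - 1 then ((x * y) ^ (i + 1)) g else (x * y) g

theorem qB3a_0 (a e g : Ω) (h : ℕ) : qB3a x y a e g h 0 = e := by
  simp [qB3a]

theorem qB3a_1 (a e g : Ω) (h : ℕ) : qB3a x y a e g h 1 = x a := by
  simp [qB3a]

theorem qB3a_2 (a e g : Ω) (h : ℕ) : qB3a x y a e g h 2 = y a := by
  simp [qB3a]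

theorem qB3a_3 (a e g : Ω) (h : ℕ) : qB3a x y a e g h 3 = (x * y) a := by
  simp [qB3a]

theorem qB3a_4 (a e g : Ω) (h : ℕ) : qB3a x y a e g h 4 = a := by
  simp [qB3a]

theorem qB3a_mid (a e g : Ω) {h i : ℕ} (h1 : 5 ≤ i) (h2 : i ≤ 4 + h) :
    qB3a x y a e g h i = ((x * y) ^ (i - 4)) e := by
  unfold qB3a
  rw [if_neg (by omega), if_neg (by omega), if_neg (by omega), if_neg (by omega),
    if_neg (by omega), if_pos h2]

theorem qB3a_g (a e g : Ω) {h : ℕ} (h1 : 1 ≤ h) :
    qB3a x y a e g h (5 + h) = g := by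
  unfold qB3a
  rw [if_neg (by omega), if_neg (by omega), if_neg (by omega), if_neg (by omega),
    if_neg (by omega), if_neg (by omega), if_pos rfl]

theorem qB3a_hi (a e g : Ω) {h i : ℕ} (h1 : 1 ≤ h) (h2 : 6 + h ≤ i) :
    qB3a x y a e g h i = ((x * y) ^ (i - 5)) e := by
  unfold qB3a
  rw [if_neg (by omega), if_neg (by omega), if_neg (by omega), if_neg (by omega),
    if_neg (by omega), if_neg (by omega), if_neg (by omega)]

theorem pow_ne_pow (x y : Perm Ω) (s : Ω) {i j : ℕ} (hij : i < j) (hj : j < i + per x y s) :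
    ((x * y) ^ i) s ≠ ((x * y) ^ j) s := by
  intro h
  have e : j = i + (j - i) := by omega
  rw [e, pow_add, Perm.mul_apply] at h
  have h2 := ((x * y) ^ i).injective h
  have := Nat.le_of_dvd (by omega) ((pow_apply_eq_self_iff x y s (j - i)).1 h2.symm)
  omega

theorem blockB3 (hx : x * x = 1) (hy : y * y = 1) {a e g : Ω} (hct : CT x y a)
    (hpa : per x y a = 2) (he : y e = e) (hbe : Even (per x y e)) (hg : x g = g)
    (hbg : Even (per x y g)) (hge : g ∉ Orb x y e) :
    ∃ κ : Perm Ω, Solves x y κ (Orb x y a ∪ Orb x y e ∪ Orb x y g) := by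
  obtain ⟨n1, n2, n3, n4, n5, n6⟩ := hct.four_ne hx hy hpa
  obtain ⟨h, hh⟩ := hbe
  obtain ⟨h', hh'⟩ := hbg
  have hpe := per_pos x y e
  have hpg := per_pos x y g
  have hh1 : 1 ≤ h := by omega
  have hh'1 : 1 ≤ h' := by omega
  -- disjointness of the three orbits
  have dEA : Disjoint (Orb x y e) (Orb x y a) :=
    orb_disjoint hx hy (hct.not_mem_of_yfix hx hy he)
  have dGA : Disjoint (Orb x y g) (Orb x y a) :=
    orb_disjoint hx hy (hct.not_mem_of_xfix hx hy hg)
  have dGE : Disjoint (Orb x y g) (Orb x y e) := orb_disjoint hx hy hge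
  have neEA : ∀ {s t : Ω}, s ∈ Orb x y e → t ∈ Orb x y a → s ≠ t :=
    fun hs ht => dEA.ne_of_mem hs ht
  have neGA : ∀ {s t : Ω}, s ∈ Orb x y g → t ∈ Orb x y a → s ≠ t :=
    fun hs ht => dGA.ne_of_mem hs ht
  have neGE : ∀ {s t : Ω}, s ∈ Orb x y g → t ∈ Orb x y e → s ≠ t :=
    fun hs ht => dGE.ne_of_mem hs ht
  have m1 : a ∈ Orb x y a := mem_orb_self x y a
  have m2 : x a ∈ Orb x y a := x_mem_orb_self x y a
  have m3 : (x * y) a ∈ Orb x y a := orb_c m1
  have m4 : y a ∈ Orb x y a := orb_y hx hy m1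
  have me : e ∈ Orb x y e := mem_orb_self x y e
  have mg : g ∈ Orb x y g := mem_orb_self x y g
  have myg : y g ∈ Orb x y g := orb_y hx hy mg
  have mpe : ∀ k : ℕ, ((x * y) ^ k) e ∈ Orb x y e := by
    intro k
    rw [← zpow_natCast]
    exact zpow_mem_orb x y e k
  have mpg : ∀ k : ℕ, ((x * y) ^ k) g ∈ Orb x y g := by
    intro k
    rw [← zpow_natCast]
    exact zpow_mem_orb x y g k
  -- the second fixed point of `y` on the orbit of `e`
  have me₂ : ((x * y) ^ h) e ∈ Orb x y e := mpe h
  have hye₂ : y (((x * y) ^ h) e) = ((x * y) ^ h) e := by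
    rw [← zpow_natCast, y_zpow_apply hx hy, he, zpow_apply_eq_zpow_apply_iff, hh]
    refine ⟨-1, ?_⟩
    push_cast
    ring
  have hee₂ : e ≠ ((x * y) ^ h) e := by
    have := pow_ne_pow x y e (i := 0) (j := h) (by omega) (by omega)
    simpa using this
  -- `y g`
  have hyg : y g = ((x * y) ^ (h' + h' - 1)) g := by
    rw [y_apply_of_xfix hx hy hg, ← zpow_natCast, zpow_apply_eq_zpow_apply_iff, hh']
    refine ⟨-1, ?_⟩
    push_cast [Nat.cast_sub (show 1 ≤ h' + h' by omega)]
    ring
  have hgyg : g ≠ y g := by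
    rw [hyg]
    have := pow_ne_pow x y g (i := 0) (j := h' + h' - 1) (by omega) (by omega)
    simpa using this
  have hcyg : (x * y) (y g) = g := by
    rw [c_apply, apply_apply_of_sq hy, hg]
  -- distinctness of the six moved points
  have d_ae : a ≠ e := (neEA me m1).symm
  have d_aya : a ≠ y a := Ne.symm n3
  have d_eya : e ≠ y a := neEA me m4
  have d_ge₂ : g ≠ ((x * y) ^ h) e := neGE mg me₂
  have d_e₂yg : ((x * y) ^ h) e ≠ y g := (neGE myg me₂).symm
  have d_ag : a ≠ g := (neGA mg m1).symm
  have d_ae₂ : a ≠ ((x * y) ^ h) e := (neEA me₂ m1).symm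
  have d_ayg : a ≠ y g := (neGA myg m1).symm
  have d_eg : e ≠ g := (neGE mg me).symm
  have d_eyg : e ≠ y g := (neGE myg me).symm
  have d_yag : y a ≠ g := (neGA mg m4).symm
  have d_yae₂ : y a ≠ ((x * y) ^ h) e := (neEA me₂ m4).symm
  have d_yayg : y a ≠ y g := (neGA myg m4).symm
  have hcomm : Commute (c3 a e (y a)) (c3 g (((x * y) ^ h) e) (y g)) :=
    c3_commute d_ag d_ae₂ d_ayg d_eg hee₂ d_eyg d_yag d_yae₂ d_yayg
  have hK1 : (c3 a e (y a)) ^ 3 = 1 := c3_pow_three d_ae d_aya d_eya
  have hK2 : (c3 g (((x * y) ^ h) e) (y g)) ^ 3 = 1 := c3_pow_three d_ge₂ hgyg d_e₂yg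
  have hκ3 : (c3 a e (y a) * c3 g (((x * y) ^ h) e) (y g)) ^ 3 = 1 := by
    rw [hcomm.mul_pow, hK1, hK2, one_mul]
  refine ⟨c3 a e (y a) * c3 g (((x * y) ^ h) e) (y g), ?_, ?_, ⟨3, by decide, hκ3⟩, ?_⟩
  · intro s hs
    have s1 : s ≠ a := by rintro rfl; exact hs (Or.inl (Or.inl m1))
    have s2 : s ≠ e := by rintro rfl; exact hs (Or.inl (Or.inr me))
    have s3 : s ≠ y a := by rintro rfl; exact hs (Or.inl (Or.inl m4))
    have s4 : s ≠ g := by rintro rfl; exact hs (Or.inr mg)
    have s5 : s ≠ ((x * y) ^ h) e := by rintro rfl; exact hs (Or.inl (Or.inr me₂))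
    have s6 : s ≠ y g := by rintro rfl; exact hs (Or.inr myg)
    rw [Perm.mul_apply, c3_apply_of_ne s4 s5 s6, c3_apply_of_ne s1 s2 s3]
  · have e1 : y * (c3 a e (y a) * c3 g (((x * y) ^ h) e) (y g)) * y
        = (y * c3 a e (y a) * y) * (y * c3 g (((x * y) ^ h) e) (y g) * y) := by
      have : (y * c3 a e (y a) * y) * (y * c3 g (((x * y) ^ h) e) (y g) * y)
          = y * c3 a e (y a) * (y * y) * c3 g (((x * y) ^ h) e) (y g) * y := by
        simp only [mul_assoc]
      rw [this, hy, mul_one]
      simp only [mul_assoc]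
    rw [e1, c3_conj_invol hy, c3_conj_invol hy, he, apply_apply_of_sq hy, hye₂,
      apply_apply_of_sq hy, mul_inv_rev, c3_inv, c3_inv]
    have := hcomm.inv_inv
    rw [c3_inv, c3_inv] at this
    exact this.eq
  · -- values of σ
    have hσ : ∀ s, (x * y * (c3 a e (y a) * c3 g (((x * y) ^ h) e) (y g))) s
        = (x * y) (c3 a e (y a) (c3 g (((x * y) ^ h) e) (y g) s)) := fun s => rfl
    have hgen : ∀ s, s ≠ a → s ≠ e → s ≠ y a → s ≠ g → s ≠ ((x * y) ^ h) e → s ≠ y g →
        (x * y * (c3 a e (y a) * c3 g (((x * y) ^ h) e) (y g))) s = (x * y) s := by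
      intro s s1 s2 s3 s4 s5 s6
      rw [hσ, c3_apply_of_ne s4 s5 s6, c3_apply_of_ne s1 s2 s3]
    have σa : (x * y * (c3 a e (y a) * c3 g (((x * y) ^ h) e) (y g))) a = (x * y) e := by
      rw [hσ, c3_apply_of_ne d_ag d_ae₂ d_ayg,
        c3_apply_1 d_ae d_aya]
    have σe : (x * y * (c3 a e (y a) * c3 g (((x * y) ^ h) e) (y g))) e = x a := by
      rw [hσ, c3_apply_of_ne d_eg hee₂ d_eyg,
        c3_apply_2 d_aya d_eya, c_y_of_per_two hx hy hpa]
    have σya : (x * y * (c3 a e (y a) * c3 g (((x * y) ^ h) e) (y g))) (y a) = (x * y) a := by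
      rw [hσ, c3_apply_of_ne d_yag d_yae₂ d_yayg, c3_apply_3]
    have σg : (x * y * (c3 a e (y a) * c3 g (((x * y) ^ h) e) (y g))) g
        = ((x * y) ^ (h + 1)) e := by
      rw [hσ, c3_apply_1 d_ge₂ hgyg,
        c3_apply_of_ne d_ae₂.symm hee₂.symm d_yae₂.symm, ← Perm.mul_apply, ← pow_succ']
    have σe₂ : (x * y * (c3 a e (y a) * c3 g (((x * y) ^ h) e) (y g))) (((x * y) ^ h) e)
        = g := by
      rw [hσ, c3_apply_2 hgyg d_e₂yg,
        c3_apply_of_ne d_ayg.symm d_eyg.symm d_yayg.symm, hcyg]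
    have σyg : (x * y * (c3 a e (y a) * c3 g (((x * y) ^ h) e) (y g))) (y g) = (x * y) g := by
      rw [hσ, c3_apply_3,
        c3_apply_of_ne d_ag.symm d_eg.symm d_yag.symm]
    have σxa : (x * y * (c3 a e (y a) * c3 g (((x * y) ^ h) e) (y g))) (x a) = y a := by
      rw [hgen (x a) n1 (neEA me m2).symm (Ne.symm n5) (neGA mg m2).symm (neEA me₂ m2).symm
        (neGA myg m2).symm, c_x_of_per_two hx hy hpa]
    have σca : (x * y * (c3 a e (y a) * c3 g (((x * y) ^ h) e) (y g))) ((x * y) a) = a := by
      rw [hgen ((x * y) a) n2 (neEA me m3).symm (Ne.symm n6) (neGA mg m3).symm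
        (neEA me₂ m3).symm (neGA myg m3).symm, c_c_of_per_two hpa]
    -- generic points of the orbit of e
    have σpe : ∀ k : ℕ, 0 < k → k < h + h → k ≠ h →
        (x * y * (c3 a e (y a) * c3 g (((x * y) ^ h) e) (y g))) (((x * y) ^ k) e)
          = ((x * y) ^ (k + 1)) e := by
      intro k k0 k1 k2
      have q1 : ((x * y) ^ k) e ≠ e := by
        have := pow_ne_pow x y e (i := 0) (j := k) (by omega) (by omega)
        simpa using this.symm
      have q2 : ((x * y) ^ k) e ≠ ((x * y) ^ h) e := by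
        rcases Nat.lt_or_gt_of_ne k2 with hk | hk
        · exact pow_ne_pow x y e hk (by omega)
        · exact (pow_ne_pow x y e hk (by omega)).symm
      rw [hgen _ (neEA (mpe k) m1) q1 (neEA (mpe k) m4) (neGE mg (mpe k)).symm q2
        (neGE myg (mpe k)).symm, ← Perm.mul_apply, ← pow_succ']
    -- generic points of the orbit of g
    have σpg : ∀ k : ℕ, 0 < k → k < h' + h' - 1 →
        (x * y * (c3 a e (y a) * c3 g (((x * y) ^ h) e) (y g))) (((x * y) ^ k) g)
          = ((x * y) ^ (k + 1)) g := by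
      intro k k0 k1
      have q1 : ((x * y) ^ k) g ≠ g := by
        have := pow_ne_pow x y g (i := 0) (j := k) (by omega) (by omega)
        simpa using this.symm
      have q2 : ((x * y) ^ k) g ≠ y g := by
        rw [hyg]
        exact pow_ne_pow x y g k1 (by omega)
      rw [hgen _ (neGA (mpg k) m1) (neGE (mpg k) me) (neGA (mpg k) m4) q1
        (neGE (mpg k) me₂) q2, ← Perm.mul_apply, ← pow_succ']
    -- walk 1
    have hL1 : Odd (h + h + 5) := by
      have : h + h + 5 = 2 * (h + 2) + 1 := by omega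
      rw [this]
      exact odd_two_mul_add_one _
    have hwalk1 := op_of_walk (x * y * (c3 a e (y a) * c3 g (((x * y) ^ h) e) (y g)))
      (qB3a x y a e g h) (h + h + 5) hL1
      (by
        intro i hi
        by_cases i0 : i = 0
        · subst i0
          rw [qB3a_0, qB3a_1]
          exact σe
        by_cases i1 : i = 1
        · subst i1
          rw [qB3a_1, qB3a_2]
          exact σxa
        by_cases i2 : i = 2
        · subst i2
          rw [qB3a_2, qB3a_3]
          exact σya
        by_cases i3 : i = 3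
        · subst i3
          rw [qB3a_3, qB3a_4]
          exact σca
        by_cases i4 : i = 4
        · subst i4
          rw [qB3a_4, qB3a_mid a e g (by omega) (by omega)]
          simpa using σa
        by_cases i5 : i < 4 + h
        · rw [qB3a_mid a e g (by omega) (by omega), qB3a_mid a e g (by omega) (by omega)]
          have : i + 1 - 4 = (i - 4) + 1 := by omega
          rw [this]
          exact σpe (i - 4) (by omega) (by omega) (by omega)
        by_cases i6 : i = 4 + h
        · subst i6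
          rw [qB3a_mid a e g (by omega) (by omega)]
          have e1 : 4 + h - 4 = h := by omega
          have e2 : 4 + h + 1 = 5 + h := by omega
          rw [e1, e2, qB3a_g a e g hh1]
          exact σe₂
        by_cases i7 : i = 5 + h
        · subst i7
          rw [qB3a_g a e g hh1, qB3a_hi a e g hh1 (by omega)]
          have e1 : 5 + h + 1 - 5 = h + 1 := by omega
          rw [e1]
          exact σg
        · rw [qB3a_hi a e g hh1 (by omega), qB3a_hi a e g hh1 (by omega)]
          have : i + 1 - 5 = (i - 5) + 1 := by omega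
          rw [this]
          exact σpe (i - 5) (by omega) (by omega) (by omega))
      (by
        rw [qB3a_0, qB3a_hi a e g hh1 (by omega)]
        have e1 : h + h + 5 - 5 = per x y e := by omega
        rw [e1]
        exact pow_per_apply x y e)
    -- walk 2
    have hL2 : Odd (h' + h' - 1) := by
      have : h' + h' - 1 = 2 * (h' - 1) + 1 := by omega
      rw [this]
      exact odd_two_mul_add_one _
    have hwalk2 := op_of_walk (x * y * (c3 a e (y a) * c3 g (((x * y) ^ h) e) (y g)))
      (qB3b x y g (h' + h')) (h' + h' - 1) hL2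
      (by
        intro i hi
        by_cases i1 : i + 1 < h' + h' - 1
        · unfold qB3b
          rw [if_pos hi, if_pos i1]
          exact σpg (i + 1) (by omega) i1
        · unfold qB3b
          rw [if_pos hi, if_neg i1]
          have e1 : i + 1 = h' + h' - 1 := by omega
          rw [e1, ← hyg]
          exact σyg)
      (by
        unfold qB3b
        rw [if_neg (lt_irrefl _)]
        split_ifs
        · simp
        · rfl)
    rintro s ((hs | hs) | hs)
    · rw [orb_of_per_two hx hy hpa] at hs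
      rcases hs with rfl | rfl | rfl | rfl
      · have := hwalk1 4 (by omega)
        rwa [qB3a_4] at this
      · have := hwalk1 1 (by omega)
        rwa [qB3a_1] at this
      · have := hwalk1 3 (by omega)
        rwa [qB3a_3] at this
      · have := hwalk1 2 (by omega)
        rwa [qB3a_2] at this
    · obtain ⟨k, hk, rfl⟩ := (mem_orb_of_yfix' he).1 hs
      by_cases k0 : k = 0
      · subst k0
        have := hwalk1 0 (by omega)
        rw [qB3a_0] at this
        simpa using this
      by_cases k1 : k ≤ h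
      · have := hwalk1 (4 + k) (by omega)
        rw [qB3a_mid a e g (by omega) (by omega)] at this
        have e1 : 4 + k - 4 = k := by omega
        rwa [e1] at this
      · have := hwalk1 (5 + k) (by omega)
        rw [qB3a_hi a e g hh1 (by omega)] at this
        have e1 : 5 + k - 5 = k := by omega
        rwa [e1] at this
    · obtain ⟨k, hk, rfl⟩ := (mem_orb_of_xfix' hg).1 hs
      by_cases k0 : k = 0
      · subst k0
        have := hwalk1 (5 + h) (by omega)
        rw [qB3a_g a e g hh1] at this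
        simpa using this
      · have := hwalk2 (k - 1) (by omega)
        unfold qB3b at this
        rw [if_pos (by omega)] at this
        have e1 : k - 1 + 1 = k := by omega
        rwa [e1] at this

end Cfsg.Agent.Lib.Helper94.OddGr
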