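import Mathlib

/-!
Piece SQ-MCA of helper66's S4130 project (helper94): a nontrivial finite solvable group in which
every abelian minimal normal subgroup has prime order has a normal subgroup of prime order.
-/

set_option autoImplicit false

namespace Cfsg.Agent.Lib.Helper94.SqfMCA

theorem exists_normal_prime {G : Type*} [Group G] [Finite G] [Nontrivial G] [Group.IsSolvable G]
    (hD : ∀ (N : Subgroup G), N.Normal → N ≠ ⊥ → (∀ a ∈ N, ∀ b ∈ N, a * b = b * a) →
      (∀ M : Subgroup G, M.Normal → M ≤ N → M = ⊥ ∨ M = N) → (Nat.card N).Prime) :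
    ∃ N : Subgroup G, N.Normal ∧ (Nat.card N).Prime := by
  classical
  let S : Set (Subgroup G) := {N | N.Normal ∧ N ≠ ⊥}
  have hSne : S.Nonempty := ⟨⊤, Subgroup.normal_of_characteristic ⊤, top_ne_bot⟩
  obtain ⟨N, hNS, hmin⟩ :=
    WellFounded.has_min (measure (fun N : Subgroup G => Nat.card N)).wf S hSne
  obtain ⟨hNn, hN0⟩ := hNS
  have hminimal : ∀ M : Subgroup G, M.Normal → M ≤ N → M = ⊥ ∨ M = N := by
    intro M hMn hMN
    by_cases hM0 : M = ⊥
    · exact Or.inl hM0
    · right
      have h1 : ¬ Nat.card M < Nat.card N := hmin M ⟨hMn, hM0⟩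
      exact Subgroup.eq_of_le_of_card_ge hMN (not_lt.mp h1)
  have hcomm : ⁅N, N⁆ = ⊥ := by
    have := hNn
    rcases hminimal ⁅N, N⁆ (Subgroup.commutator_normal N N) (Subgroup.commutator_le_right N N)
      with h | h
    · exact h
    · exfalso
      have hle : ∀ n : ℕ, N ≤ derivedSeries G n := by
        intro n
        induction n with
        | zero => exact le_top
        | succ n ih =>
          rw [derivedSeries_succ]
          calc N = ⁅N, N⁆ := h.symm
            _ ≤ ⁅derivedSeries G n, derivedSeries G n⁆ := Subgroup.commutator_mono ih ih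
      obtain ⟨n, hn⟩ := (inferInstance : Group.IsSolvable G).solvable
      have := hle n
      rw [hn] at this
      exact hN0 (le_bot_iff.mp this)
  have hab : ∀ a ∈ N, ∀ b ∈ N, a * b = b * a := by
    intro a ha b hb
    have h1 : N ≤ Subgroup.centralizer (N : Set G) :=
      Subgroup.commutator_eq_bot_iff_le_centralizer.mp hcomm
    exact (Subgroup.mem_centralizer_iff.mp (h1 hb) a ha)
  exact ⟨N, hNn, hD N hNn hN0 hab hminimal⟩

end Cfsg.Agent.Lib.Helper94.SqfMCA
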