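import Mathlib
import Cfsg.Prelude.Def_Blocks
import Cfsg.Agent.Lib.Helper83.Ct2
import Cfsg.Agent.Lib.Helper83.Central

set_option autoImplicit false

/-!
# S4561 piece FIN-A1
-/

namespace Cfsg.Agent.Lib.Helper94.Ct

open scoped ComplexConjugate
open Cfsg Cfsg.Agent.Lib Cfsg.Agent.Lib.Helper83

theorem fin_a1 {K : Type*} [Group K] [Finite K] (θ : IrrCharacter K) (Z : Subgroup K)
    [Z.Normal] (lam : Z →* ℂˣ)
    (hcen : ∀ (z : Z) (h : K), (θ : K → ℂ) ((z : K) * h) = ((lam z : ℂˣ) : ℂ) * (θ : K → ℂ) h)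
    (hvan : ∀ h : K, h ∉ Z → (θ : K → ℂ) h = 0) (g : K) :
    ((g : K ⧸ irrKer θ) ∈ Subgroup.center (K ⧸ irrKer θ)) ↔ g ∈ Z := by
  constructor
  · intro hc
    by_contra hg
    obtain ⟨ψ, hψ, hψθ⟩ := irr_deflate (irrKer θ) θ.2 (fun x hx => (mem_irrKer θ x).1 hx)
    have h1 := irr_central_norm (⟨ψ, hψ⟩ : IrrCharacter (K ⧸ irrKer θ)) (g : K ⧸ irrKer θ) hc
    have h2 := (irr_degree hψ).1
    have h3 : ψ (g : K ⧸ irrKer θ) = 0 := by
      rw [hψθ]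
      exact hvan g hg
    have h4 : ‖ψ (g : K ⧸ irrKer θ)‖ = (charDegree ψ : ℝ) := h1
    rw [h3, norm_zero] at h4
    have h5 : (0 : ℝ) < (charDegree ψ : ℝ) := by exact_mod_cast h2
    linarith
  · intro hg
    rw [Subgroup.mem_center_iff]
    intro q
    obtain ⟨h, rfl⟩ := QuotientGroup.mk_surjective q
    rw [← QuotientGroup.mk_mul, ← QuotientGroup.mk_mul, QuotientGroup.eq, mem_irrKer]
    have e : (h * g)⁻¹ * (g * h) = (((⟨g, hg⟩ : Z)⁻¹ : Z) : K) * (h⁻¹ * g * h) := by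
      rw [Subgroup.coe_inv]
      group
    rw [e, hcen, map_inv]
    have h1 : (θ : K → ℂ) (h⁻¹ * g * h) = (θ : K → ℂ) g := by
      have := irr_classFunction θ.2 g h⁻¹
      rwa [inv_inv] at this
    have h2 : (θ : K → ℂ) g = ((lam ⟨g, hg⟩ : ℂˣ) : ℂ) * (θ : K → ℂ) 1 := by
      have := hcen ⟨g, hg⟩ 1
      rwa [mul_one] at this
    rw [h1, h2, ← mul_assoc, ← Units.val_mul, inv_mul_cancel, Units.val_one, one_mul]

end Cfsg.Agent.Lib.Helper94.Ct
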