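import Mathlib
import Cfsg.Agent.Lib.Helper93.Sl3Defs
import Cfsg.Agent.Lib.Helper93.PresCore

/-!
# S2287 piece RANK : the rank one relation at all `a`, `h ^ (q - 1) = 1`, `t ^ 2 ∈ ⟨h⟩`
-/

set_option autoImplicit false

namespace Cfsg.Agent.Lib.Helper93.Sl3

open Polynomial Matrix

section level2

variable {F : Type*} [Field F] {P : Type*} [Group P] {ζ : F} {x : F → P} {h t c : P}

/-- RANK -/
theorem rank_one [Fintype F] (D : RootData ζ x h t c) (R : TorRel h t c) (hζ0 : ζ ≠ 0)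
    (hζ : ∀ a : F, a ≠ 0 → ∃ j : ℕ, a = ζ ^ j) :
    (∀ a : F, a ≠ 0 → ∃ z ∈ Subgroup.zpowers h, x a * t⁻¹ * x a⁻¹ * t * x a = z * t) ∧
      h ^ (Fintype.card F - 1) = 1 ∧ t ^ 2 ∈ Subgroup.zpowers h := by
  have hx0 : x 0 = 1 := by
    have := D.add 0 0
    rw [add_zero] at this
    exact left_eq_mul.mp this
  have hxneg : ∀ a, x (-a) = (x a)⁻¹ := by
    intro a
    rw [eq_inv_iff_mul_eq_one, ← D.add, neg_add_cancel, hx0]
  have h0 : x 1 * t⁻¹ * x 1 * t * x 1 = t := D.w1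
  -- conjugate `w1` by `g`
  have hg1 : (gC h c)⁻¹ * x 1 * gC h c = x ζ := by
    have := D.gconj 1
    rwa [mul_one] at this
  have hgt : (gC h c)⁻¹ * t * gC h c = h⁻¹ * t := R.gt
  have hgti : (gC h c)⁻¹ * t⁻¹ * gC h c = t⁻¹ * h := by
    calc (gC h c)⁻¹ * t⁻¹ * gC h c = ((gC h c)⁻¹ * t * gC h c)⁻¹ := by group
      _ = (h⁻¹ * t)⁻¹ := by rw [hgt]
      _ = t⁻¹ * h := by group
  have hhz : x ζ⁻¹ = h * x ζ * h⁻¹ := by
    have := D.hconj ζ⁻¹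
    rw [show ζ ^ 2 * ζ⁻¹ = ζ by field_simp] at this
    rw [← this]
    group
  have h1 : x ζ * t⁻¹ * x ζ⁻¹ * t * x ζ = h⁻¹ * t := by
    have e : (gC h c)⁻¹ * (x 1 * t⁻¹ * x 1 * t * x 1) * gC h c = (gC h c)⁻¹ * t * gC h c := by
      rw [h0]
    have e2 : (gC h c)⁻¹ * (x 1 * t⁻¹ * x 1 * t * x 1) * gC h c =
        ((gC h c)⁻¹ * x 1 * gC h c) * ((gC h c)⁻¹ * t⁻¹ * gC h c) * ((gC h c)⁻¹ * x 1 * gC h c) *
          ((gC h c)⁻¹ * t * gC h c) * ((gC h c)⁻¹ * x 1 * gC h c) := by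
      group
    rw [e2, hg1, hgti, hgt] at e
    rw [hhz, ← e]
    group
  have hE := Pres.E_all ζ hζ0 h t x D.hconj D.th h0 h1
  have hq1 : ζ ^ (Fintype.card F - 1) = 1 := FiniteField.pow_card_sub_one_eq_one ζ hζ0
  have hhq : h ^ (Fintype.card F - 1) = 1 := by
    have e := hE (Fintype.card F - 1)
    rw [hq1, inv_one, h0] at e
    have : h⁻¹ ^ (Fintype.card F - 1) = 1 := right_eq_mul.mp e
    rwa [inv_pow, inv_eq_one] at this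
  obtain ⟨j0, hj0⟩ := hζ (-1) (neg_ne_zero.mpr one_ne_zero)
  have ht2 : t ^ 2 = h ^ j0 := by
    have e := hE j0
    rw [← hj0, inv_neg_one, hxneg] at e
    have e2 : (x 1)⁻¹ * t⁻¹ * (x 1)⁻¹ * t * (x 1)⁻¹ = t⁻¹ := by
      have := congrArg (·⁻¹) h0
      simpa [mul_assoc] using this
    rw [e2] at e
    have e3 : h⁻¹ ^ j0 = t⁻¹ * t⁻¹ := by
      calc h⁻¹ ^ j0 = (h⁻¹ ^ j0 * t) * t⁻¹ := by group
        _ = t⁻¹ * t⁻¹ := by rw [← e]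
    calc t ^ 2 = (t⁻¹ * t⁻¹)⁻¹ := by group
      _ = (h⁻¹ ^ j0)⁻¹ := by rw [e3]
      _ = h ^ j0 := by group
  refine ⟨?_, hhq, ?_⟩
  · intro a ha
    obtain ⟨j, rfl⟩ := hζ a ha
    exact ⟨h⁻¹ ^ j, Subgroup.pow_mem _ (Subgroup.inv_mem _ (Subgroup.mem_zpowers h)) j, hE j⟩
  · rw [ht2]
    exact Subgroup.pow_mem _ (Subgroup.mem_zpowers h) j0

end level2

end Cfsg.Agent.Lib.Helper93.Sl3
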