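import Cfsg.Agent.Lib.Helper3.BG12Pieces
set_option autoImplicit false
open Cfsg Cfsg.Agent.Lib.Helper32 Cfsg.Agent.Lib.Helper32.BG10 Cfsg.Agent.Lib.Helper3.BG12 Cfsg.Agent.Lib.Helper3.BG12S
namespace Cfsg.Agent.Lib.Helper94.BG12
universe u
variable {G : Type u} [Group G] [Finite G]

/-- B&G 12.6 piece Q18A: if `E` is a complement of `N` in `M`, `A ≤ E`, and `M` normalizes both
`N` and `N ⊔ A`, then `E` normalizes `A`. -/
theorem normalizer_of_compl_sup {E N M A : Subgroup G} (hE : IsComplIn E N M)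
    (hNn : M ≤ Subgroup.normalizer (N : Set G)) (hAE : A ≤ E)
    (hn : M ≤ Subgroup.normalizer ((N ⊔ A : Subgroup G) : Set G)) :
    E ≤ Subgroup.normalizer (A : Set G) := by
  obtain ⟨hEM, hNM, hEN, -⟩ := hE
  have hAN : A ≤ Subgroup.normalizer (N : Set G) := (hAE.trans hEM).trans hNn
  -- key: (N ⊔ A) ⊓ E ≤ A
  have key : ∀ x : G, x ∈ N ⊔ A → x ∈ E → x ∈ A := by
    intro x hx hxE
    have hx' : x ∈ ((N ⊔ A : Subgroup G) : Set G) := hx
    rw [Subgroup.coe_mul_of_right_le_normalizer_left N A hAN] at hx'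
    obtain ⟨n, hnN, a, haA, rfl⟩ := hx'
    have hxE' : n * a ∈ E := hxE
    have hnE : n ∈ E := by
      have : n = (n * a) * a⁻¹ := by group
      rw [this]
      exact E.mul_mem hxE' (E.inv_mem (hAE haA))
    have hn1 : n = 1 := by
      have : n ∈ E ⊓ N := ⟨hnE, hnN⟩
      rw [hEN] at this
      simpa using this
    show n * a ∈ A
    rw [hn1, one_mul]
    exact haA
  have conj_mem : ∀ e : G, e ∈ E → ∀ a : G, a ∈ A → e * a * e⁻¹ ∈ A := by
    intro e he a ha
    have heN : e ∈ Subgroup.normalizer ((N ⊔ A : Subgroup G) : Set G) := hn (hEM he)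
    have h1 : e * a * e⁻¹ ∈ N ⊔ A :=
      (Subgroup.mem_normalizer_iff.mp heN a).mp (Subgroup.mem_sup_right ha)
    have h2 : e * a * e⁻¹ ∈ E := E.mul_mem (E.mul_mem he (hAE ha)) (E.inv_mem he)
    exact key _ h1 h2
  intro e he
  rw [Subgroup.mem_normalizer_iff]
  intro h
  constructor
  · intro hh
    exact conj_mem e he h hh
  · intro hh
    have := conj_mem e⁻¹ (E.inv_mem he) _ hh
    have h3 : e⁻¹ * (e * h * e⁻¹) * e⁻¹⁻¹ = h := by group
    rwa [h3] at this

end Cfsg.Agent.Lib.Helper94.BG12
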