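import Mathlib
import Cfsg.Prelude.Def_Solvable

/-!
# Involutory automorphisms of groups of odd order whose commutators are `p`-elements

Let `φ` be an automorphism of order at most two of a finite group `H` of odd order, and suppose
that every `x⁻¹ * φ x` has order a power of the prime `p`.  Then some `φ`-invariant Sylow
`p`-subgroup of `H` contains all the elements `x⁻¹ * φ x` (`exists_sylow_commutators`).

Consequence (`prod_mem_pCore_of_odd_normal`): if `d` is an involution of a finite group `G` such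
that the product of any two conjugates of `d` has order a power of `p`, and the commutators
`d * g * d⁻¹ * g⁻¹` lie in a normal subgroup of odd order (the conclusion of the `Z*`-theorem),
then all products of two conjugates of `d` lie in `O_p(G)`.
-/

set_option autoImplicit false

namespace Cfsg.Agent.Lib.Helper94

open scoped Pointwise

section aut

variable {H : Type*} [Group H] [Finite H]

/-- An automorphism of order at most two of a group of odd order leaves a Sylow subgroup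
invariant. -/
theorem exists_invariant_sylow (hodd : Odd (Nat.card H)) (φ : MulAut H) (hφ : φ * φ = 1) (q : ℕ)
    [Fact q.Prime] : ∃ Q : Sylow q H, ∀ x ∈ Q, φ x ∈ Q := by
  have h2 : IsPGroup 2 (Subgroup.zpowers φ) := by
    rintro ⟨g, hg⟩
    refine ⟨1, ?_⟩
    obtain ⟨n, rfl⟩ := Subgroup.mem_zpowers_iff.mp hg
    apply Subtype.ext
    have h1 : φ ^ (2 : ℕ) = 1 := by rw [pow_two]; exact hφ
    show (φ ^ n) ^ 2 ^ 1 = 1
    rw [pow_one, ← zpow_natCast, ← zpow_mul, mul_comm, zpow_mul, zpow_natCast, h1, one_zpow]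
  have hnd : ¬ 2 ∣ Nat.card (Sylow q H) := by
    intro h
    obtain ⟨Q0⟩ : Nonempty (Sylow q H) := inferInstance
    have h3 : 2 ∣ Nat.card H := h.trans ((Sylow.card_dvd_index Q0).trans (Subgroup.index_dvd_card _))
    exact (Nat.not_even_iff_odd.mpr hodd) (even_iff_two_dvd.mpr h3)
  obtain ⟨Q, hQ⟩ := h2.nonempty_fixed_point_of_prime_not_dvd_card (Sylow q H) hnd
  refine ⟨Q, fun x hx => ?_⟩
  have h4 : (⟨φ, Subgroup.mem_zpowers φ⟩ : Subgroup.zpowers φ) • Q = Q := hQ _
  have h5 : φ • Q = Q := h4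
  have h6 : φ • x ∈ φ • (Q : Subgroup H) := Subgroup.smul_mem_pointwise_smul x φ _ hx
  rw [← Sylow.pointwise_smul_def, h5] at h6
  exact h6

/-- The subgroup of fixed points of an automorphism. -/
def fixedSub (φ : MulAut H) : Subgroup H where
  carrier := {x | φ x = x}
  one_mem' := map_one φ
  mul_mem' := by
    intro a b ha hb
    show φ (a * b) = a * b
    rw [map_mul, ha, hb]
  inv_mem' := by
    intro a ha
    show φ a⁻¹ = a⁻¹
    rw [map_inv, ha]

omit [Finite H] in
theorem mem_fixedSub {φ : MulAut H} {x : H} : x ∈ fixedSub φ ↔ φ x = x := Iff.rfl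

variable {p : ℕ}

omit [Finite H] in
/-- An invariant Sylow `q`-subgroup for `q ≠ p` is fixed pointwise. -/
theorem sylow_le_fixedSub (hp : p.Prime) (φ : MulAut H)
    (hpow : ∀ x : H, ∃ k : ℕ, orderOf (x⁻¹ * φ x) = p ^ k) {q : ℕ} [hq : Fact q.Prime]
    (hqp : q ≠ p) (Q : Sylow q H) (hQ : ∀ x ∈ Q, φ x ∈ Q) : (Q : Subgroup H) ≤ fixedSub φ := by
  intro x hx
  rw [mem_fixedSub]
  have ht : x⁻¹ * φ x ∈ (Q : Subgroup H) := Subgroup.mul_mem _ (Subgroup.inv_mem _ hx) (hQ x hx)
  obtain ⟨k, hk⟩ := hpow x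
  obtain ⟨j, hj⟩ := (IsPGroup.iff_orderOf.mp Q.isPGroup') ⟨x⁻¹ * φ x, ht⟩
  rw [← Subgroup.orderOf_coe] at hj
  have hj' : orderOf (x⁻¹ * φ x) = q ^ j := hj
  have hk0 : k = 0 := by
    by_contra hne
    have h1 : p ∣ q ^ j := by
      rw [← hj', hk]
      exact dvd_pow_self p hne
    have h2 : p ∣ q := hp.dvd_of_dvd_pow h1
    exact hqp ((Nat.prime_dvd_prime_iff_eq hp hq.out).mp h2).symm
  rw [hk0, pow_zero, orderOf_eq_one_iff] at hk
  exact (inv_mul_eq_one.mp hk).symm

/-- The index of the fixed points is a power of `p`. -/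
theorem index_fixedSub (hodd : Odd (Nat.card H)) (hp : p.Prime) (φ : MulAut H) (hφ : φ * φ = 1)
    (hpow : ∀ x : H, ∃ k : ℕ, orderOf (x⁻¹ * φ x) = p ^ k) :
    ∃ m : ℕ, (fixedSub φ).index = p ^ m := by
  have hne : (fixedSub φ).index ≠ 0 := Subgroup.index_ne_zero_of_finite
  refine ⟨_, Nat.eq_prime_pow_of_unique_prime_dvd hne ?_⟩
  intro q hq hqd
  by_contra hqp
  have : Fact q.Prime := ⟨hq⟩
  obtain ⟨Q, hQ⟩ := exists_invariant_sylow hodd φ hφ q
  have hle := sylow_le_fixedSub hp φ hpow hqp Q hQ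
  have h1 : Nat.card (Q : Subgroup H) ∣ Nat.card (fixedSub φ) := Subgroup.card_dvd_of_le hle
  rw [Sylow.card_eq_multiplicity] at h1
  have h2 : q ^ ((Nat.card H).factorization q + 1) ∣ Nat.card H := by
    have h3 := Nat.mul_dvd_mul h1 hqd
    rw [Subgroup.card_mul_index (fixedSub φ), ← pow_succ] at h3
    exact h3
  exact Nat.pow_succ_factorization_not_dvd Nat.card_pos.ne' hq h2

/-- If the index of `C` is a power of `p`, a Sylow `p`-subgroup meets every coset of `C`. -/
theorem exists_sylow_mul (hp : p.Prime) (C : Subgroup H) {m : ℕ} (hC : C.index = p ^ m)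
    [Fact p.Prime] (P : Sylow p H) (x : H) : ∃ y ∈ P, y⁻¹ * x ∈ C := by
  classical
  set b : H ⧸ C := ((1 : H) : H ⧸ C) with hb
  have hos := Nat.card_congr (MulAction.orbitProdStabilizerEquivGroup (↥(P : Subgroup H)) b)
  rw [Nat.card_prod, Sylow.card_eq_multiplicity] at hos
  -- the stabiliser is a `p`-group inside `C`
  have hst : IsPGroup p (MulAction.stabilizer (↥(P : Subgroup H)) b) := P.isPGroup'.to_subgroup _
  obtain ⟨j, hj⟩ := hst.exists_card_eq
  have hmap : ((MulAction.stabilizer (↥(P : Subgroup H)) b).map (P : Subgroup H).subtype) ≤ C := by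
    rintro _ ⟨y, hy, rfl⟩
    have h1 : y • b = b := hy
    rw [hb] at h1
    have h2 : y • ((1 : H) : H ⧸ C) = (((y : H) * 1 : H) : H ⧸ C) := rfl
    rw [h2, mul_one, QuotientGroup.eq] at h1
    have h3 : (y : H)⁻¹ ∈ C := by simpa using h1
    simpa using C.inv_mem h3
  have hdvd : p ^ j ∣ Nat.card C := by
    rw [← hj, ← Subgroup.card_map_of_injective (Subgroup.subtype_injective _)]
    exact Subgroup.card_dvd_of_le hmap
  rw [hj] at hos
  have hcardH : Nat.card C * p ^ m = Nat.card H := by rw [← hC]; exact Subgroup.card_mul_index C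
  have h1 : p ^ (j + m) ∣ Nat.card H := by
    rw [← hcardH, pow_add]
    exact Nat.mul_dvd_mul hdvd dvd_rfl
  have h2 : j + m ≤ (Nat.card H).factorization p :=
    (hp.pow_dvd_iff_le_factorization Nat.card_pos.ne').mp h1
  -- the orbit has at least `p ^ m` elements
  have h3 : Nat.card (MulAction.orbit (↥(P : Subgroup H)) b) * p ^ j
      = p ^ ((Nat.card H).factorization p - j) * p ^ j := by
    rw [hos, ← pow_add]
    congr 1
    omega
  have h4 : Nat.card (MulAction.orbit (↥(P : Subgroup H)) b)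
      = p ^ ((Nat.card H).factorization p - j) :=
    Nat.eq_of_mul_eq_mul_right (pow_pos hp.pos j) h3
  have h5 : p ^ m ≤ Nat.card (MulAction.orbit (↥(P : Subgroup H)) b) := by
    rw [h4]
    exact Nat.pow_le_pow_right hp.pos (by omega)
  have huniv : MulAction.orbit (↥(P : Subgroup H)) b = Set.univ := by
    apply Set.eq_of_subset_of_ncard_le (Set.subset_univ _)
    · rw [Set.ncard_univ, ← Nat.card_coe_set_eq]
      have h6 : Nat.card (H ⧸ C) = p ^ m := by rw [← hC]; rfl
      rw [h6]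
      exact h5
  have hx : ((x : H) : H ⧸ C) ∈ MulAction.orbit (↥(P : Subgroup H)) b := by
    rw [huniv]
    exact Set.mem_univ _
  obtain ⟨y, hy⟩ := hx
  refine ⟨y, y.2, ?_⟩
  have h7 : y • b = (((y : H) * 1 : H) : H ⧸ C) := rfl
  have hy' : y • b = ((x : H) : H ⧸ C) := hy
  rw [h7, mul_one, QuotientGroup.eq] at hy'
  exact hy'

/-- Some invariant Sylow `p`-subgroup contains all the elements `x⁻¹ * φ x`. -/
theorem exists_sylow_commutators (hodd : Odd (Nat.card H)) (hp : p.Prime) (φ : MulAut H)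
    (hφ : φ * φ = 1) (hpow : ∀ x : H, ∃ k : ℕ, orderOf (x⁻¹ * φ x) = p ^ k) :
    ∃ P : Subgroup H, IsPGroup p P ∧ ∀ x : H, x⁻¹ * φ x ∈ P := by
  have : Fact p.Prime := ⟨hp⟩
  obtain ⟨P, hP⟩ := exists_invariant_sylow hodd φ hφ p
  obtain ⟨m, hm⟩ := index_fixedSub hodd hp φ hφ hpow
  refine ⟨P, P.isPGroup', fun x => ?_⟩
  obtain ⟨y, hy, hc⟩ := exists_sylow_mul hp (fixedSub φ) hm P x⁻¹
  rw [mem_fixedSub] at hc
  have hx : x = (y⁻¹ * x⁻¹)⁻¹ * y⁻¹ := by group
  have h1 : φ x = (y⁻¹ * x⁻¹)⁻¹ * (φ y)⁻¹ := by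
    conv_lhs => rw [hx]
    rw [map_mul, map_inv, map_inv, hc]
  have h2 : x⁻¹ * φ x = y * (φ y)⁻¹ := by
    rw [h1]
    group
  rw [h2]
  exact Subgroup.mul_mem _ hy (Subgroup.inv_mem _ (hP y hy))

end aut

section main

variable {G : Type*} [Group G] [Finite G]

/-- If the commutators of the involution `d` lie in a normal subgroup of odd order and all products
of two conjugates of `d` are `p`-elements, these products lie in a normal `p`-subgroup. -/
theorem exists_normal_pgroup_of_odd_normal {p : ℕ} (hp : p.Prime) (d : G) (hd : orderOf d = 2)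
    (hprod : ∀ a ∈ conjugatesOf d, ∀ b ∈ conjugatesOf d, ∃ k : ℕ, orderOf (a * b) = p ^ k)
    (N : Subgroup G) (hN : N.Normal) (hodd : Odd (Nat.card N))
    (hcomm : ∀ g : G, d * g * d⁻¹ * g⁻¹ ∈ N) :
    ∃ M : Subgroup G, M.Normal ∧ IsPGroup p M ∧
      ∀ a ∈ conjugatesOf d, ∀ b ∈ conjugatesOf d, a * b ∈ M := by
  have hdd : d * d = 1 := by
    have := pow_orderOf_eq_one d
    rwa [hd, pow_two] at this
  have hdi : d⁻¹ = d := inv_eq_of_mul_eq_one_left hdd
  have hdD : d ∈ conjugatesOf d := mem_conjugatesOf_self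
  have hsq : ∀ e ∈ conjugatesOf d, e * e = 1 := by
    intro e he
    obtain ⟨g, rfl⟩ := isConj_iff.mp (show IsConj d e from he)
    calc g * d * g⁻¹ * (g * d * g⁻¹) = g * (d * d) * g⁻¹ := by group
      _ = 1 := by rw [hdd]; group
  have hinv : ∀ e ∈ conjugatesOf d, e⁻¹ = e := fun e he => inv_eq_of_mul_eq_one_left (hsq e he)
  -- the automorphism of `N`
  set φ : MulAut ↥N := MulAut.conjNormal d with hφdef
  have hφ : φ * φ = 1 := by
    rw [hφdef, ← map_mul, hdd, map_one]
  have hpow : ∀ x : ↥N, ∃ k : ℕ, orderOf (x⁻¹ * φ x) = p ^ k := by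
    intro x
    have h1 : ((x⁻¹ * φ x : ↥N) : G) = ((x : G)⁻¹ * d * (x : G)) * d := by
      rw [Subgroup.coe_mul, Subgroup.coe_inv, hφdef, MulAut.conjNormal_apply, hdi]
      group
    have h2 : (x : G)⁻¹ * d * (x : G) ∈ conjugatesOf d := by
      show IsConj d _
      rw [isConj_iff]
      exact ⟨(x : G)⁻¹, by group⟩
    obtain ⟨k, hk⟩ := hprod _ h2 d hdD
    refine ⟨k, ?_⟩
    rw [← Subgroup.orderOf_coe, h1, hk]
  obtain ⟨P, hP, hall⟩ := exists_sylow_commutators hodd hp φ hφ hpow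
  have hP' : IsPGroup p (P.map N.subtype) := hP.map _
  -- every `e * d` lies in the image of `P`
  have key : ∀ e ∈ conjugatesOf d, e * d ∈ P.map N.subtype := by
    intro e he
    have hee := hsq e he
    have hei := hinv e he
    obtain ⟨g, hg⟩ := isConj_iff.mp (show IsConj d e from he)
    have hyN : d * e ∈ N := by
      have h1 := hcomm g
      have h2 : d * g * d⁻¹ * g⁻¹ = d * e⁻¹ := by
        rw [← hg]
        group
      rw [h2, hei] at h1
      exact h1
    obtain ⟨k, hk⟩ := hprod d hdD e he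
    have hoddm : Odd (orderOf (d * e)) := by
      have h1 : orderOf (d * e) ∣ Nat.card N := by
        have h2 : orderOf (⟨d * e, hyN⟩ : ↥N) ∣ Nat.card N := orderOf_dvd_natCard _
        rwa [← Subgroup.orderOf_coe] at h2
      exact Odd.of_dvd_nat hodd h1
    obtain ⟨j, hj⟩ := hoddm
    have hsemi : SemiconjBy d (d * e) (d * e)⁻¹ := by
      show d * (d * e) = (d * e)⁻¹ * d
      rw [mul_inv_rev, hei, hdi]
      calc d * (d * e) = (d * d) * e := by group
        _ = e * (d * d) := by rw [hdd]; group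
        _ = e * d * d := by group
    have hsemi' := hsemi.pow_right (j + 1)
    have hpw : (d * e) ^ (2 * j + 1) = 1 := by rw [← hj]; exact pow_orderOf_eq_one _
    have hx : ((d * e) ^ (j + 1))⁻¹ * d * (d * e) ^ (j + 1) = e := by
      have h1 : d * (d * e) ^ (j + 1) = ((d * e)⁻¹) ^ (j + 1) * d := hsemi'
      rw [mul_assoc, h1, ← mul_assoc, ← inv_pow, ← pow_add]
      have h2 : j + 1 + (j + 1) = (2 * j + 1) + 1 := by ring
      rw [h2, pow_succ, inv_pow, hpw, inv_one, one_mul, mul_inv_rev, hei, hdi, mul_assoc, hdd,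
        mul_one]
    have hxN : (d * e) ^ (j + 1) ∈ N := N.pow_mem hyN _
    have h3 := hall ⟨(d * e) ^ (j + 1), hxN⟩
    refine ⟨_, h3, ?_⟩
    show ((⟨(d * e) ^ (j + 1), hxN⟩⁻¹ * φ ⟨(d * e) ^ (j + 1), hxN⟩ : ↥N) : G) = e * d
    rw [Subgroup.coe_mul, Subgroup.coe_inv, hφdef, MulAut.conjNormal_apply, hdi]
    show ((d * e) ^ (j + 1))⁻¹ * (d * (d * e) ^ (j + 1) * d) = e * d
    calc ((d * e) ^ (j + 1))⁻¹ * (d * (d * e) ^ (j + 1) * d)
        = (((d * e) ^ (j + 1))⁻¹ * d * (d * e) ^ (j + 1)) * d := by group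
      _ = e * d := by rw [hx]
  have key2 : ∀ a ∈ conjugatesOf d, ∀ b ∈ conjugatesOf d, a * b ∈ P.map N.subtype := by
    intro a ha b hb
    have h1 : a * b = (a * d) * (b * d)⁻¹ := by
      rw [mul_inv_rev, hdi, hinv b hb]
      calc a * b = a * (d * d) * b := by rw [hdd]; group
        _ = a * d * (d * b) := by group
    rw [h1]
    exact Subgroup.mul_mem _ (key a ha) (Subgroup.inv_mem _ (key b hb))
  -- the normal closure of the products
  set S : Set G := {z | ∃ a ∈ conjugatesOf d, ∃ b ∈ conjugatesOf d, z = a * b} with hS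
  have hle : Subgroup.normalClosure S ≤ P.map N.subtype := by
    unfold Subgroup.normalClosure
    rw [Subgroup.closure_le]
    intro z hz
    obtain ⟨w, hw, hwz⟩ := Group.mem_conjugatesOfSet_iff.mp hz
    obtain ⟨a, ha, b, hb, rfl⟩ := hw
    obtain ⟨c, rfl⟩ := isConj_iff.mp hwz
    have h1 : c * (a * b) * c⁻¹ = (c * a * c⁻¹) * (c * b * c⁻¹) := by group
    rw [h1]
    apply key2
    · exact (show IsConj d a from ha).trans (isConj_iff.mpr ⟨c, rfl⟩)
    · exact (show IsConj d b from hb).trans (isConj_iff.mpr ⟨c, rfl⟩)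
  refine ⟨Subgroup.normalClosure S, Subgroup.normalClosure_normal, hP'.to_le hle, ?_⟩
  intro a ha b hb
  exact Subgroup.subset_normalClosure ⟨a, ha, b, hb, rfl⟩

/-- The same with the conclusion in `O_p(G)`. -/
theorem prod_mem_pCore_of_odd_normal {p : ℕ} (hp : p.Prime) (d : G) (hd : orderOf d = 2)
    (hprod : ∀ a ∈ conjugatesOf d, ∀ b ∈ conjugatesOf d, ∃ k : ℕ, orderOf (a * b) = p ^ k)
    (N : Subgroup G) (hN : N.Normal) (hodd : Odd (Nat.card N))
    (hcomm : ∀ g : G, d * g * d⁻¹ * g⁻¹ ∈ N) :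
    ∀ a ∈ conjugatesOf d, ∀ b ∈ conjugatesOf d, a * b ∈ Cfsg.pCore p G := by
  obtain ⟨M, hM1, hM2, hM3⟩ := exists_normal_pgroup_of_odd_normal hp d hd hprod N hN hodd hcomm
  intro a ha b hb
  have hle : M ≤ Cfsg.pCore p G := le_sSup ⟨hM1, hM2⟩
  exact hle (hM3 a ha b hb)

/-- The conclusion of the `Z*`-theorem for the group `G` (the statement of `S0215`). -/
def ZStarConclusion (G : Type*) [Group G] : Prop :=
  ∀ (P : Sylow 2 G) (u : G), orderOf u = 2 → u ∈ P →
    (∀ g : G, g * u * g⁻¹ ∈ P → g * u * g⁻¹ = u) →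
    ∃ N : Subgroup G, N.Normal ∧ Odd (Nat.card N) ∧ ∀ g : G, (u * g * u⁻¹ * g⁻¹) ∈ N

omit [Finite G] in
/-- An involution whose products with its conjugates have odd prime power order satisfies the
hypotheses of the `Z*`-theorem. -/
theorem exists_odd_normal_of_zstar (hZ : ZStarConclusion G) {p : ℕ} (hp : p.Prime) (hp2 : p ≠ 2)
    (d : G) (hd : orderOf d = 2)
    (hprod : ∀ a ∈ conjugatesOf d, ∀ b ∈ conjugatesOf d, ∃ k : ℕ, orderOf (a * b) = p ^ k) :
    ∃ N : Subgroup G, N.Normal ∧ Odd (Nat.card N) ∧ ∀ g : G, (d * g * d⁻¹ * g⁻¹) ∈ N := by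
  have hdd : d * d = 1 := by
    have := pow_orderOf_eq_one d
    rwa [hd, pow_two] at this
  have hdi : d⁻¹ = d := inv_eq_of_mul_eq_one_left hdd
  have h2 : IsPGroup 2 (Subgroup.zpowers d) := by
    apply IsPGroup.of_card (n := 1)
    rw [Nat.card_zpowers, hd, pow_one]
  obtain ⟨P, hP⟩ := h2.exists_le_sylow
  have hdP : d ∈ P := hP (Subgroup.mem_zpowers d)
  apply hZ P d hd hdP
  intro g hg
  have he : g * d * g⁻¹ ∈ conjugatesOf d := show IsConj d _ from isConj_iff.mpr ⟨g, rfl⟩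
  obtain ⟨k, hk⟩ := hprod d mem_conjugatesOf_self _ he
  have hmem : d * (g * d * g⁻¹) ∈ (P : Subgroup G) := Subgroup.mul_mem _ hdP hg
  obtain ⟨j, hj⟩ := (IsPGroup.iff_orderOf.mp P.isPGroup') ⟨_, hmem⟩
  rw [← Subgroup.orderOf_coe] at hj
  have hj' : orderOf (d * (g * d * g⁻¹)) = 2 ^ j := hj
  have hk0 : k = 0 := by
    by_contra hne
    have h1 : p ∣ 2 ^ j := by
      rw [← hj', hk]
      exact dvd_pow_self p hne
    have h3 : p ∣ 2 := hp.dvd_of_dvd_pow h1
    exact hp2 ((Nat.prime_dvd_prime_iff_eq hp Nat.prime_two).mp h3)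
  rw [hk0, pow_zero, orderOf_eq_one_iff] at hk
  have h4 : g * d * g⁻¹ = d⁻¹ := eq_inv_of_mul_eq_one_right hk
  rw [h4, hdi]

/-- Given the `Z*`-theorem: products of two conjugates of `d` lie in `O_p(G)`. -/
theorem prod_mem_pCore_of_zstar (hZ : ZStarConclusion G) {p : ℕ} (hp : p.Prime) (hp2 : p ≠ 2)
    (d : G) (hd : orderOf d = 2)
    (hprod : ∀ a ∈ conjugatesOf d, ∀ b ∈ conjugatesOf d, ∃ k : ℕ, orderOf (a * b) = p ^ k) :
    ∀ a ∈ conjugatesOf d, ∀ b ∈ conjugatesOf d, a * b ∈ Cfsg.pCore p G := by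
  obtain ⟨N, hN, hodd, hcomm⟩ := exists_odd_normal_of_zstar hZ hp hp2 d hd hprod
  exact prod_mem_pCore_of_odd_normal hp d hd hprod N hN hodd hcomm

/-- Given the `Z*`-theorem: a group generated by a class of involutions whose pairwise products
have order a power of an odd prime `p` has a commutator subgroup that is a `p`-group, hence
nilpotent. -/
theorem nilpotent_commutator_of_zstar (hZ : ZStarConclusion G) (p : ℕ) (hp : p.Prime)
    (hodd : p ≠ 2) {D : Set G} (hinv : ∀ d ∈ D, orderOf d = 2)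
    (hconj : ∃ d ∈ D, D = conjugatesOf d) (hgen : Subgroup.closure D = ⊤)
    (hprod : ∀ x ∈ D, ∀ y ∈ D, x ≠ y → ∃ k : ℕ, orderOf (x * y) = p ^ k) :
    Group.IsNilpotent ↥(commutator G) := by
  obtain ⟨d, hdD, rfl⟩ := hconj
  have hd := hinv d hdD
  have hsq : ∀ e ∈ conjugatesOf d, e * e = 1 := by
    intro e he
    have := pow_orderOf_eq_one e
    rwa [hinv e he, pow_two] at this
  have hprod' : ∀ a ∈ conjugatesOf d, ∀ b ∈ conjugatesOf d, ∃ k : ℕ, orderOf (a * b) = p ^ k := by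
    intro a ha b hb
    by_cases hab : a = b
    · subst hab
      refine ⟨0, ?_⟩
      rw [pow_zero, orderOf_eq_one_iff]
      exact hsq a ha
    · exact hprod a ha b hb hab
  obtain ⟨N, hN, hoddN, hcomm⟩ := exists_odd_normal_of_zstar hZ hp hodd d hd hprod'
  obtain ⟨M, hM1, hM2, hM3⟩ :=
    exists_normal_pgroup_of_odd_normal hp d hd hprod' N hN hoddN hcomm
  have hall : ∀ g : G, ∃ i : ℤ, (g : G ⧸ M) = (d : G ⧸ M) ^ i := by
    intro g
    have hg : g ∈ Subgroup.closure (conjugatesOf d) := by rw [hgen]; exact Subgroup.mem_top g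
    induction hg using Subgroup.closure_induction with
    | mem e he =>
      refine ⟨1, ?_⟩
      rw [zpow_one, QuotientGroup.eq]
      have h1 : e⁻¹ = e := inv_eq_of_mul_eq_one_left (hsq e he)
      rw [h1]
      exact hM3 e he d hdD
    | one => exact ⟨0, by rw [zpow_zero]; rfl⟩
    | mul a b _ _ iha ihb =>
      obtain ⟨i, hi⟩ := iha
      obtain ⟨j, hj⟩ := ihb
      exact ⟨i + j, by rw [QuotientGroup.mk_mul, hi, hj, zpow_add]⟩
    | inv a _ iha =>
      obtain ⟨i, hi⟩ := iha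
      exact ⟨-i, by rw [QuotientGroup.mk_inv, hi, zpow_neg]⟩
  have hle : commutator G ≤ M := by
    rw [commutator_def, Subgroup.commutator_le]
    intro g1 _ g2 _
    obtain ⟨i, hi⟩ := hall g1
    obtain ⟨j, hj⟩ := hall g2
    rw [← QuotientGroup.eq_one_iff, commutatorElement_def, QuotientGroup.mk_mul,
      QuotientGroup.mk_mul, QuotientGroup.mk_mul, QuotientGroup.mk_inv, QuotientGroup.mk_inv, hi, hj,
      ← zpow_add, ← zpow_neg, ← zpow_add, ← zpow_neg, ← zpow_add]
    have h0 : i + j + -i + -j = 0 := by ring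
    rw [h0, zpow_zero]
  have : Fact p.Prime := ⟨hp⟩
  exact (hM2.to_le hle).isNilpotent

end main

end Cfsg.Agent.Lib.Helper94
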