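import Mathlib

/-!
Piece B of helper7's S3627 project (helper94): generalized dihedral groups `(Z_7)^k : Z_2` of
unbounded order whose set of element orders is exactly `{1, 2, 7}`.
-/

set_option autoImplicit false

namespace Cfsg.Agent.Lib.Helper94.J1SpecB

/-- The elementary abelian group `(Z_7)^(N+1)`, written multiplicatively. -/
abbrev A7 (N : ℕ) : Type := Multiplicative (Fin (N + 1) → ZMod 7)

theorem A7_pow_seven (N : ℕ) (a : A7 N) : a ^ 7 = 1 := by
  have h : (7 : ℕ) • (Multiplicative.toAdd a) = 0 := by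
    funext i
    rw [Pi.smul_apply, Pi.zero_apply, nsmul_eq_mul]
    have h7 : ((7 : ℕ) : ZMod 7) = 0 := by decide
    rw [h7, zero_mul]
  have h2 : a ^ 7 = Multiplicative.ofAdd ((7 : ℕ) • (Multiplicative.toAdd a)) := rfl
  rw [h2, h]
  rfl

/-- The inversion action of `ℤˣ`. -/
def phi7 (N : ℕ) : ℤˣ →* MulAut (A7 N) where
  toFun u := if u = 1 then 1 else MulEquiv.inv (A7 N)
  map_one' := by simp
  map_mul' := by
    intro u v
    rcases Int.units_eq_one_or u with rfl | rfl <;> rcases Int.units_eq_one_or v with rfl | rfl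
    · simp
    · simp
    · simp
    · have h1 : ((-1 : ℤˣ) * -1) = 1 := by decide
      have h2 : ((-1 : ℤˣ)) ≠ 1 := by decide
      rw [h1, if_pos rfl, if_neg h2]
      ext x
      simp

theorem phi7_neg_one (N : ℕ) (a : A7 N) : phi7 N (-1) a = a⁻¹ := by
  have h2 : ((-1 : ℤˣ)) ≠ 1 := by decide
  show (if (-1 : ℤˣ) = 1 then (1 : MulAut (A7 N)) else MulEquiv.inv (A7 N)) a = a⁻¹
  rw [if_neg h2]
  rfl

/-- The generalized dihedral group `(Z_7)^(N+1) : Z_2`. -/
abbrev Dih7 (N : ℕ) : Type := A7 N ⋊[phi7 N] ℤˣ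

noncomputable instance instFintypeDih7 (N : ℕ) : Fintype (Dih7 N) :=
  Fintype.ofEquiv (A7 N × ℤˣ) SemidirectProduct.equivProd.symm

theorem card_Dih7 (N : ℕ) : Fintype.card (Dih7 N) = 7 ^ (N + 1) * 2 := by
  rw [Fintype.card_congr (SemidirectProduct.equivProd (φ := phi7 N)), Fintype.card_prod]
  congr 1
  show Fintype.card (Multiplicative (Fin (N + 1) → ZMod 7)) = 7 ^ (N + 1)
  rw [Fintype.card_congr (Multiplicative.toAdd), Fintype.card_fun, ZMod.card, Fintype.card_fin]

theorem orderOf_of_right (N : ℕ) (x : Dih7 N) (hu : x.right = -1) : orderOf x = 2 := by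
  have : Fact (Nat.Prime 2) := ⟨Nat.prime_two⟩
  apply orderOf_eq_prime
  · rw [pow_two]
    ext
    · rw [SemidirectProduct.mul_left, hu, phi7_neg_one]
      simp
    · rw [SemidirectProduct.mul_right, hu]
      simp
  · intro h
    have h3 : x.right = 1 := by rw [h]; rfl
    rw [hu] at h3
    exact absurd h3 (by decide)

theorem orderOf_Dih7 (N : ℕ) (x : Dih7 N) : orderOf x = 1 ∨ orderOf x = 2 ∨ orderOf x = 7 := by
  rcases Int.units_eq_one_or x.right with hu | hu
  · have hx : x = SemidirectProduct.inl x.left := by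
      ext
      · simp
      · simp [hu]
    have h1 : orderOf x = orderOf x.left := by
      rw [hx]
      exact orderOf_injective (SemidirectProduct.inl : A7 N →* Dih7 N)
        SemidirectProduct.inl_injective x.left
    have h2 : orderOf x.left ∣ 7 := orderOf_dvd_of_pow_eq_one (A7_pow_seven N x.left)
    rw [h1]
    rcases (Nat.dvd_prime (by norm_num : Nat.Prime 7)).mp h2 with h | h
    · exact Or.inl h
    · exact Or.inr (Or.inr h)
  · exact Or.inr (Or.inl (orderOf_of_right N x hu))

theorem exists_dih7 (N : ℕ) : ∃ (X : Type) (_ : Group X) (_ : Fintype X), N < Fintype.card X ∧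
    Set.range (orderOf : X → ℕ) = {1, 2, 7} := by
  refine ⟨Dih7 N, inferInstance, instFintypeDih7 N, ?_, ?_⟩
  · rw [card_Dih7]
    have h1 : N + 1 < 7 ^ (N + 1) := Nat.lt_pow_self (by norm_num)
    omega
  · ext n
    simp only [Set.mem_range, Set.mem_insert_iff, Set.mem_singleton_iff]
    constructor
    · rintro ⟨x, rfl⟩
      exact orderOf_Dih7 N x
    · rintro (rfl | rfl | rfl)
      · exact ⟨1, orderOf_one⟩
      · exact ⟨(⟨1, -1⟩ : Dih7 N), orderOf_of_right N _ rfl⟩
      · let a0 : A7 N := Multiplicative.ofAdd (fun _ => (1 : ZMod 7))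
        refine ⟨SemidirectProduct.inl a0, ?_⟩
        rw [orderOf_injective (SemidirectProduct.inl : A7 N →* Dih7 N)
          SemidirectProduct.inl_injective a0]
        have : Fact (Nat.Prime 7) := ⟨by norm_num⟩
        apply orderOf_eq_prime (A7_pow_seven N a0)
        intro h
        have h1 : (fun _ : Fin (N + 1) => (1 : ZMod 7)) = 0 := h
        have h2 : (1 : ZMod 7) = 0 := congrFun h1 0
        exact one_ne_zero h2

end Cfsg.Agent.Lib.Helper94.J1SpecB
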