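import Cfsg.Agent.Lib.Helper78.JcDefs
import Mathlib

/-!
# S2946, piece JC-TH (helper94): the Thompson subgroup via `IsMaxEA`
-/

set_option autoImplicit false

namespace Cfsg.Agent.Lib.Helper94.Jc

open Cfsg.Agent.Lib.Helper78.Jc
open scoped commutatorElement

variable {G : Type*} [Group G]

/-- an elementary abelian subgroup of `S`, pulled back to `↥S` -/
theorem th_ea_of (S A : Subgroup G) (hAS : A ≤ S) (hc : ∀ a ∈ A, ∀ b ∈ A, a * b = b * a)
    (h2 : ∀ a ∈ A, a * a = 1) :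
    Cfsg.IsElementaryAbelian 2 (A.subgroupOf S) ∧ Nat.card (A.subgroupOf S) = Nat.card A := by
  refine ⟨⟨⟨⟨fun x y => ?_⟩⟩, fun b hb => ?_⟩, ?_⟩
  · apply Subtype.ext
    apply Subtype.ext
    exact hc x.1.1 (Subgroup.mem_subgroupOf.mp x.2) y.1.1 (Subgroup.mem_subgroupOf.mp y.2)
  · apply Subtype.ext
    rw [sq]
    exact h2 b.1 (Subgroup.mem_subgroupOf.mp hb)
  · have h := Subgroup.card_map_of_injective (K := A.subgroupOf S) (Subgroup.subtype_injective S)
    rw [Subgroup.map_subgroupOf_eq_of_le hAS] at h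
    exact h.symm

/-- an elementary abelian subgroup of `↥S`, pushed forward to `G` -/
theorem th_of_ea (S : Subgroup G) (B : Subgroup ↥S) (hB : Cfsg.IsElementaryAbelian 2 B) :
    B.map S.subtype ≤ S ∧ (∀ a ∈ B.map S.subtype, ∀ b ∈ B.map S.subtype, a * b = b * a) ∧
      (∀ a ∈ B.map S.subtype, a * a = 1) ∧ Nat.card (B.map S.subtype) = Nat.card B := by
  obtain ⟨hc, h2⟩ := hB
  refine ⟨Subgroup.map_subtype_le B, ?_, ?_, Subgroup.card_map_of_injective (Subgroup.subtype_injective S)⟩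
  · rintro _ ⟨x, hx, rfl⟩ _ ⟨y, hy, rfl⟩
    have h := hc.is_comm.comm (⟨x, hx⟩ : ↥B) ⟨y, hy⟩
    have h' : x * y = y * x := congrArg Subtype.val h
    exact congrArg Subtype.val h'
  · rintro _ ⟨x, hx, rfl⟩
    have h := h2 x hx
    rw [sq] at h
    exact congrArg Subtype.val h

theorem th_mem_of (S A : Subgroup G) (hA : IsMaxEA S A) :
    A.subgroupOf S ∈ Cfsg.maxElementaryAbelianSubgroups 2 ↥S := by
  obtain ⟨hAS, hc, h2, hmax⟩ := hA
  obtain ⟨hea, hcard⟩ := th_ea_of S A hAS hc h2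
  refine ⟨hea, fun B hB => ?_⟩
  obtain ⟨h1, h3, h4, h5⟩ := th_of_ea S B hB
  rw [hcard, ← h5]
  exact hmax _ h1 h3 h4

theorem th_of_mem (S : Subgroup G) (B : Subgroup ↥S)
    (hB : B ∈ Cfsg.maxElementaryAbelianSubgroups 2 ↥S) : IsMaxEA S (B.map S.subtype) := by
  obtain ⟨hea, hmax⟩ := hB
  obtain ⟨h1, h3, h4, h5⟩ := th_of_ea S B hea
  refine ⟨h1, h3, h4, fun A' hA'S hc h2 => ?_⟩
  obtain ⟨hea', hcard'⟩ := th_ea_of S A' hA'S hc h2
  rw [h5, ← hcard']
  exact hmax _ hea'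

/-- induction principle for the Thompson subgroup -/
theorem th_le_of_forall (S C : Subgroup G) (h : ∀ A : Subgroup G, IsMaxEA S A → A ≤ C) :
    Cfsg.thompsonSubgroupOf 2 S ≤ C := by
  unfold Cfsg.thompsonSubgroupOf Cfsg.thompsonSubgroup
  rw [Subgroup.map_le_iff_le_comap]
  apply sSup_le
  intro B hB
  rw [← Subgroup.map_le_iff_le_comap]
  exact h _ (th_of_mem S B hB)

theorem th_exists [Finite G] (S : Subgroup G) : ∃ A : Subgroup G, IsMaxEA S A := by
  have hne : Nonempty {B : Subgroup G // B ≤ S ∧ (∀ a ∈ B, ∀ b ∈ B, a * b = b * a) ∧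
      (∀ a ∈ B, a * a = 1)} := by
    refine ⟨⟨⊥, bot_le, ?_, ?_⟩⟩
    · intro a ha b hb
      rw [Subgroup.mem_bot.mp ha, Subgroup.mem_bot.mp hb]
    · intro a ha
      rw [Subgroup.mem_bot.mp ha, one_mul]
  obtain ⟨⟨A, hAS, hc, h2⟩, hmax⟩ := Finite.exists_max
    (fun B : {B : Subgroup G // B ≤ S ∧ (∀ a ∈ B, ∀ b ∈ B, a * b = b * a) ∧
      (∀ a ∈ B, a * a = 1)} => Nat.card B.1)
  exact ⟨A, hAS, hc, h2, fun B hBS hBc hB2 => hmax ⟨B, hBS, hBc, hB2⟩⟩

theorem th_le (S A : Subgroup G) (hA : IsMaxEA S A) : A ≤ Cfsg.thompsonSubgroupOf 2 S := by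
  have h1 := th_mem_of S A hA
  have h2 : A.subgroupOf S ≤ Cfsg.thompsonSubgroup 2 ↥S := le_sSup h1
  have h3 := Subgroup.map_mono (f := S.subtype) h2
  rw [Subgroup.map_subgroupOf_eq_of_le hA.1] at h3
  exact h3

theorem th_le_self (S : Subgroup G) : Cfsg.thompsonSubgroupOf 2 S ≤ S :=
  Subgroup.map_subtype_le _

theorem th_exists_not_le (S C : Subgroup G) (h : ¬ Cfsg.thompsonSubgroupOf 2 S ≤ C) :
    ∃ A : Subgroup G, IsMaxEA S A ∧ ¬ A ≤ C := by
  by_contra hcon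
  apply h
  apply th_le_of_forall
  intro A hA
  by_contra hAC
  exact hcon ⟨A, hA, hAC⟩

theorem maxEA_conj (S A : Subgroup G) (hA : IsMaxEA S A) (g : G) (hg : ∀ x ∈ A, g * x * g⁻¹ ∈ S) :
    IsMaxEA S (A.map (MulAut.conj g).toMonoidHom) := by
  obtain ⟨hAS, hc, h2, hmax⟩ := hA
  refine ⟨?_, ?_, ?_, ?_⟩
  · rintro _ ⟨x, hx, rfl⟩
    exact hg x hx
  · rintro _ ⟨x, hx, rfl⟩ _ ⟨y, hy, rfl⟩
    show g * x * g⁻¹ * (g * y * g⁻¹) = g * y * g⁻¹ * (g * x * g⁻¹)
    have e1 : g * x * g⁻¹ * (g * y * g⁻¹) = g * (x * y) * g⁻¹ := by group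
    have e2 : g * y * g⁻¹ * (g * x * g⁻¹) = g * (y * x) * g⁻¹ := by group
    rw [e1, e2, hc x hx y hy]
  · rintro _ ⟨x, hx, rfl⟩
    show g * x * g⁻¹ * (g * x * g⁻¹) = 1
    have e1 : g * x * g⁻¹ * (g * x * g⁻¹) = g * (x * x) * g⁻¹ := by group
    rw [e1, h2 x hx]
    group
  · intro B hBS hBc hB2
    rw [Subgroup.card_map_of_injective (MulAut.conj g).injective]
    exact hmax B hBS hBc hB2

theorem th_normal (S : Subgroup G) :
    S ≤ Subgroup.normalizer (Cfsg.thompsonSubgroupOf 2 S : Set G) := by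
  have key : ∀ s ∈ S, ∀ x ∈ Cfsg.thompsonSubgroupOf 2 S, s * x * s⁻¹ ∈ Cfsg.thompsonSubgroupOf 2 S := by
    intro s hs
    have hle : Cfsg.thompsonSubgroupOf 2 S ≤
        (Cfsg.thompsonSubgroupOf 2 S).comap (MulAut.conj s).toMonoidHom := by
      apply th_le_of_forall
      intro A hA
      rw [← Subgroup.map_le_iff_le_comap]
      apply th_le
      apply maxEA_conj S A hA s
      intro x hx
      exact S.mul_mem (S.mul_mem hs (hA.1 hx)) (S.inv_mem hs)
    intro x hx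
    exact hle hx
  intro s hs
  rw [Subgroup.mem_normalizer_iff]
  intro x
  constructor
  · exact key s hs x
  · intro hx
    have h := key s⁻¹ (S.inv_mem hs) _ hx
    have e : s⁻¹ * (s * x * s⁻¹) * s⁻¹⁻¹ = x := by group
    rwa [e] at h

theorem th_central [Finite G] (S A : Subgroup G) (hA : IsMaxEA S A) (z : G) (hzS : z ∈ S)
    (hzA : ∀ x ∈ A, z * x = x * z) (hz2 : z * z = 1) : z ∈ A := by
  obtain ⟨hAS, hc, h2, hmax⟩ := hA
  have hX : ∀ x ∈ ((A : Set G) ∪ {z}), ∀ y ∈ ((A : Set G) ∪ {z}), x * y = y * x := by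
    rintro x (hx | hx) y (hy | hy)
    · exact hc x hx y hy
    · rw [Set.mem_singleton_iff.mp hy]; exact (hzA x hx).symm
    · rw [Set.mem_singleton_iff.mp hx]; exact hzA y hy
    · rw [Set.mem_singleton_iff.mp hx, Set.mem_singleton_iff.mp hy]
  have hBc : ∀ a ∈ Subgroup.closure ((A : Set G) ∪ {z}),
      ∀ b ∈ Subgroup.closure ((A : Set G) ∪ {z}), a * b = b * a := by
    intro a ha b hb
    letI := Subgroup.closureCommGroupOfComm hX
    have h := mul_comm (⟨a, ha⟩ : ↥(Subgroup.closure ((A : Set G) ∪ {z}))) ⟨b, hb⟩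
    exact congrArg Subtype.val h
  have hB2 : ∀ a ∈ Subgroup.closure ((A : Set G) ∪ {z}), a * a = 1 := by
    intro a ha
    induction ha using Subgroup.closure_induction with
    | mem x hx =>
      rcases hx with hx | hx
      · exact h2 x hx
      · rw [Set.mem_singleton_iff.mp hx]; exact hz2
    | one => rw [one_mul]
    | mul x y hx hy ihx ihy =>
      have hxy := hBc x hx y hy
      calc x * y * (x * y) = x * (y * x) * y := by group
        _ = x * (x * y) * y := by rw [hxy]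
        _ = (x * x) * (y * y) := by group
        _ = 1 := by rw [ihx, ihy, one_mul]
    | inv x hx ihx =>
      have e : x⁻¹ = x := by
        rw [inv_eq_iff_mul_eq_one]; exact ihx
      rw [e]; exact ihx
  have hBS : Subgroup.closure ((A : Set G) ∪ {z}) ≤ S := by
    rw [Subgroup.closure_le]
    rintro x (hx | hx)
    · exact hAS hx
    · rw [Set.mem_singleton_iff.mp hx]; exact hzS
  have hAB : A ≤ Subgroup.closure ((A : Set G) ∪ {z}) :=
    fun x hx => Subgroup.subset_closure (Or.inl hx)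
  have heq : A = Subgroup.closure ((A : Set G) ∪ {z}) :=
    Subgroup.eq_of_le_of_card_ge hAB (hmax _ hBS hBc hB2)
  rw [heq]
  exact Subgroup.subset_closure (Or.inr rfl)

end Cfsg.Agent.Lib.Helper94.Jc
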