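import Cfsg.Prelude.Def_BaumannBlocks
import Mathlib

/-!
# Project JD (S2984), piece IRR (helper94): irreducibility of the section `W / Z`
-/

set_option autoImplicit false

namespace Cfsg.Agent.Lib.Helper94.Jd

theorem irr_sl {G : Type*} [Group G] (F : Type) [Field F] [Fintype F] (E W Z : Subgroup G)
    (hact : Cfsg.ActsAsSL2OnSection F (commutator (Matrix.SpecialLinearGroup (Fin 2) F)) E W Z)
    (htrans : ∀ v v' : Fin 2 → F, v ≠ 0 → v' ≠ 0 →
      ∃ r ∈ commutator (Matrix.SpecialLinearGroup (Fin 2) F),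
        (r : Matrix (Fin 2) (Fin 2) F).mulVec v = v') :
    (∀ U : Subgroup G, Z ≤ U → U ≤ W → (∀ e ∈ E, ∀ u ∈ U, e * u * e⁻¹ ∈ U) → U = Z ∨ U = W) ∧
      ¬ (∀ w ∈ W, ∀ e ∈ E, e * w * e⁻¹ * w⁻¹ ∈ Z) := by
  obtain ⟨_, hZW, ρ, ψ, hρ, hψs, hker, heq⟩ := hact
  constructor
  · intro U hZU hUW hinv
    by_cases hUZ : U = Z
    · exact Or.inl hUZ
    right
    have hex : ∃ u ∈ U, u ∉ Z := by
      by_contra hcon
      push_neg at hcon
      exact hUZ (le_antisymm hcon hZU)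
    obtain ⟨u, huU, huZ⟩ := hex
    have hu1 : ψ ⟨u, hUW huU⟩ ≠ 1 := fun h => huZ ((hker ⟨u, hUW huU⟩).mp h)
    have hu0 : Multiplicative.toAdd (ψ ⟨u, hUW huU⟩) ≠ 0 := fun h => hu1 h
    apply le_antisymm hUW
    intro w hw
    by_cases hw1 : ψ ⟨w, hw⟩ = 1
    · exact hZU ((hker ⟨w, hw⟩).mp hw1)
    have hw0 : Multiplicative.toAdd (ψ ⟨w, hw⟩) ≠ 0 := fun h => hw1 h
    obtain ⟨r, hr, hrv⟩ := htrans _ _ hu0 hw0
    rw [← hρ] at hr
    obtain ⟨e, rfl⟩ := hr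
    obtain ⟨x, hx, hxψ⟩ := heq e ⟨u, hUW huU⟩
    rw [hrv] at hxψ
    have hxw : ψ x = ψ ⟨w, hw⟩ := hxψ
    have hxU : (x : G) ∈ U := by
      rw [hx]
      exact hinv _ e.2 _ huU
    have h1 : ψ (⟨w, hw⟩ * x⁻¹) = 1 := by
      rw [map_mul, map_inv, hxw, mul_inv_cancel]
    have h2 : w * (x : G)⁻¹ ∈ Z := (hker (⟨w, hw⟩ * x⁻¹)).mp h1
    have h3 : w = (w * (x : G)⁻¹) * (x : G) := by group
    rw [h3]
    exact U.mul_mem (hZU h2) hxU
  · intro hall
    have hv0 : (Pi.single 0 1 : Fin 2 → F) ≠ 0 := by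
      intro h
      have := congrFun h 0
      simp at this
    have hv1 : (Pi.single 1 1 : Fin 2 → F) ≠ 0 := by
      intro h
      have := congrFun h 1
      simp at this
    obtain ⟨r, hr, hrv⟩ := htrans _ _ hv0 hv1
    rw [← hρ] at hr
    obtain ⟨e, rfl⟩ := hr
    obtain ⟨u, hu⟩ := hψs (Multiplicative.ofAdd (Pi.single 0 1 : Fin 2 → F))
    obtain ⟨x, hx, hxψ⟩ := heq e u
    rw [hu] at hxψ
    have hxψ' : Multiplicative.toAdd (ψ x) = (Pi.single 1 1 : Fin 2 → F) := by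
      rw [hxψ]
      exact hrv
    have h2 : (x : G) * (u : G)⁻¹ ∈ Z := by
      rw [hx]
      exact hall _ u.2 _ e.2
    have h1 : ψ (x * u⁻¹) = 1 := (hker (x * u⁻¹)).mpr h2
    rw [map_mul, map_inv, mul_inv_eq_one] at h1
    rw [h1, hu] at hxψ'
    have := congrFun hxψ' 0
    simp at this

theorem irr_alt {G : Type*} [Group G] (m : ℕ) (hm : 1 ≤ m) (E W Z : Subgroup G)
    (hact : Cfsg.ActsAsOddPermModuleOnSection (2 * m + 1) (alternatingGroup (Fin (2 * m + 1))) E W Z)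
    (hirr : ∀ K : AddSubgroup (Fin (2 * m + 1) → ZMod 2),
      (∀ σ ∈ alternatingGroup (Fin (2 * m + 1)), ∀ v ∈ K, (fun i => v (σ⁻¹ i)) ∈ K) →
      (∃ v ∈ K, v ≠ 0) → (∀ v ∈ K, ∑ i, v i = 0) →
      ∀ v : Fin (2 * m + 1) → ZMod 2, ∑ i, v i = 0 → v ∈ K) :
    (∀ U : Subgroup G, Z ≤ U → U ≤ W → (∀ e ∈ E, ∀ u ∈ U, e * u * e⁻¹ ∈ U) → U = Z ∨ U = W) ∧
      ¬ (∀ w ∈ W, ∀ e ∈ E, e * w * e⁻¹ * w⁻¹ ∈ Z) := by
  obtain ⟨_, hZW, ρ, ψ, hρ, hev, hsurj, hker, heq⟩ := hact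
  constructor
  · intro U hZU hUW hinv
    by_cases hUZ : U = Z
    · exact Or.inl hUZ
    right
    have hex : ∃ u ∈ U, u ∉ Z := by
      by_contra hcon
      push_neg at hcon
      exact hUZ (le_antisymm hcon hZU)
    obtain ⟨u, huU, huZ⟩ := hex
    have hu1 : ψ ⟨u, hUW huU⟩ ≠ 1 := fun h => huZ ((hker ⟨u, hUW huU⟩).mp h)
    have hu0 : Multiplicative.toAdd (ψ ⟨u, hUW huU⟩) ≠ 0 := fun h => hu1 h
    let K : AddSubgroup (Fin (2 * m + 1) → ZMod 2) :=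
      { carrier := {v | ∃ a : ↥W, (a : G) ∈ U ∧ Multiplicative.toAdd (ψ a) = v}
        zero_mem' := ⟨1, U.one_mem, by simp⟩
        add_mem' := by
          rintro _ _ ⟨a, ha, rfl⟩ ⟨b, hb, rfl⟩
          exact ⟨a * b, U.mul_mem ha hb, by simp⟩
        neg_mem' := by
          rintro _ ⟨a, ha, rfl⟩
          exact ⟨a⁻¹, U.inv_mem ha, by simp⟩ }
    have hK : ∀ v : Fin (2 * m + 1) → ZMod 2, ∑ i, v i = 0 → v ∈ K := by
      apply hirr K
      · rintro σ hσ _ ⟨a, ha, rfl⟩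
        rw [← hρ] at hσ
        obtain ⟨e, rfl⟩ := hσ
        obtain ⟨x, hx, hxψ⟩ := heq e a
        refine ⟨x, ?_, ?_⟩
        · rw [hx]
          exact hinv _ e.2 _ ha
        · funext i
          exact hxψ i
      · exact ⟨_, ⟨⟨u, hUW huU⟩, huU, rfl⟩, hu0⟩
      · rintro _ ⟨a, ha, rfl⟩
        exact hev a
    apply le_antisymm hUW
    intro w hw
    obtain ⟨a, haU, haψ⟩ := hK _ (hev ⟨w, hw⟩)
    have haw : ψ a = ψ ⟨w, hw⟩ := haψ
    have h1 : ψ (⟨w, hw⟩ * a⁻¹) = 1 := by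
      rw [map_mul, map_inv, haw, mul_inv_cancel]
    have h2 : w * (a : G)⁻¹ ∈ Z := (hker (⟨w, hw⟩ * a⁻¹)).mp h1
    have h3 : w = (w * (a : G)⁻¹) * (a : G) := by group
    rw [h3]
    exact U.mul_mem (hZU h2) haU
  · intro hall
    let a : Fin (2 * m + 1) := ⟨0, by omega⟩
    let b : Fin (2 * m + 1) := ⟨1, by omega⟩
    let c : Fin (2 * m + 1) := ⟨2, by omega⟩
    have hab : a ≠ b := by
      intro h
      have := congrArg Fin.val h
      simp [a, b] at this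
    have hbc : b ≠ c := by
      intro h
      have := congrArg Fin.val h
      simp [b, c] at this
    have hac : a ≠ c := by
      intro h
      have := congrArg Fin.val h
      simp [a, c] at this
    let v : Fin (2 * m + 1) → ZMod 2 := Pi.single a 1 + Pi.single b 1
    have hvsum : ∑ i, v i = 0 := by
      simp only [v, Pi.add_apply, Finset.sum_add_distrib, Finset.sum_pi_single', Finset.mem_univ,
        if_true]
      decide
    have hva : v a = 1 := by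
      simp [v, hab]
    have hvc : v c = 0 := by
      simp [v, hac.symm, hbc.symm]
    let σ : Equiv.Perm (Fin (2 * m + 1)) := Equiv.swap a b * Equiv.swap b c
    have hσ : σ ∈ alternatingGroup (Fin (2 * m + 1)) := by
      rw [Equiv.Perm.mem_alternatingGroup]
      simp [σ, Equiv.Perm.sign_mul, Equiv.Perm.sign_swap hab, Equiv.Perm.sign_swap hbc]
    have hσc : σ⁻¹ a = c := by
      rw [Equiv.Perm.inv_eq_iff_eq]
      simp [σ]
    rw [← hρ] at hσ
    obtain ⟨e, he⟩ := hσ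
    obtain ⟨u, hu⟩ := hsurj v hvsum
    obtain ⟨x, hx, hxψ⟩ := heq e u
    have h2 : (x : G) * (u : G)⁻¹ ∈ Z := by
      rw [hx]
      exact hall _ u.2 _ e.2
    have h1 : ψ (x * u⁻¹) = 1 := (hker (x * u⁻¹)).mpr h2
    rw [map_mul, map_inv, mul_inv_eq_one] at h1
    have h4 := hxψ a
    rw [h1, he, hσc, hu, hva, hvc] at h4
    exact one_ne_zero h4

end Cfsg.Agent.Lib.Helper94.Jd
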