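import Mathlib
import Cfsg.Prelude.Def_Sporadic_a
import Cfsg.Agent.Lib.Helper94.M24Tools

/-!
# Configurations in the group of the length-24 code: masks, conjugation, cardinalities

* `smul_dec_of_pull`, `mem_dec_pt`, `card_inter_dec`, `octad_exists_mask`: finsets versus masks;
* `exists_five_of_card`: five distinct elements of a finset with at least five elements;
* `card_stab_M24`, `card_stab₂_M24`: stabilisers in `↥M24` versus subgroups of the symmetric
  group;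
* `card_inf_stab_conj`, `card_inf_stab₂_conj`: conjugation invariance of the orders.
-/

set_option autoImplicit false

namespace Cfsg.Agent.Lib.Helper94

open Cfsg Cfsg.Agent.Lib.Helper9
open scoped Pointwise

theorem smul_dec_of_pull {σ : Equiv.Perm GolayPt} {T : List ℕ} (hT : HasTable σ T) {a m : ℕ}
    (h : pull T a = m) : σ • support₂ (dec m) = support₂ (dec a) := by
  have h1 : σ⁻¹ • support₂ (dec a) = support₂ (dec m) := by
    rw [smul_support₂, inv_inv, dec_comp_of_table hT.1 hT.2, h]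
  rw [← h1, smul_inv_smul]

theorem mem_dec_pt (m : ℕ) {i : ℕ} (hi : i < 24) :
    pt i ∈ support₂ (dec m) ↔ m.testBit i = true := by
  rw [mem_support₂, dec_ne_zero_iff, idx_pt hi]

theorem mem_dec_iff (m : ℕ) (p : GolayPt) :
    p ∈ support₂ (dec m) ↔ m.testBit (idx p) = true := by
  rw [mem_support₂, dec_ne_zero_iff]

theorem card_dec (m : ℕ) : (support₂ (dec m)).card = popc m := by
  rw [card_support₂, hammingNorm_dec]

theorem card_inter_dec (a b : ℕ) :
    (support₂ (dec a) ∩ support₂ (dec b)).card = popc (a &&& b) := by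
  rw [support₂_dec_inter, card_dec]

theorem octad_exists_mask {o : Finset GolayPt} (ho : o ∈ octads) :
    ∃ m, m ∈ sums gB ∧ popc m = 8 ∧ o = support₂ (dec m) := by
  obtain ⟨m, hm, h8, rfl⟩ := (mem_octads_iff o).mp ho
  exact ⟨m, hm, h8, rfl⟩

theorem dodecad_exists_mask {d : Finset GolayPt} (hd : d ∈ dodecads) :
    ∃ m, m ∈ sums gB ∧ popc m = 12 ∧ d = support₂ (dec m) := by
  obtain ⟨m, hm, h12, rfl⟩ := (mem_dodecads_iff d).mp hd
  exact ⟨m, hm, h12, rfl⟩

theorem exists_five_of_card {α : Type*} [DecidableEq α] {s : Finset α} (h : 5 ≤ s.card) :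
    ∃ a ∈ s, ∃ b ∈ s, ∃ c ∈ s, ∃ d ∈ s, ∃ e ∈ s, a ≠ b ∧ a ≠ c ∧ a ≠ d ∧ a ≠ e ∧ b ≠ c ∧
      b ≠ d ∧ b ≠ e ∧ c ≠ d ∧ c ≠ e ∧ d ≠ e := by
  obtain ⟨a, ha⟩ := Finset.card_pos.1 (by omega : 0 < s.card)
  have h1 := Finset.card_erase_of_mem ha
  obtain ⟨b, hb⟩ := Finset.card_pos.1 (by omega : 0 < (s.erase a).card)
  have h2 := Finset.card_erase_of_mem hb
  obtain ⟨c, hc⟩ := Finset.card_pos.1 (by omega : 0 < ((s.erase a).erase b).card)
  have h3 := Finset.card_erase_of_mem hc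
  obtain ⟨d, hd⟩ := Finset.card_pos.1 (by omega : 0 < (((s.erase a).erase b).erase c).card)
  have h4 := Finset.card_erase_of_mem hd
  obtain ⟨e, he⟩ := Finset.card_pos.1
    (by omega : 0 < ((((s.erase a).erase b).erase c).erase d).card)
  simp only [Finset.mem_erase] at hb hc hd he
  exact ⟨a, ha, b, hb.2, c, hc.2.2, d, hd.2.2.2, e, he.2.2.2.2, hb.1.symm, hc.2.1.symm,
    hd.2.2.1.symm, he.2.2.2.1.symm, hc.1.symm, hd.2.1.symm, he.2.2.1.symm, hd.1.symm,
    he.2.1.symm, he.1.symm⟩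

section stab

variable {α β : Type*} [MulAction (Equiv.Perm GolayPt) α] [MulAction (Equiv.Perm GolayPt) β]

theorem card_stab_M24 (a : α) :
    Nat.card ↥(MulAction.stabilizer M24 a) =
      Nat.card ↥(M24 ⊓ MulAction.stabilizer (Equiv.Perm GolayPt) a) := by
  rw [← card_map_subtype]
  congr 2
  ext σ
  rw [Subgroup.mem_map, Subgroup.mem_inf, MulAction.mem_stabilizer_iff]
  constructor
  · rintro ⟨x, hx, rfl⟩
    exact ⟨x.2, MulAction.mem_stabilizer_iff.1 hx⟩
  · rintro ⟨h1, h2⟩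
    exact ⟨⟨σ, h1⟩, MulAction.mem_stabilizer_iff.2 h2, rfl⟩

theorem card_stab₂_M24 (a : α) (b : β) :
    Nat.card ↥(MulAction.stabilizer M24 a ⊓ MulAction.stabilizer M24 b) =
      Nat.card ↥(M24 ⊓ MulAction.stabilizer (Equiv.Perm GolayPt) a ⊓
        MulAction.stabilizer (Equiv.Perm GolayPt) b) := by
  rw [← card_map_subtype]
  congr 2
  ext σ
  simp only [Subgroup.mem_map, Subgroup.mem_inf, MulAction.mem_stabilizer_iff]
  constructor
  · rintro ⟨x, ⟨hx, hx'⟩, rfl⟩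
    exact ⟨⟨x.2, hx⟩, hx'⟩
  · rintro ⟨⟨h1, h2⟩, h3⟩
    exact ⟨⟨σ, h1⟩, ⟨h2, h3⟩, rfl⟩

theorem inf_stab_conj {g : Equiv.Perm GolayPt} (hg : g ∈ M24) (a : α) :
    M24 ⊓ MulAction.stabilizer (Equiv.Perm GolayPt) (g • a) =
      (M24 ⊓ MulAction.stabilizer (Equiv.Perm GolayPt) a).map (MulAut.conj g).toMonoidHom := by
  ext σ
  simp only [Subgroup.mem_map, Subgroup.mem_inf, MulAction.mem_stabilizer_iff,
    MulEquiv.coe_toMonoidHom, MulAut.conj_apply]
  constructor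
  · rintro ⟨h0, h1⟩
    refine ⟨g⁻¹ * σ * g, ⟨M24.mul_mem (M24.mul_mem (M24.inv_mem hg) h0) hg, ?_⟩, by group⟩
    rw [mul_smul, mul_smul, h1, inv_smul_smul]
  · rintro ⟨x, ⟨h0, h1⟩, rfl⟩
    refine ⟨M24.mul_mem (M24.mul_mem hg h0) (M24.inv_mem hg), ?_⟩
    rw [mul_smul, mul_smul, inv_smul_smul, h1]

theorem card_inf_stab_conj {g : Equiv.Perm GolayPt} (hg : g ∈ M24) (a : α) :
    Nat.card ↥(M24 ⊓ MulAction.stabilizer (Equiv.Perm GolayPt) (g • a)) =
      Nat.card ↥(M24 ⊓ MulAction.stabilizer (Equiv.Perm GolayPt) a) := by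
  rw [inf_stab_conj hg, Subgroup.card_map_of_injective (MulAut.conj g).injective]

theorem inf_stab₂_conj {g : Equiv.Perm GolayPt} (hg : g ∈ M24) (a : α) (b : β) :
    M24 ⊓ MulAction.stabilizer (Equiv.Perm GolayPt) (g • a) ⊓
        MulAction.stabilizer (Equiv.Perm GolayPt) (g • b) =
      (M24 ⊓ MulAction.stabilizer (Equiv.Perm GolayPt) a ⊓
        MulAction.stabilizer (Equiv.Perm GolayPt) b).map (MulAut.conj g).toMonoidHom := by
  ext σ
  simp only [Subgroup.mem_map, Subgroup.mem_inf, MulAction.mem_stabilizer_iff,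
    MulEquiv.coe_toMonoidHom, MulAut.conj_apply]
  constructor
  · rintro ⟨⟨h0, h1⟩, h2⟩
    refine ⟨g⁻¹ * σ * g, ⟨⟨M24.mul_mem (M24.mul_mem (M24.inv_mem hg) h0) hg, ?_⟩, ?_⟩,
      by group⟩
    · rw [mul_smul, mul_smul, h1, inv_smul_smul]
    · rw [mul_smul, mul_smul, h2, inv_smul_smul]
  · rintro ⟨x, ⟨⟨h0, h1⟩, h2⟩, rfl⟩
    refine ⟨⟨M24.mul_mem (M24.mul_mem hg h0) (M24.inv_mem hg), ?_⟩, ?_⟩
    · rw [mul_smul, mul_smul, inv_smul_smul, h1]
    · rw [mul_smul, mul_smul, inv_smul_smul, h2]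

theorem card_inf_stab₂_conj {g : Equiv.Perm GolayPt} (hg : g ∈ M24) (a : α) (b : β) :
    Nat.card ↥(M24 ⊓ MulAction.stabilizer (Equiv.Perm GolayPt) (g • a) ⊓
        MulAction.stabilizer (Equiv.Perm GolayPt) (g • b)) =
      Nat.card ↥(M24 ⊓ MulAction.stabilizer (Equiv.Perm GolayPt) a ⊓
        MulAction.stabilizer (Equiv.Perm GolayPt) b) := by
  rw [inf_stab₂_conj hg, Subgroup.card_map_of_injective (MulAut.conj g).injective]

end stab

end Cfsg.Agent.Lib.Helper94
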