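import Mathlib
import Cfsg.Prelude.Def_Sporadic_a
import Cfsg.Agent.Lib.Helper94.M24Tools

/-!
# Point stabilisers as table-decidable subgroups

* `TDec.inf_fix`: intersecting a table-decidable subgroup with the stabiliser of a point;
* `app_inv'`, `inv_app'`: a permutation and its inverse;
* `mem_iff_of_smul_eq`, `smul_eq_of_fix`: setwise stabilisers of finsets.
-/

set_option autoImplicit false

namespace Cfsg.Agent.Lib.Helper94

open Cfsg Cfsg.Agent.Lib.Helper9
open scoped Pointwise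

theorem TDec.inf_fix {H : Subgroup (Equiv.Perm GolayPt)} {P : List ℕ → Bool} (h : TDec H P)
    {i : ℕ} (hi : i < 24) : TDec (H ⊓ fixing [i]) (fun T => P T && T.getD i 0 == i) := by
  refine ⟨inf_le_left.trans h.le, fun σ hσ T hT => ?_⟩
  rw [Subgroup.mem_inf, h.spec σ hσ T hT, Bool.and_eq_true, beq_iff_eq, mem_fixing]
  constructor
  · rintro ⟨h1, h2⟩
    refine ⟨h1, ?_⟩
    have h3 := h2 i List.mem_cons_self
    rw [hT.apply_pt hi] at h3
    have h4 := congrArg idx h3
    rwa [idx_pt (hT.getD_lt i), idx_pt hi] at h4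
  · rintro ⟨h1, h2⟩
    refine ⟨h1, fun j hj => ?_⟩
    rw [List.mem_singleton] at hj
    subst hj
    rw [hT.apply_pt hi, h2]

theorem app_inv' {α : Type*} (g : Equiv.Perm α) (x : α) : g (g⁻¹ x) = x := by
  rw [← Equiv.Perm.mul_apply, mul_inv_cancel, Equiv.Perm.one_apply]

theorem inv_app' {α : Type*} (g : Equiv.Perm α) (x : α) : g⁻¹ (g x) = x := by
  rw [← Equiv.Perm.mul_apply, inv_mul_cancel, Equiv.Perm.one_apply]

theorem mem_iff_of_smul_eq {τ : Equiv.Perm GolayPt} {s : Finset GolayPt} (h : τ • s = s)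
    (p : GolayPt) : τ p ∈ s ↔ p ∈ s := by
  have := Finset.smul_mem_smul_finset_iff (s := s) (b := p) τ
  rw [h] at this
  exact this

theorem smul_eq_of_maps {τ : Equiv.Perm GolayPt} {s : Finset GolayPt}
    (h : ∀ p ∈ s, τ p ∈ s) : τ • s = s := by
  apply Finset.eq_of_subset_of_card_le
  · intro q hq
    rw [Finset.mem_smul_finset] at hq
    obtain ⟨p, hp, rfl⟩ := hq
    exact h p hp
  · rw [Finset.card_smul_finset]

theorem smul_eq_of_fix {τ : Equiv.Perm GolayPt} {s : Finset GolayPt}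
    (h : ∀ p ∈ s, τ p = p) : τ • s = s :=
  smul_eq_of_maps (fun p hp => by rw [h p hp]; exact hp)

end Cfsg.Agent.Lib.Helper94
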