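import Mathlib
import Cfsg.Prelude.Def_Sporadic_a
import Cfsg.Agent.Lib.Helper94.M24Conf
import Cfsg.Agent.Lib.Helper94.M24Fix

/-!
# Conjugacy classes of elements of order 2 and 3 in the group of the length-24 code

* `fixCount`, `card_fixed_eq`, `card_fixed_conj`: numbers of fixed points;
* `cosetT`, `mem_cosetT`: the 48 elements with five prescribed images;
* `exists_norm_q`: the stabiliser of `23, 0, 1, 2, 3` moves any other point to `5` or `4`;
* `class3`: every element of order 3 of `M24` is conjugate to `r6` (6 fixed points) or `r0`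
  (no fixed point);
* `class2`: every involution of `M24` is conjugate to `t8` (8 fixed points) or `t0`
  (no fixed point).
-/

set_option autoImplicit false

namespace Cfsg.Agent.Lib.Helper94

open Cfsg Cfsg.Agent.Lib.Helper9
open scoped Pointwise

/-! ### Fixed points -/

/-- The number of fixed points of a table. -/
def fixCount (T : List ℕ) : ℕ := ((List.range 24).filter (fun i => T.getD i 0 == i)).length

theorem card_fixed_eq {x : Equiv.Perm GolayPt} {T : List ℕ} (hT : HasTable x T) :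
    (Finset.univ.filter fun p => x p = p).card = fixCount T := by
  unfold fixCount
  rw [← List.toFinset_card_of_nodup (List.Nodup.filter _ List.nodup_range)]
  apply Finset.card_bij (fun p _ => idx p)
  · intro p hp
    rw [Finset.mem_filter] at hp
    rw [List.mem_toFinset, List.mem_filter, List.mem_range, beq_iff_eq]
    refine ⟨idx_lt p, ?_⟩
    have h1 := hT.2 p
    rw [hp.2] at h1
    have h2 := congrArg idx h1
    rw [idx_pt (hT.getD_lt _)] at h2
    exact h2.symm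
  · intro p _ q _ h
    exact idx_injective h
  · intro i hi
    rw [List.mem_toFinset, List.mem_filter, List.mem_range, beq_iff_eq] at hi
    refine ⟨pt i, ?_, idx_pt hi.1⟩
    rw [Finset.mem_filter]
    refine ⟨Finset.mem_univ _, ?_⟩
    rw [hT.apply_pt hi.1, hi.2]

theorem card_fixed_conj (g x : Equiv.Perm GolayPt) :
    (Finset.univ.filter fun p => (g * x * g⁻¹) p = p).card =
      (Finset.univ.filter fun p => x p = p).card := by
  symm
  apply Finset.card_bij (fun p _ => g p)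
  · intro p hp
    rw [Finset.mem_filter] at hp ⊢
    refine ⟨Finset.mem_univ _, ?_⟩
    rw [Equiv.Perm.mul_apply, Equiv.Perm.mul_apply, inv_app', hp.2]
  · intro p _ q _ h
    exact g.injective h
  · intro q hq
    rw [Finset.mem_filter] at hq
    refine ⟨g⁻¹ q, ?_, app_inv' g q⟩
    rw [Finset.mem_filter]
    refine ⟨Finset.mem_univ _, ?_⟩
    have h := hq.2
    rw [Equiv.Perm.mul_apply, Equiv.Perm.mul_apply] at h
    apply g.injective
    rw [h, app_inv']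

/-! ### Elements with five prescribed images -/

/-- The tables of the products of a table with the 48 elements fixing `23, 0, 1, 2, 3`. -/
def cosetT (U : List ℕ) : List (List ℕ) := stab5T.map (compT U)

theorem mem_cosetT {w : List ℕ} {x : Equiv.Perm GolayPt} (hx : x ∈ M24)
    (h : ∀ i ∈ ([3, 2, 1, 0, 23] : List ℕ), x (pt i) = pt ((prodT sgsTabs w).getD i 0)) :
    ∃ T ∈ cosetT (prodT sgsTabs w), HasTable x T := by
  have hu := good_sgs_M24.prod w
  have hmem : (prodW sgsEnv w)⁻¹ * x ∈ M24 ⊓ fixing [3, 2, 1, 0, 23] := by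
    refine ⟨M24.mul_mem (M24.inv_mem hu.1) hx, fun i hi => ?_⟩
    have hi24 : i < 24 := by
      simp only [List.mem_cons, List.not_mem_nil, or_false] at hi
      omega
    rw [Equiv.Perm.mul_apply, h i hi, ← hu.2.apply_pt hi24, inv_app']
  obtain ⟨S, hS, hSt⟩ := enum5.complete _ hmem
  refine ⟨compT (prodT sgsTabs w) S, List.mem_map_of_mem hS, ?_⟩
  have := hasTable_mul hu.2 hSt
  rwa [mul_inv_cancel_left] at this

theorem norm_q_check : ∀ q : GolayPt, q ≠ pt 23 → q ≠ pt 0 → q ≠ pt 1 → q ≠ pt 2 → q ≠ pt 3 →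
    stab5T.any (fun T => T.getD (idx q) 0 == 5 || T.getD (idx q) 0 == 4) = true := by
  decide +kernel

theorem exists_norm_q (q : GolayPt) (h23 : q ≠ pt 23) (h0 : q ≠ pt 0) (h1 : q ≠ pt 1)
    (h2 : q ≠ pt 2) (h3 : q ≠ pt 3) :
    ∃ s ∈ M24 ⊓ fixing [3, 2, 1, 0, 23], s q = pt 5 ∨ s q = pt 4 := by
  have h := norm_q_check q h23 h0 h1 h2 h3
  rw [List.any_eq_true] at h
  obtain ⟨T, hT, hc⟩ := h
  obtain ⟨s, hs, hsT⟩ := enum5.sound T hT
  refine ⟨s, hs, ?_⟩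
  have hq := hsT.apply_pt (idx_lt q)
  rw [pt_idx] at hq
  rw [Bool.or_eq_true, beq_iff_eq, beq_iff_eq] at hc
  rcases hc with hc | hc
  · left; rw [hq, hc]
  · right; rw [hq, hc]

/-- A permutation with few fixed points moves a point outside any small set. -/
theorem exists_moved_outside (x : Equiv.Perm GolayPt) (S : Finset GolayPt) (hS : S.card ≤ 4)
    (hfew : ¬ ∃ a b c : GolayPt, a ≠ b ∧ a ≠ c ∧ b ≠ c ∧ x a = a ∧ x b = b ∧ x c = c) :
    ∃ v, v ∉ S ∧ x v ≠ v := by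
  by_contra hcon
  push Not at hcon
  have hcard : 2 < (Finset.univ \ S).card := by
    have h1 := Finset.card_sdiff_add_card_inter (Finset.univ : Finset GolayPt) S
    have h2 : (Finset.univ ∩ S).card ≤ S.card := Finset.card_le_card Finset.inter_subset_right
    have h3 : (Finset.univ : Finset GolayPt).card = 24 := by
      rw [Finset.card_univ, Fintype.card_option, ZMod.card]
    omega
  obtain ⟨a, ha, b, hb, c, hc, hab, hac, hbc⟩ := Finset.two_lt_card.1 hcard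
  rw [Finset.mem_sdiff] at ha hb hc
  exact hfew ⟨a, b, c, hab, hac, hbc, hcon a ha.2, hcon b hb.2, hcon c hc.2⟩

theorem conj_apply_of {g x : Equiv.Perm GolayPt} {p : GolayPt} {i : ℕ} (hp : g p = pt i) :
    (g * x * g⁻¹) (pt i) = g (x p) := by
  rw [Equiv.Perm.mul_apply, Equiv.Perm.mul_apply, ← hp, inv_app']

theorem table_of_pow_three {x : Equiv.Perm GolayPt} {T : List ℕ} (hT : HasTable x T)
    (h3 : x ^ 3 = 1) : compT T (compT T T) = idT := by
  have h := hasTable_mul hT (hasTable_mul hT hT)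
  have e : x * (x * x) = 1 := by rw [← h3, pow_succ, pow_succ, pow_one, mul_assoc]
  rw [e] at h
  exact h.unique hasTable_one

theorem table_of_pow_two {x : Equiv.Perm GolayPt} {T : List ℕ} (hT : HasTable x T)
    (h2 : x ^ 2 = 1) : compT T T = idT := by
  have h := hasTable_mul hT hT
  have e : x * x = 1 := by rw [← h2, pow_two]
  rw [e] at h
  exact h.unique hasTable_one

theorem table_ne_id {x : Equiv.Perm GolayPt} {T : List ℕ} (hT : HasTable x T) (hne : x ≠ 1) :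
    T ≠ idT := by
  rintro rfl
  exact hne (eq_one_of_hasTable_idT hT)

/-! ### Elements of order 3 -/

def wA3 : List ℕ := [2, 15, 6, 12, 12, 9, 10, 16, 21]
def uA3 : List ℕ := [1, 23, 2, 3, 15, 17, 11, 18, 19, 16, 4, 21, 6, 20, 5, 13, 9, 14, 7, 12, 22, 8, 10, 0]
theorem uA3_tab : prodT sgsTabs wA3 = uA3 := by decide +kernel

def wB53 : List ℕ := [2, 15, 6, 12, 12, 9, 10, 10, 17]
def uB53 : List ℕ := [1, 23, 3, 5, 22, 14, 16, 9, 19, 13, 10, 20, 4, 12, 17, 8, 21, 2, 11, 18, 6, 7, 15, 0]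
theorem uB53_tab : prodT sgsTabs wB53 = uB53 := by decide +kernel

def wB43 : List ℕ := [2, 15, 6, 12, 12, 9, 10, 10, 17, 21, 16]
def uB43 : List ℕ := [1, 23, 3, 4, 14, 20, 22, 12, 13, 9, 16, 10, 8, 2, 11, 7, 17, 19, 6, 21, 18, 15, 5, 0]
theorem uB43_tab : prodT sgsTabs wB43 = uB43 := by decide +kernel

/-- Candidate tables for elements of order 3 in normal form. -/
def cands3 : List (List ℕ) := cosetT uA3 ++ cosetT uB53 ++ cosetT uB43

/-- Every element of order 3 of `M24` has a conjugate with table in `cands3`. -/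
theorem nf3 (x : Equiv.Perm GolayPt) (hx : x ∈ M24) (hne : x ≠ 1) (h3 : x ^ 3 = 1) :
    ∃ g ∈ M24, ∃ T ∈ cands3, HasTable (g * x * g⁻¹) T := by
  have hx3 : ∀ p, x (x (x p)) = p := by
    intro p
    have := congrArg (fun f : Equiv.Perm GolayPt => f p) h3
    simpa [pow_succ, Equiv.Perm.mul_apply] using this
  obtain ⟨u, hu⟩ : ∃ u, x u ≠ u := by
    by_contra hcon
    push Not at hcon
    exact hne (Equiv.ext hcon)
  have hu1 : x (x u) ≠ x u := fun h => hu (x.injective h)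
  have hu2 : x (x u) ≠ u := fun h => hu (by
    have := hx3 u
    rw [h] at this
    exact this)
  by_cases hA : ∃ v w : GolayPt, v ≠ w ∧ x v = v ∧ x w = w
  · obtain ⟨v, w, hvw, hv, hw⟩ := hA
    have nuv : u ≠ v := fun h => hu (h ▸ hv)
    have nuw : u ≠ w := fun h => hu (h ▸ hw)
    have n1v : x u ≠ v := fun h => hu1 (h ▸ hv)
    have n1w : x u ≠ w := fun h => hu1 (h ▸ hw)
    have n2v : x (x u) ≠ v := fun h => by
      have := hx3 u
      rw [h, hv] at this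
      exact nuv this.symm
    have n2w : x (x u) ≠ w := fun h => by
      have := hx3 u
      rw [h, hw] at this
      exact nuw this.symm
    obtain ⟨g, hg, e0, e1, e2, e3, e4⟩ :=
      exists_map_five (Ne.symm hu) (Ne.symm hu2) nuv nuw (Ne.symm hu1) n1v n1w n2v n2w hvw
    refine ⟨g, hg, ?_⟩
    have hmem := mem_cosetT (w := wA3) (M24.mul_mem (M24.mul_mem hg hx) (M24.inv_mem hg))
      (by
        rw [uA3_tab]
        intro i hi
        simp only [List.mem_cons, List.not_mem_nil, or_false] at hi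
        rcases hi with rfl | rfl | rfl | rfl | rfl
        · rw [conj_apply_of e4, hw, e4]; rfl
        · rw [conj_apply_of e3, hv, e3]; rfl
        · rw [conj_apply_of e2, hx3, e0]; rfl
        · rw [conj_apply_of e1, e2]; rfl
        · rw [conj_apply_of e0, e1]; rfl)
    rw [uA3_tab] at hmem
    obtain ⟨T, hT, hTt⟩ := hmem
    exact ⟨T, List.mem_append_left _ (List.mem_append_left _ hT), hTt⟩
  · have hfew : ¬ ∃ a b c : GolayPt, a ≠ b ∧ a ≠ c ∧ b ≠ c ∧ x a = a ∧ x b = b ∧ x c = c := by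
      rintro ⟨a, b, c, hab, _, _, ha, hb, _⟩
      exact hA ⟨a, b, hab, ha, hb⟩
    obtain ⟨v, hvS, hv⟩ := exists_moved_outside x {u, x u, x (x u)}
      (Finset.card_le_three.trans (by norm_num)) hfew
    simp only [Finset.mem_insert, Finset.mem_singleton, not_or] at hvS
    obtain ⟨nvu, nv1, nv2⟩ := hvS
    have hv1 : x (x v) ≠ x v := fun h => hv (x.injective h)
    have hv2 : x (x v) ≠ v := fun h => hv (by
      have := hx3 v
      rw [h] at this
      exact this)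
    have a1 : x v ≠ u := fun h => nv2 (by
      have := hx3 v
      rw [h] at this
      exact this.symm)
    have a2 : x v ≠ x u := fun h => nvu (x.injective h)
    have a3 : x v ≠ x (x u) := fun h => nv1 (x.injective h)
    have b1 : x (x v) ≠ u := fun h => nv1 (by
      have := hx3 v
      rw [h] at this
      exact this.symm)
    have b2 : x (x v) ≠ x u := fun h => a1 (x.injective h)
    have b3 : x (x v) ≠ x (x u) := fun h => a2 (x.injective h)
    obtain ⟨g, hg, e0, e1, e2, e3, e4⟩ :=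
      exists_map_five (Ne.symm hu) (Ne.symm hu2) (Ne.symm nvu) (Ne.symm a1) (Ne.symm hu1)
        (Ne.symm nv1) (Ne.symm a2) (Ne.symm nv2) (Ne.symm a3) (Ne.symm hv)
    have q23 : g (x (x v)) ≠ pt 23 := by rw [← e0]; exact fun h => b1 (g.injective h)
    have q0 : g (x (x v)) ≠ pt 0 := by rw [← e1]; exact fun h => b2 (g.injective h)
    have q1 : g (x (x v)) ≠ pt 1 := by rw [← e2]; exact fun h => b3 (g.injective h)
    have q2 : g (x (x v)) ≠ pt 2 := by rw [← e3]; exact fun h => hv2 (g.injective h)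
    have q3 : g (x (x v)) ≠ pt 3 := by rw [← e4]; exact fun h => hv1 (g.injective h)
    obtain ⟨s, hs, hsq⟩ := exists_norm_q _ q23 q0 q1 q2 q3
    have s23 : s (pt 23) = pt 23 := hs.2 23 (by simp)
    have s0 : s (pt 0) = pt 0 := hs.2 0 (by simp)
    have s1 : s (pt 1) = pt 1 := hs.2 1 (by simp)
    have s2 : s (pt 2) = pt 2 := hs.2 2 (by simp)
    have s3 : s (pt 3) = pt 3 := hs.2 3 (by simp)
    have f0 : (s * g) u = pt 23 := by rw [Equiv.Perm.mul_apply, e0, s23]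
    have f1 : (s * g) (x u) = pt 0 := by rw [Equiv.Perm.mul_apply, e1, s0]
    have f2 : (s * g) (x (x u)) = pt 1 := by rw [Equiv.Perm.mul_apply, e2, s1]
    have f3 : (s * g) v = pt 2 := by rw [Equiv.Perm.mul_apply, e3, s2]
    have f4 : (s * g) (x v) = pt 3 := by rw [Equiv.Perm.mul_apply, e4, s3]
    have hsg : s * g ∈ M24 := M24.mul_mem hs.1 hg
    refine ⟨s * g, hsg, ?_⟩
    rcases hsq with hsq | hsq
    · have hmem := mem_cosetT (w := wB53) (M24.mul_mem (M24.mul_mem hsg hx) (M24.inv_mem hsg))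
        (by
          rw [uB53_tab]
          intro i hi
          simp only [List.mem_cons, List.not_mem_nil, or_false] at hi
          rcases hi with rfl | rfl | rfl | rfl | rfl
          · rw [conj_apply_of f4, Equiv.Perm.mul_apply, hsq]; rfl
          · rw [conj_apply_of f3, f4]; rfl
          · rw [conj_apply_of f2, hx3, f0]; rfl
          · rw [conj_apply_of f1, f2]; rfl
          · rw [conj_apply_of f0, f1]; rfl)
      rw [uB53_tab] at hmem
      obtain ⟨T, hT, hTt⟩ := hmem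
      exact ⟨T, List.mem_append_left _ (List.mem_append_right _ hT), hTt⟩
    · have hmem := mem_cosetT (w := wB43) (M24.mul_mem (M24.mul_mem hsg hx) (M24.inv_mem hsg))
        (by
          rw [uB43_tab]
          intro i hi
          simp only [List.mem_cons, List.not_mem_nil, or_false] at hi
          rcases hi with rfl | rfl | rfl | rfl | rfl
          · rw [conj_apply_of f4, Equiv.Perm.mul_apply, hsq]; rfl
          · rw [conj_apply_of f3, f4]; rfl
          · rw [conj_apply_of f2, hx3, f0]; rfl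
          · rw [conj_apply_of f1, f2]; rfl
          · rw [conj_apply_of f0, f1]; rfl)
      rw [uB43_tab] at hmem
      obtain ⟨T, hT, hTt⟩ := hmem
      exact ⟨T, List.mem_append_right _ hT, hTt⟩

/-- Word of the representative of order 3 with six fixed points. -/
def w6 : List ℕ := [2, 15, 6, 12, 12, 9, 10, 16, 21, 24]
/-- Table of the representative of order 3 with six fixed points. -/
def R6T : List ℕ := [1, 23, 2, 3, 4, 17, 21, 6, 12, 10, 15, 11, 18, 22, 5, 9, 13, 14, 8, 19, 20, 7, 16, 0]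
theorem R6T_tab : prodT sgsTabs w6 = R6T := by decide +kernel

/-- Word of the fixed-point-free representative of order 3. -/
def w0 : List ℕ := [2, 15, 6, 12, 12, 9, 10, 10, 17, 21, 16, 30]
/-- Table of the fixed-point-free representative of order 3. -/
def R0T : List ℕ := [1, 23, 3, 4, 2, 20, 21, 15, 10, 7, 18, 13, 6, 14, 11, 9, 5, 19, 8, 22, 16, 12, 17, 0]
theorem R0T_tab : prodT sgsTabs w0 = R0T := by decide +kernel

/-- The representative of order 3 with six fixed points. -/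
noncomputable def r6 : Equiv.Perm GolayPt := prodW sgsEnv w6
/-- The fixed-point-free representative of order 3. -/
noncomputable def r0 : Equiv.Perm GolayPt := prodW sgsEnv w0

theorem r6_mem : r6 ∈ M24 := (good_sgs_M24.prod w6).1
theorem r0_mem : r0 ∈ M24 := (good_sgs_M24.prod w0).1
theorem r6_table : HasTable r6 R6T := by
  have := (good_sgs_M24.prod w6).2
  rwa [R6T_tab] at this
theorem r0_table : HasTable r0 R0T := by
  have := (good_sgs_M24.prod w0).2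
  rwa [R0T_tab] at this

/-- Conjugating data: candidate, conjugator, and whether the target is `R6T`. -/
def trip3 : List (List ℕ × List ℕ × Bool) :=
  [([1, 23, 2, 3, 4, 17, 21, 6, 12, 10, 15, 11, 18, 22, 5, 9, 13, 14, 8, 19, 20, 7, 16, 0], [0, 1, 2, 3, 4, 5, 6, 7, 8, 9, 10, 11, 12, 13, 14, 15, 16, 17, 18, 19, 20, 21, 22, 23], true),
   ([1, 23, 2, 3, 22, 17, 19, 7, 11, 9, 20, 12, 8, 4, 5, 10, 16, 14, 18, 21, 15, 6, 13, 0], [0, 1, 2, 4, 5, 16, 21, 19, 10, 11, 18, 15, 9, 14, 22, 12, 3, 13, 20, 7, 8, 6, 17, 23], true),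
   ([1, 23, 2, 3, 13, 17, 7, 19, 18, 20, 9, 8, 12, 16, 5, 15, 4, 14, 11, 6, 10, 21, 22, 0], [0, 1, 2, 11, 5, 12, 22, 16, 10, 6, 7, 9, 20, 17, 8, 19, 14, 18, 15, 13, 21, 4, 3, 23], true),
   ([1, 23, 2, 3, 16, 17, 6, 21, 8, 15, 10, 18, 11, 13, 5, 20, 22, 14, 12, 7, 9, 19, 4, 0], [0, 1, 2, 11, 5, 8, 19, 7, 4, 10, 20, 13, 16, 3, 18, 15, 17, 12, 22, 21, 9, 6, 14, 23], true),
   ([1, 23, 2, 3, 7, 5, 11, 8, 4, 10, 20, 16, 22, 19, 14, 15, 6, 17, 13, 18, 9, 12, 21, 0], [0, 1, 19, 11, 5, 3, 15, 17, 14, 7, 6, 9, 8, 16, 20, 2, 10, 4, 22, 13, 21, 18, 12, 23], true),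
   ([1, 23, 2, 3, 20, 5, 16, 22, 18, 21, 7, 11, 8, 9, 14, 6, 15, 17, 12, 4, 19, 13, 10, 0], [0, 1, 11, 3, 5, 4, 6, 15, 8, 22, 10, 2, 18, 13, 19, 7, 21, 20, 12, 14, 17, 16, 9, 23], true),
   ([1, 23, 2, 3, 22, 5, 10, 20, 6, 11, 8, 21, 7, 13, 14, 18, 4, 17, 19, 15, 12, 9, 16, 0], [0, 1, 3, 4, 5, 11, 22, 21, 13, 18, 16, 8, 6, 2, 19, 9, 14, 20, 10, 15, 7, 12, 17, 23], true),
   ([1, 23, 2, 3, 18, 5, 19, 6, 20, 13, 4, 9, 15, 11, 14, 22, 8, 17, 10, 7, 16, 21, 12, 0], [0, 1, 19, 20, 5, 11, 7, 21, 13, 8, 14, 18, 15, 12, 3, 9, 16, 4, 17, 6, 22, 2, 10, 23], true),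
   ([1, 23, 2, 3, 19, 5, 18, 12, 16, 15, 9, 4, 13, 7, 14, 10, 21, 17, 22, 11, 20, 8, 6, 0], [0, 1, 4, 3, 5, 20, 9, 6, 18, 13, 16, 14, 21, 7, 19, 22, 8, 11, 10, 17, 2, 12, 15, 23], true),
   ([1, 23, 2, 3, 8, 5, 21, 7, 15, 16, 22, 10, 20, 12, 14, 4, 18, 17, 9, 6, 13, 19, 11, 0], [0, 1, 4, 19, 5, 3, 13, 2, 17, 21, 18, 12, 9, 15, 20, 14, 7, 11, 6, 16, 10, 22, 8, 23], true),
   ([1, 23, 2, 3, 4, 5, 9, 15, 7, 12, 18, 19, 6, 16, 14, 8, 22, 17, 21, 20, 11, 10, 13, 0], [0, 1, 11, 19, 2, 4, 5, 13, 16, 17, 10, 6, 14, 12, 20, 22, 18, 3, 15, 21, 7, 9, 8, 23], true),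
   ([1, 23, 2, 3, 9, 5, 4, 13, 11, 6, 19, 18, 12, 20, 14, 21, 10, 17, 8, 16, 7, 22, 15, 0], [0, 1, 20, 11, 5, 4, 14, 7, 15, 17, 16, 9, 2, 6, 19, 8, 22, 3, 10, 13, 21, 12, 18, 23], true),
   ([1, 23, 2, 3, 15, 5, 13, 4, 8, 19, 6, 12, 18, 10, 14, 7, 20, 17, 11, 22, 21, 16, 9, 0], [0, 1, 11, 4, 5, 3, 16, 14, 2, 10, 22, 8, 12, 13, 20, 17, 21, 19, 18, 15, 7, 6, 9, 23], true),
   ([1, 23, 2, 3, 13, 5, 15, 9, 21, 18, 12, 6, 19, 22, 14, 11, 16, 17, 7, 10, 8, 20, 4, 0], [0, 1, 3, 19, 5, 4, 18, 7, 15, 6, 13, 12, 22, 17, 11, 8, 2, 20, 21, 16, 10, 9, 14, 23], true),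
   ([1, 23, 2, 3, 11, 5, 7, 21, 9, 22, 16, 20, 10, 18, 14, 13, 12, 17, 15, 19, 4, 6, 8, 0], [0, 1, 4, 3, 5, 19, 22, 16, 12, 18, 21, 17, 6, 15, 11, 10, 7, 20, 9, 2, 14, 13, 8, 23], true),
   ([1, 23, 2, 3, 6, 5, 12, 18, 22, 9, 15, 13, 4, 21, 14, 20, 7, 17, 16, 8, 10, 11, 19, 0], [0, 1, 11, 4, 5, 20, 17, 22, 6, 2, 12, 15, 14, 9, 19, 18, 13, 3, 16, 7, 8, 10, 21, 23], true),
   ([1, 23, 2, 3, 12, 5, 6, 19, 10, 4, 13, 15, 9, 8, 14, 16, 11, 17, 20, 21, 22, 7, 18, 0], [0, 1, 19, 11, 5, 20, 2, 6, 18, 14, 8, 13, 17, 12, 4, 22, 16, 3, 15, 21, 9, 7, 10, 23], true),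
   ([1, 23, 2, 3, 16, 5, 20, 10, 19, 8, 11, 7, 21, 4, 14, 12, 13, 17, 6, 9, 18, 15, 22, 0], [0, 1, 3, 11, 5, 19, 6, 10, 16, 22, 15, 9, 18, 14, 4, 12, 17, 20, 7, 13, 21, 8, 2, 23], true),
   ([1, 23, 2, 3, 10, 5, 22, 16, 12, 7, 21, 8, 11, 15, 14, 19, 9, 17, 18, 13, 6, 4, 20, 0], [0, 1, 20, 4, 5, 11, 12, 13, 9, 16, 17, 15, 10, 6, 3, 21, 22, 19, 2, 7, 8, 14, 18, 23], true),
   ([1, 23, 2, 3, 21, 5, 8, 11, 13, 20, 10, 22, 16, 6, 14, 9, 19, 17, 4, 12, 15, 18, 7, 0], [0, 1, 20, 11, 5, 19, 8, 16, 12, 15, 2, 13, 7, 18, 3, 10, 6, 4, 14, 21, 9, 17, 22, 23], true),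
   ([1, 23, 2, 3, 19, 14, 10, 9, 8, 16, 13, 11, 12, 6, 17, 22, 7, 5, 18, 20, 4, 15, 21, 0], [0, 1, 19, 2, 5, 6, 15, 18, 20, 8, 9, 3, 4, 10, 21, 22, 12, 7, 11, 17, 14, 13, 16, 23], true),
   ([1, 23, 2, 3, 4, 14, 8, 18, 10, 7, 6, 20, 15, 13, 17, 21, 16, 5, 9, 11, 19, 12, 22, 0], [0, 1, 3, 2, 4, 5, 18, 7, 8, 21, 12, 13, 10, 11, 17, 15, 19, 14, 6, 16, 22, 9, 20, 23], true),
   ([1, 23, 2, 3, 20, 14, 6, 7, 13, 18, 8, 4, 22, 10, 17, 12, 9, 5, 16, 19, 11, 21, 15, 0], [0, 1, 4, 2, 5, 16, 20, 19, 10, 6, 9, 14, 18, 15, 13, 12, 7, 22, 21, 3, 17, 11, 8, 23], true),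
   ([1, 23, 2, 3, 11, 14, 13, 16, 6, 9, 10, 19, 21, 8, 17, 15, 18, 5, 7, 4, 20, 22, 12, 0], [0, 1, 19, 2, 5, 21, 22, 9, 13, 20, 4, 17, 18, 16, 7, 11, 10, 6, 15, 14, 3, 8, 12, 23], true),
   ([1, 23, 3, 5, 12, 2, 4, 11, 8, 9, 7, 10, 6, 15, 14, 18, 21, 17, 13, 19, 16, 20, 22, 0], [0, 1, 5, 17, 22, 14, 13, 9, 19, 4, 15, 10, 16, 18, 3, 8, 6, 2, 12, 11, 7, 21, 20, 23], true),
   ([1, 23, 3, 5, 4, 2, 12, 22, 16, 6, 10, 7, 9, 19, 14, 13, 20, 17, 18, 15, 8, 21, 11, 0], [0, 1, 5, 17, 11, 14, 18, 6, 15, 12, 19, 7, 8, 13, 3, 16, 9, 2, 4, 22, 10, 20, 21, 23], true),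
   ([1, 23, 3, 5, 6, 2, 9, 7, 21, 4, 11, 22, 12, 13, 14, 19, 8, 17, 15, 18, 20, 16, 10, 0], [0, 1, 5, 17, 8, 14, 12, 19, 9, 18, 6, 21, 11, 4, 3, 22, 15, 2, 13, 16, 20, 10, 7, 23], true),
   ([1, 23, 3, 5, 9, 2, 6, 10, 20, 12, 22, 11, 4, 18, 14, 15, 16, 17, 19, 13, 21, 8, 7, 0], [0, 1, 5, 17, 16, 14, 4, 15, 6, 13, 9, 20, 22, 12, 3, 11, 19, 2, 18, 8, 21, 7, 10, 23], true),
   ([1, 23, 3, 4, 2, 20, 21, 15, 10, 7, 18, 13, 6, 14, 11, 9, 5, 19, 8, 22, 16, 12, 17, 0], [0, 1, 2, 3, 4, 5, 6, 7, 8, 9, 10, 11, 12, 13, 14, 15, 16, 17, 18, 19, 20, 21, 22, 23], false),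
   ([1, 23, 3, 4, 2, 11, 9, 18, 12, 10, 6, 22, 15, 17, 19, 8, 14, 20, 21, 16, 13, 7, 5, 0], [0, 1, 3, 4, 2, 11, 15, 12, 8, 9, 7, 13, 10, 5, 19, 18, 17, 20, 6, 22, 16, 21, 14, 23], false),
   ([1, 23, 3, 4, 2, 19, 8, 6, 7, 12, 15, 16, 18, 5, 20, 21, 17, 11, 9, 13, 22, 10, 14, 0], [0, 1, 4, 2, 3, 13, 18, 10, 8, 9, 12, 5, 7, 11, 22, 6, 20, 16, 15, 14, 17, 21, 19, 23], false)]

/-- Words of the conjugators of `trip3`. -/
def cw3 : List (List ℕ) :=
  [[],
   [17, 20, 16, 22, 30, 28, 26],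
   [20, 22, 28, 26, 24],
   [20, 23, 30, 24],
   [19, 10, 16, 23, 30, 28],
   [19, 16, 20, 22, 30, 28],
   [18, 10, 17, 21, 16, 30, 26],
   [19, 10, 17, 23, 26, 24],
   [19, 11, 11, 20, 16, 22, 30, 26],
   [19, 11, 11, 20, 30],
   [19, 16, 21, 30, 28, 26, 24],
   [10, 18, 10, 20, 20, 16, 30, 26],
   [19, 16, 21, 16, 30, 28],
   [18, 10, 17, 20, 16, 22],
   [19, 11, 11, 20, 16, 23],
   [19, 16, 21, 16, 22, 30, 28],
   [19, 10, 16, 30, 28],
   [18, 10, 17, 20, 24],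
   [10, 18, 10, 22, 28, 24],
   [10, 18, 10, 20, 20, 16, 22],
   [19, 10, 20, 16, 23, 30],
   [18, 10, 21, 23, 30, 28],
   [19, 11, 11, 17, 21, 22, 28, 26],
   [19, 10, 20, 16, 24],
   [11, 16, 20, 16, 22, 26],
   [11, 16, 20, 16, 22, 28, 26],
   [11, 16, 20, 16, 22, 28],
   [11, 16, 20, 16, 22],
   [],
   [18, 10, 17, 21, 16, 26],
   [19, 11, 11, 17, 21, 23, 28, 26, 24]]

theorem cw3_tab : cw3.map (prodT sgsTabs) = trip3.map (fun t => t.2.1) := by decide +kernel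

theorem trip3_ok : trip3.all (fun t =>
    compT t.2.1 t.1 == compT (if t.2.2 then R6T else R0T) t.2.1) = true := by decide +kernel

theorem cands3_ok : cands3.all (fun T =>
    !(compT T (compT T T) == idT) || T == idT || trip3.any (fun t => t.1 == T)) = true := by
  decide +kernel

theorem conj_of_trip {x r : Equiv.Perm GolayPt} {T K R : List ℕ} {wk : List ℕ}
    (hx : HasTable x T) (hr : HasTable r R) (hK : K = prodT sgsTabs wk)
    (h : compT K T = compT R K) :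
    prodW sgsEnv wk * x * (prodW sgsEnv wk)⁻¹ = r := by
  have hk := (good_sgs_M24.prod wk).2
  rw [← hK] at hk
  have h1 := hasTable_mul hk hx
  have h2 := hasTable_mul hr hk
  rw [h] at h1
  rw [h1.eq_of_eq h2]
  group

/-- Every element of order 3 of `M24` is conjugate to `r6` or to `r0`. -/
theorem class3 (x : Equiv.Perm GolayPt) (hx : x ∈ M24) (hne : x ≠ 1) (h3 : x ^ 3 = 1) :
    ∃ k ∈ M24, k * x * k⁻¹ = r6 ∨ k * x * k⁻¹ = r0 := by
  obtain ⟨g, hg, T, hT, hTt⟩ := nf3 x hx hne h3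
  have hne' : g * x * g⁻¹ ≠ 1 := by
    intro h
    apply hne
    have : x = g⁻¹ * (g * x * g⁻¹) * g := by group
    rw [this, h]
    group
  have h3' : (g * x * g⁻¹) ^ 3 = 1 := by
    rw [conj_pow, h3, mul_one, mul_inv_cancel]
  have hc := List.all_eq_true.mp cands3_ok T hT
  rw [table_of_pow_three hTt h3'] at hc
  have hTne := table_ne_id hTt hne'
  simp only [beq_self_eq_true, Bool.not_true, Bool.false_or, Bool.or_eq_true, beq_iff_eq,
    List.any_eq_true] at hc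
  rcases hc with hc | ⟨t, ht, htT⟩
  · exact absurd hc hTne
  · have hK : t.2.1 ∈ cw3.map (prodT sgsTabs) := by
      rw [cw3_tab]
      exact List.mem_map_of_mem ht
    rw [List.mem_map] at hK
    obtain ⟨wk, _, hwk⟩ := hK
    have hok := List.all_eq_true.mp trip3_ok t ht
    rw [beq_iff_eq, htT] at hok
    have hkm := (good_sgs_M24.prod wk).1
    refine ⟨prodW sgsEnv wk * g, M24.mul_mem hkm hg, ?_⟩
    have e : prodW sgsEnv wk * g * x * (prodW sgsEnv wk * g)⁻¹ =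
        prodW sgsEnv wk * (g * x * g⁻¹) * (prodW sgsEnv wk)⁻¹ := by group
    rw [e]
    cases hb : t.2.2 with
    | true =>
      rw [hb] at hok
      left
      exact conj_of_trip hTt r6_table hwk.symm hok
    | false =>
      rw [hb] at hok
      right
      exact conj_of_trip hTt r0_table hwk.symm hok

theorem r6_facts : compT R6T (compT R6T R6T) = idT ∧ fixCount R6T = 6 ∧ R6T ≠ idT := by
  decide +kernel

theorem r0_facts : compT R0T (compT R0T R0T) = idT ∧ fixCount R0T = 0 ∧ R0T ≠ idT := by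
  decide +kernel

/-! ### Involutions -/

def wA2 : List ℕ := [2, 9, 9, 13, 8, 11, 11, 17, 21]
def uA2 : List ℕ := [23, 1, 2, 3, 9, 5, 22, 13, 21, 8, 12, 7, 19, 15, 17, 11, 10, 14, 6, 16, 18, 4, 20, 0]
theorem uA2_tab : prodT sgsTabs wA2 = uA2 := by decide +kernel

def wB52 : List ℕ := [2, 8, 12, 9, 18, 10, 10, 20, 16]
def uB52 : List ℕ := [23, 2, 1, 5, 22, 3, 21, 19, 18, 20, 15, 12, 11, 16, 17, 10, 13, 14, 8, 7, 9, 6, 4, 0]
theorem uB52_tab : prodT sgsTabs wB52 = uB52 := by decide +kernel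

def wB42 : List ℕ := [2, 8, 12, 9, 18, 10, 10, 17]
def uB42 : List ℕ := [23, 2, 1, 4, 12, 16, 10, 20, 6, 17, 5, 19, 21, 11, 22, 3, 18, 13, 7, 15, 14, 9, 8, 0]
theorem uB42_tab : prodT sgsTabs wB42 = uB42 := by decide +kernel

/-- Candidate tables for involutions in normal form. -/
def cands2 : List (List ℕ) := cosetT uA2 ++ cosetT uB52 ++ cosetT uB42

/-- Every involution of `M24` has a conjugate with table in `cands2`. -/
theorem nf2 (x : Equiv.Perm GolayPt) (hx : x ∈ M24) (hne : x ≠ 1) (h2 : x ^ 2 = 1) :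
    ∃ g ∈ M24, ∃ T ∈ cands2, HasTable (g * x * g⁻¹) T := by
  have hx2 : ∀ p, x (x p) = p := by
    intro p
    have := congrArg (fun f : Equiv.Perm GolayPt => f p) h2
    simpa [pow_succ, Equiv.Perm.mul_apply] using this
  obtain ⟨u, hu⟩ : ∃ u, x u ≠ u := by
    by_contra hcon
    push Not at hcon
    exact hne (Equiv.ext hcon)
  by_cases hA : ∃ a b c : GolayPt, a ≠ b ∧ a ≠ c ∧ b ≠ c ∧ x a = a ∧ x b = b ∧ x c = c
  · obtain ⟨a, b, c, hab, hac, hbc, ha, hb, hc⟩ := hA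
    have nfix : ∀ {p : GolayPt}, x p = p → u ≠ p ∧ x u ≠ p := by
      intro p hp
      refine ⟨fun h => hu (h ▸ hp), fun h => hu ?_⟩
      have := hx2 u
      rw [h, hp] at this
      rw [← this, hp, this]
    obtain ⟨g, hg, e0, e1, e2, e3, e4⟩ :=
      exists_map_five (Ne.symm hu) (nfix ha).1 (nfix hb).1 (nfix hc).1 (nfix ha).2 (nfix hb).2
        (nfix hc).2 hab hac hbc
    refine ⟨g, hg, ?_⟩
    have hmem := mem_cosetT (w := wA2) (M24.mul_mem (M24.mul_mem hg hx) (M24.inv_mem hg))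
      (by
        rw [uA2_tab]
        intro i hi
        simp only [List.mem_cons, List.not_mem_nil, or_false] at hi
        rcases hi with rfl | rfl | rfl | rfl | rfl
        · rw [conj_apply_of e4, hc, e4]; rfl
        · rw [conj_apply_of e3, hb, e3]; rfl
        · rw [conj_apply_of e2, ha, e2]; rfl
        · rw [conj_apply_of e1, hx2, e0]; rfl
        · rw [conj_apply_of e0, e1]; rfl)
    rw [uA2_tab] at hmem
    obtain ⟨T, hT, hTt⟩ := hmem
    exact ⟨T, List.mem_append_left _ (List.mem_append_left _ hT), hTt⟩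
  · obtain ⟨v, hvS, hv⟩ := exists_moved_outside x {u, x u}
      (Finset.card_le_two.trans (by norm_num)) hA
    simp only [Finset.mem_insert, Finset.mem_singleton, not_or] at hvS
    obtain ⟨nvu, nv1⟩ := hvS
    have a1 : x v ≠ u := fun h => nv1 (by
      have := hx2 v
      rw [h] at this
      exact this.symm)
    have a2 : x v ≠ x u := fun h => nvu (x.injective h)
    obtain ⟨w, hwS, hw⟩ := exists_moved_outside x {u, x u, v, x v}
      Finset.card_le_four hA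
    simp only [Finset.mem_insert, Finset.mem_singleton, not_or] at hwS
    obtain ⟨nwu, nw1, nwv, nwv1⟩ := hwS
    have c1 : x w ≠ u := fun h => nw1 (by
      have := hx2 w
      rw [h] at this
      exact this.symm)
    have c2 : x w ≠ x u := fun h => nwu (x.injective h)
    have c3 : x w ≠ v := fun h => nwv1 (by
      have := hx2 w
      rw [h] at this
      exact this.symm)
    have c4 : x w ≠ x v := fun h => nwv (x.injective h)
    obtain ⟨g, hg, e0, e1, e2, e3, e4⟩ :=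
      exists_map_five (Ne.symm hu) (Ne.symm nvu) (Ne.symm a1) (Ne.symm nwu) (Ne.symm nv1)
        (Ne.symm a2) (Ne.symm nw1) (Ne.symm hv) (Ne.symm nwv) (Ne.symm nwv1)
    have q23 : g (x w) ≠ pt 23 := by rw [← e0]; exact fun h => c1 (g.injective h)
    have q0 : g (x w) ≠ pt 0 := by rw [← e1]; exact fun h => c2 (g.injective h)
    have q1 : g (x w) ≠ pt 1 := by rw [← e2]; exact fun h => c3 (g.injective h)
    have q2 : g (x w) ≠ pt 2 := by rw [← e3]; exact fun h => c4 (g.injective h)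
    have q3 : g (x w) ≠ pt 3 := by rw [← e4]; exact fun h => hw (g.injective h)
    obtain ⟨s, hs, hsq⟩ := exists_norm_q _ q23 q0 q1 q2 q3
    have s23 : s (pt 23) = pt 23 := hs.2 23 (by simp)
    have s0 : s (pt 0) = pt 0 := hs.2 0 (by simp)
    have s1 : s (pt 1) = pt 1 := hs.2 1 (by simp)
    have s2 : s (pt 2) = pt 2 := hs.2 2 (by simp)
    have s3 : s (pt 3) = pt 3 := hs.2 3 (by simp)
    have f0 : (s * g) u = pt 23 := by rw [Equiv.Perm.mul_apply, e0, s23]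
    have f1 : (s * g) (x u) = pt 0 := by rw [Equiv.Perm.mul_apply, e1, s0]
    have f2 : (s * g) v = pt 1 := by rw [Equiv.Perm.mul_apply, e2, s1]
    have f3 : (s * g) (x v) = pt 2 := by rw [Equiv.Perm.mul_apply, e3, s2]
    have f4 : (s * g) w = pt 3 := by rw [Equiv.Perm.mul_apply, e4, s3]
    have hsg : s * g ∈ M24 := M24.mul_mem hs.1 hg
    refine ⟨s * g, hsg, ?_⟩
    rcases hsq with hsq | hsq
    · have hmem := mem_cosetT (w := wB52) (M24.mul_mem (M24.mul_mem hsg hx) (M24.inv_mem hsg))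
        (by
          rw [uB52_tab]
          intro i hi
          simp only [List.mem_cons, List.not_mem_nil, or_false] at hi
          rcases hi with rfl | rfl | rfl | rfl | rfl
          · rw [conj_apply_of f4, Equiv.Perm.mul_apply, hsq]; rfl
          · rw [conj_apply_of f3, hx2, f2]; rfl
          · rw [conj_apply_of f2, f3]; rfl
          · rw [conj_apply_of f1, hx2, f0]; rfl
          · rw [conj_apply_of f0, f1]; rfl)
      rw [uB52_tab] at hmem
      obtain ⟨T, hT, hTt⟩ := hmem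
      exact ⟨T, List.mem_append_left _ (List.mem_append_right _ hT), hTt⟩
    · have hmem := mem_cosetT (w := wB42) (M24.mul_mem (M24.mul_mem hsg hx) (M24.inv_mem hsg))
        (by
          rw [uB42_tab]
          intro i hi
          simp only [List.mem_cons, List.not_mem_nil, or_false] at hi
          rcases hi with rfl | rfl | rfl | rfl | rfl
          · rw [conj_apply_of f4, Equiv.Perm.mul_apply, hsq]; rfl
          · rw [conj_apply_of f3, hx2, f2]; rfl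
          · rw [conj_apply_of f2, f3]; rfl
          · rw [conj_apply_of f1, hx2, f0]; rfl
          · rw [conj_apply_of f0, f1]; rfl)
      rw [uB42_tab] at hmem
      obtain ⟨T, hT, hTt⟩ := hmem
      exact ⟨T, List.mem_append_right _ hT, hTt⟩

/-- Word of the representative involution with eight fixed points. -/
def w8 : List ℕ := [2, 9, 9, 13, 8, 11, 11, 17, 21, 26, 24]
/-- Table of the representative involution with eight fixed points. -/
def T8T : List ℕ := [23, 1, 2, 3, 13, 5, 20, 9, 11, 7, 19, 8, 12, 4, 17, 21, 16, 14, 18, 10, 6, 15, 22, 0]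
theorem T8T_tab : prodT sgsTabs w8 = T8T := by decide +kernel

/-- Word of the fixed-point-free representative involution. -/
def wf0 : List ℕ := [2, 8, 12, 9, 18, 10, 10, 17, 28, 26]
/-- Table of the fixed-point-free representative involution. -/
def T0T : List ℕ := [23, 2, 1, 4, 3, 16, 7, 6, 20, 11, 18, 9, 15, 17, 22, 12, 5, 13, 10, 21, 8, 19, 14, 0]
theorem T0T_tab : prodT sgsTabs wf0 = T0T := by decide +kernel

/-- The representative involution with eight fixed points. -/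
noncomputable def t8 : Equiv.Perm GolayPt := prodW sgsEnv w8
/-- The fixed-point-free representative involution. -/
noncomputable def t0 : Equiv.Perm GolayPt := prodW sgsEnv wf0

theorem t8_mem : t8 ∈ M24 := (good_sgs_M24.prod w8).1
theorem t0_mem : t0 ∈ M24 := (good_sgs_M24.prod wf0).1
theorem t8_table : HasTable t8 T8T := by
  have := (good_sgs_M24.prod w8).2
  rwa [T8T_tab] at this
theorem t0_table : HasTable t0 T0T := by
  have := (good_sgs_M24.prod wf0).2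
  rwa [T0T_tab] at this

/-- Conjugating data: candidate, conjugator, and whether the target is `T8T`. -/
def trip2 : List (List ℕ × List ℕ × Bool) :=
  [([23, 1, 2, 3, 13, 5, 20, 9, 11, 7, 19, 8, 12, 4, 17, 21, 16, 14, 18, 10, 6, 15, 22, 0], [0, 1, 2, 3, 4, 5, 6, 7, 8, 9, 10, 11, 12, 13, 14, 15, 16, 17, 18, 19, 20, 21, 22, 23], true),
   ([23, 1, 2, 3, 11, 5, 6, 21, 13, 15, 10, 4, 16, 8, 17, 9, 12, 14, 22, 19, 20, 7, 18, 0], [0, 1, 18, 16, 4, 3, 5, 20, 19, 8, 12, 13, 15, 10, 9, 11, 21, 7, 17, 22, 2, 6, 14, 23], true),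
   ([23, 1, 2, 3, 4, 5, 10, 15, 8, 21, 6, 11, 18, 13, 17, 7, 22, 14, 12, 20, 19, 9, 16, 0], [0, 1, 5, 2, 12, 3, 4, 15, 22, 9, 13, 18, 6, 16, 14, 21, 10, 17, 20, 8, 11, 7, 19, 23], true),
   ([23, 1, 2, 3, 8, 5, 19, 7, 4, 9, 20, 13, 22, 11, 17, 15, 18, 14, 16, 6, 10, 21, 12, 0], [0, 1, 5, 18, 4, 22, 17, 2, 13, 12, 19, 21, 9, 15, 20, 16, 8, 6, 11, 14, 10, 3, 7, 23], true),
   ([23, 1, 2, 3, 21, 17, 13, 16, 8, 9, 10, 12, 11, 6, 14, 20, 7, 5, 18, 22, 15, 4, 19, 0], [0, 1, 12, 5, 4, 10, 20, 14, 18, 3, 22, 8, 11, 6, 16, 21, 17, 19, 2, 7, 15, 13, 9, 23], true),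
   ([23, 1, 2, 3, 4, 17, 7, 6, 9, 8, 18, 20, 15, 16, 14, 12, 13, 5, 10, 19, 11, 21, 22, 0], [0, 1, 22, 16, 12, 4, 20, 6, 17, 14, 8, 10, 7, 21, 2, 9, 15, 13, 11, 5, 19, 18, 3, 23], true),
   ([23, 1, 2, 3, 22, 17, 6, 7, 10, 18, 8, 15, 20, 13, 14, 11, 16, 5, 9, 21, 12, 19, 4, 0], [0, 1, 16, 18, 4, 9, 5, 12, 6, 8, 20, 14, 15, 22, 3, 17, 2, 7, 11, 10, 21, 19, 13, 23], true),
   ([23, 1, 2, 3, 19, 17, 16, 13, 18, 10, 9, 11, 12, 7, 14, 15, 6, 5, 8, 4, 20, 22, 21, 0], [0, 1, 5, 22, 4, 20, 9, 11, 19, 17, 14, 16, 12, 8, 18, 3, 7, 6, 10, 13, 2, 21, 15, 23], true),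
   ([23, 1, 2, 3, 4, 14, 12, 18, 21, 9, 15, 19, 6, 22, 5, 10, 16, 17, 7, 11, 20, 8, 13, 0], [0, 1, 16, 22, 5, 4, 14, 15, 8, 3, 9, 20, 17, 19, 13, 7, 12, 2, 21, 6, 18, 11, 10, 23], true),
   ([23, 1, 2, 3, 16, 14, 8, 11, 6, 20, 10, 7, 21, 13, 5, 15, 4, 17, 19, 18, 9, 12, 22, 0], [0, 1, 22, 3, 4, 15, 9, 8, 7, 6, 18, 11, 17, 16, 21, 5, 13, 12, 10, 19, 20, 14, 2, 23], true),
   ([23, 1, 2, 3, 9, 14, 6, 19, 8, 4, 13, 18, 12, 10, 5, 22, 20, 17, 11, 7, 16, 21, 15, 0], [0, 1, 3, 12, 4, 15, 16, 7, 5, 13, 10, 17, 2, 19, 21, 8, 20, 22, 14, 9, 6, 18, 11, 23], true),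
   ([23, 1, 2, 3, 20, 14, 21, 7, 12, 16, 22, 11, 8, 15, 5, 13, 9, 17, 18, 19, 4, 6, 10, 0], [0, 1, 5, 16, 4, 19, 17, 3, 20, 9, 21, 22, 6, 8, 10, 11, 7, 12, 18, 2, 13, 14, 15, 23], true),
   ([23, 2, 1, 5, 22, 3, 21, 19, 18, 20, 15, 12, 11, 16, 17, 10, 13, 14, 8, 7, 9, 6, 4, 0], [0, 6, 7, 1, 22, 2, 9, 8, 17, 10, 12, 5, 16, 4, 19, 15, 3, 21, 13, 20, 18, 11, 14, 23], false),
   ([23, 2, 1, 5, 11, 3, 20, 15, 13, 21, 19, 4, 22, 8, 17, 7, 18, 14, 16, 10, 6, 9, 12, 0], [0, 1, 2, 19, 14, 21, 20, 10, 4, 12, 11, 22, 13, 3, 6, 18, 5, 7, 16, 9, 8, 15, 17, 23], false),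
   ([23, 2, 1, 5, 16, 3, 7, 6, 12, 10, 9, 18, 8, 22, 17, 20, 4, 14, 11, 21, 15, 19, 13, 0], [0, 6, 7, 1, 9, 2, 22, 14, 18, 16, 5, 12, 10, 20, 19, 13, 11, 21, 15, 4, 17, 3, 8, 23], false),
   ([23, 2, 1, 5, 18, 3, 9, 10, 22, 6, 7, 16, 13, 12, 17, 19, 11, 14, 4, 15, 21, 20, 8, 0], [0, 1, 2, 6, 17, 7, 20, 10, 22, 8, 18, 4, 16, 5, 19, 11, 3, 21, 13, 9, 12, 15, 14, 23], false),
   ([23, 2, 1, 5, 8, 3, 10, 9, 4, 7, 6, 13, 16, 11, 17, 21, 12, 14, 22, 20, 19, 15, 18, 0], [0, 1, 2, 19, 20, 21, 14, 17, 8, 13, 22, 11, 12, 9, 6, 16, 15, 7, 18, 3, 4, 5, 10, 23], false),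
   ([23, 2, 1, 5, 13, 3, 6, 7, 11, 9, 10, 8, 18, 4, 17, 15, 22, 14, 12, 19, 20, 21, 16, 0], [0, 4, 13, 6, 11, 20, 16, 1, 19, 12, 18, 10, 7, 8, 15, 3, 17, 21, 9, 2, 5, 22, 14, 23], true),
   ([23, 2, 1, 5, 12, 3, 15, 20, 16, 19, 21, 22, 4, 18, 17, 6, 8, 14, 13, 9, 7, 10, 11, 0], [0, 1, 2, 6, 20, 7, 17, 14, 12, 16, 4, 18, 8, 9, 19, 13, 15, 21, 11, 5, 22, 3, 10, 23], false),
   ([23, 2, 1, 5, 4, 3, 19, 21, 8, 15, 20, 11, 12, 13, 17, 9, 16, 14, 18, 6, 10, 7, 22, 0], [0, 4, 13, 6, 16, 20, 11, 14, 5, 7, 10, 18, 12, 2, 15, 9, 22, 21, 3, 8, 19, 17, 1, 23], true),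
   ([23, 2, 1, 4, 3, 16, 7, 6, 20, 11, 18, 9, 15, 17, 22, 12, 5, 13, 10, 21, 8, 19, 14, 0], [0, 1, 2, 3, 4, 5, 6, 7, 8, 9, 10, 11, 12, 13, 14, 15, 16, 17, 18, 19, 20, 21, 22, 23], false),
   ([23, 2, 1, 4, 3, 22, 12, 18, 19, 20, 15, 21, 6, 14, 13, 10, 17, 16, 7, 8, 9, 11, 5, 0], [0, 1, 2, 3, 4, 17, 18, 12, 9, 21, 7, 20, 10, 16, 5, 6, 22, 14, 15, 11, 19, 8, 13, 23], false),
   ([23, 2, 1, 4, 3, 13, 10, 15, 11, 19, 6, 8, 18, 5, 16, 7, 14, 22, 12, 9, 21, 20, 17, 0], [0, 1, 2, 3, 4, 14, 15, 10, 21, 8, 12, 19, 7, 22, 17, 18, 13, 5, 6, 20, 11, 9, 16, 23], false)]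

/-- Words of the conjugators of `trip2`. -/
def cw2 : List (List ℕ) :=
  [[],
   [18, 11, 20, 16, 30, 24],
   [11, 16, 21, 23],
   [11, 21, 17, 20, 16, 30, 28, 26, 24],
   [19, 19, 10, 17, 20, 30, 26, 24],
   [11, 19, 19, 16, 21, 16, 23, 28, 26],
   [18, 18, 10, 10, 21, 30, 26, 24],
   [11, 20, 17, 20, 30, 26],
   [18, 18, 10, 10, 17, 20, 16, 23],
   [11, 19, 19, 17, 21, 28],
   [18, 10, 21, 17, 20],
   [11, 17, 20, 23],
   [9, 19, 19, 20, 17, 20, 16, 23, 28, 24],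
   [21, 17, 20, 23],
   [9, 19, 19, 20, 17, 20, 16, 23, 30, 24],
   [21, 17, 20, 16, 22, 28, 26, 24],
   [21, 17, 20, 23, 30, 28],
   [9, 13, 8, 19, 10, 20, 16, 22, 26, 24],
   [21, 17, 20, 16, 22, 30, 26, 24],
   [9, 13, 8, 19, 10, 20, 16, 22, 30, 28, 26, 24],
   [],
   [23, 30, 26],
   [22, 28, 26]]

theorem cw2_tab : cw2.map (prodT sgsTabs) = trip2.map (fun t => t.2.1) := by decide +kernel

theorem trip2_ok : trip2.all (fun t =>
    compT t.2.1 t.1 == compT (if t.2.2 then T8T else T0T) t.2.1) = true := by decide +kernel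

theorem cands2_ok : cands2.all (fun T =>
    !(compT T T == idT) || T == idT || trip2.any (fun t => t.1 == T)) = true := by
  decide +kernel

/-- Every involution of `M24` is conjugate to `t8` or to `t0`. -/
theorem class2 (x : Equiv.Perm GolayPt) (hx : x ∈ M24) (hne : x ≠ 1) (h2 : x ^ 2 = 1) :
    ∃ k ∈ M24, k * x * k⁻¹ = t8 ∨ k * x * k⁻¹ = t0 := by
  obtain ⟨g, hg, T, hT, hTt⟩ := nf2 x hx hne h2
  have hne' : g * x * g⁻¹ ≠ 1 := by
    intro h
    apply hne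
    have : x = g⁻¹ * (g * x * g⁻¹) * g := by group
    rw [this, h]
    group
  have h2' : (g * x * g⁻¹) ^ 2 = 1 := by
    rw [conj_pow, h2, mul_one, mul_inv_cancel]
  have hc := List.all_eq_true.mp cands2_ok T hT
  rw [table_of_pow_two hTt h2'] at hc
  have hTne := table_ne_id hTt hne'
  simp only [beq_self_eq_true, Bool.not_true, Bool.false_or, Bool.or_eq_true, beq_iff_eq,
    List.any_eq_true] at hc
  rcases hc with hc | ⟨t, ht, htT⟩
  · exact absurd hc hTne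
  · have hK : t.2.1 ∈ cw2.map (prodT sgsTabs) := by
      rw [cw2_tab]
      exact List.mem_map_of_mem ht
    rw [List.mem_map] at hK
    obtain ⟨wk, _, hwk⟩ := hK
    have hok := List.all_eq_true.mp trip2_ok t ht
    rw [beq_iff_eq, htT] at hok
    have hkm := (good_sgs_M24.prod wk).1
    refine ⟨prodW sgsEnv wk * g, M24.mul_mem hkm hg, ?_⟩
    have e : prodW sgsEnv wk * g * x * (prodW sgsEnv wk * g)⁻¹ =
        prodW sgsEnv wk * (g * x * g⁻¹) * (prodW sgsEnv wk)⁻¹ := by group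
    rw [e]
    cases hb : t.2.2 with
    | true =>
      rw [hb] at hok
      left
      exact conj_of_trip hTt t8_table hwk.symm hok
    | false =>
      rw [hb] at hok
      right
      exact conj_of_trip hTt t0_table hwk.symm hok

theorem t8_facts : compT T8T T8T = idT ∧ fixCount T8T = 8 ∧ T8T ≠ idT := by decide +kernel

theorem t0_facts : compT T0T T0T = idT ∧ fixCount T0T = 0 ∧ T0T ≠ idT := by decide +kernel

end Cfsg.Agent.Lib.Helper94
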